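import Mathlib
import Cfsg.Agent.H20.External
import Cfsg.Agent.H28.ZStar

/-!
# Coprime automorphisms centralising an involution centraliser

If a coprime automorphism `α` fixes the centraliser of an involution `τ` elementwise, then `τ` has
a unique conjugate in the fixed-point subgroup modulo the core of that subgroup, so the Z*-theorem
applies.
-/

set_option autoImplicit false

namespace Cfsg.Agent.H32.CoprimeInvolution

open SemidirectProduct (inl inr)

variable {G : Type*} [Group G] [Finite G]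

/-- The fixed-point subgroup of an automorphism. -/
def fixedPts (α : MulAut G) : Subgroup G where
  carrier := {g | α g = g}
  mul_mem' {a b} ha hb := by show α (a * b) = a * b; rw [map_mul, ha, hb]
  one_mem' := map_one α
  inv_mem' {a} ha := by show α a⁻¹ = a⁻¹; rw [map_inv, ha]

variable {α : MulAut G} {τ : G}

omit [Finite G] in
theorem mem_fixedPts {g : G} : g ∈ fixedPts α ↔ α g = g := Iff.rfl

/-- An element moved by `α` only by a fixed element is fixed. -/
theorem eq_of_fixed_diff (hcop : (orderOf α).Coprime (Nat.card G)) {x h : G}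
    (hx : α x = x * h) (hh : α h = h) : α x = x := by
  have key : ∀ k : ℕ, (α ^ k) x = x * h ^ k := by
    intro k
    induction k with
    | zero => simp
    | succ k ih => rw [pow_succ', MulAut.mul_apply, ih, map_mul, hx, map_pow, hh, mul_assoc, pow_succ']
  have h1 := key (orderOf α)
  rw [pow_orderOf_eq_one, MulAut.one_apply] at h1
  have h2 : h ^ orderOf α = 1 := by simpa using h1.symm
  have h3 : orderOf h ∣ 1 := by
    rw [← hcop]
    exact Nat.dvd_gcd (orderOf_dvd_of_pow_eq_one h2) (orderOf_dvd_natCard h)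
  rw [hx, orderOf_eq_one_iff.mp (Nat.dvd_one.mp h3), mul_one]

variable (hcop : (orderOf α).Coprime (Nat.card G))
  (hC : ∀ c ∈ Subgroup.centralizer ({τ} : Set G), α c = c)

include hcop hC

/-- Fusion of `τ` into the fixed-point subgroup is realised there. -/
theorem mem_of_conj_mem {x : G} (hx : x * τ * x⁻¹ ∈ fixedPts α) : x ∈ fixedPts α := by
  have hτ : α τ = τ := hC τ (Subgroup.mem_centralizer_singleton_iff.mpr rfl)
  have h1 : α x * τ * (α x)⁻¹ = x * τ * x⁻¹ := by
    have h2 : α (x * τ * x⁻¹) = x * τ * x⁻¹ := hx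
    rwa [map_mul, map_mul, map_inv, hτ] at h2
  have h3 : x⁻¹ * α x ∈ Subgroup.centralizer ({τ} : Set G) := by
    refine Subgroup.mem_centralizer_singleton_iff.mpr ?_
    calc x⁻¹ * α x * τ = x⁻¹ * (α x * τ * (α x)⁻¹) * α x := by group
      _ = x⁻¹ * (x * τ * x⁻¹) * α x := by rw [h1]
      _ = τ * (x⁻¹ * α x) := by group
  exact eq_of_fixed_diff hcop (h := x⁻¹ * α x) (by group) (hC _ h3)

/-- A Sylow `2`-subgroup lies in the fixed-point subgroup. -/
theorem exists_sylow_fixed (hτ : orderOf τ = 2) :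
    ∃ T : Sylow 2 G, (T : Subgroup G) ≤ fixedPts α := by
  haveI := Fact.mk Nat.prime_two
  have hp : IsPGroup 2 (Subgroup.zpowers τ) :=
    IsPGroup.of_card (n := 1) (by rw [Nat.card_zpowers, hτ, pow_one])
  obtain ⟨T, hT⟩ := hp.exists_le_sylow
  refine ⟨T, ?_⟩
  haveI : Group.IsNilpotent (T : Subgroup G) := T.2.isNilpotent
  by_contra hne
  set W : Subgroup (T : Subgroup G) := (fixedPts α).subgroupOf (T : Subgroup G) with hW
  have hlt : W < ⊤ := lt_top_iff_ne_top.mpr fun h => hne (Subgroup.subgroupOf_eq_top.mp h)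
  obtain ⟨y, hyN, hyW⟩ := SetLike.exists_of_lt (Group.normalizerCondition_of_isNilpotent _ hlt)
  have hτW : (⟨τ, hT (Subgroup.mem_zpowers τ)⟩ : (T : Subgroup G)) ∈ W :=
    Subgroup.mem_subgroupOf.mpr (hC τ (Subgroup.mem_centralizer_singleton_iff.mpr rfl))
  have h1 := (Subgroup.mem_normalizer_iff.mp hyN _).mp hτW
  exact hyW (Subgroup.mem_subgroupOf.mpr (mem_of_conj_mem hcop hC (Subgroup.mem_subgroupOf.mp h1)))

/-- An invariant subgroup has a fixed Sylow `2`-subgroup. -/
theorem exists_fixed_sylow_of_invariant (hτ : orderOf τ = 2) (X : Subgroup G)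
    (hX : ∀ x ∈ X, α x ∈ X) :
    ∃ U : Subgroup G, U ≤ X ∧ U ≤ fixedPts α ∧
      Nat.card U = 2 ^ (Nat.card X).factorization 2 := by
  haveI := Fact.mk Nat.prime_two
  obtain ⟨T, hT⟩ := exists_sylow_fixed hcop hC hτ
  let A : Subgroup (MulAut G) := Subgroup.zpowers α
  let φ : A →* MulAut G := A.subtype
  haveI := H20.External.finite_semidirect φ
  set A' := (inr : A →* G ⋊[φ] A).range with hA'
  set K' := (inl : G →* G ⋊[φ] A).range with hK'
  have hAcop : (Nat.card A').Coprime (Nat.card K') := by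
    rw [hA', hK', H20.External.card_range_inr, H20.External.card_range_inl, Nat.card_zpowers]
    exact hcop
  have hsolv : Group.IsSolvable A ∨ Group.IsSolvable G := by
    left
    exact Group.isSolvable_of_comm fun a b => mul_comm' a b
  have hsolv' := H20.External.solvable_range φ hsolv
  have hAK : A' ≤ Subgroup.normalizer (K' : Set (G ⋊[φ] A)) := by
    rw [Subgroup.le_normalizer_iff]
    rintro _ ⟨a, rfl⟩ _ ⟨k, rfl⟩
    exact ⟨φ a k, (H20.External.conj_inl φ a k).symm⟩
  have hpow : ∀ (Y : Subgroup G), (∀ x ∈ Y, α x ∈ Y) → ∀ a : A, ∀ x ∈ Y, φ a x ∈ Y := by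
    intro Y hY a x hx
    obtain ⟨m, hm⟩ := (IsOfFinOrder.mem_powers_iff_mem_zpowers (isOfFinOrder_of_finite α)).mpr a.2
    have key : ∀ k : ℕ, (α ^ k) x ∈ Y := by
      intro k
      induction k with
      | zero => simpa using hx
      | succ k ih => rw [pow_succ', MulAut.mul_apply]; exact hY _ ih
    have : φ a x = (α ^ m) x := by
      rw [show φ a = (a : MulAut G) from rfl, ← hm]
    rw [this]
    exact key m
  have hAX : A' ≤ Subgroup.normalizer ((X.map inl : Subgroup (G ⋊[φ] A)) : Set (G ⋊[φ] A)) :=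
    H20.External.range_le_normalizer φ X (hpow X hX)
  have hAT : A' ≤ Subgroup.normalizer
      (((T : Subgroup G).map inl : Subgroup (G ⋊[φ] A)) : Set (G ⋊[φ] A)) :=
    H20.External.range_le_normalizer φ _
      (hpow _ fun x hx => by rw [show α x = x from hT hx]; exact hx)
  have hXK : X.map inl ≤ K' := Subgroup.map_le_range _ _
  obtain ⟨P, hPX, hPA, hPp, hPc⟩ := H20.exists_invariant_sylow_subgroup hAX
    (H20.coprime_card_mono_right hAcop hXK) (H20.solvable_or_mono hsolv' le_rfl hXK) 2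
  obtain ⟨R, hPR, hRA⟩ := H20.exists_invariant_sylow_ge hAK hAcop hsolv' 2 (hPX.trans hXK) hPp hPA
  have hTc : Nat.card ((T : Subgroup G).map (inl : G →* G ⋊[φ] A)) =
      2 ^ (Nat.card K').factorization 2 := by
    rw [hK', H20.External.card_range_inl, ← T.card_eq_multiplicity]
    exact (Nat.card_congr (Subgroup.equivMapOfInjective _ _
      (SemidirectProduct.inl_injective (φ := φ))).toEquiv).symm
  obtain ⟨c, hc, e⟩ := H20.invariant_sylow_subgroup_conj hAK hAcop hsolv'
    (Subgroup.map_le_range _ _) (Subgroup.map_subtype_le _) hTc (H20.card_map_sylow R) hAT hRA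
  have hcardX : Nat.card (X.map (inl : G →* G ⋊[φ] A)) = Nat.card X :=
    (Nat.card_congr (Subgroup.equivMapOfInjective _ _
      (SemidirectProduct.inl_injective (φ := φ))).toEquiv).symm
  refine ⟨P.comap inl, fun x hx => ?_, fun x hx => ?_, ?_⟩
  · obtain ⟨y, hy, hxy⟩ := hPX hx
    exact SemidirectProduct.inl_injective (φ := φ) hxy ▸ hy
  · have h1 := hPR hx
    rw [← e, H20.mem_conj_smul] at h1
    obtain ⟨t, ht, hte⟩ := h1
    have htA : (inl t : G ⋊[φ] A) ∈ Subgroup.centralizer (A' : Set (G ⋊[φ] A)) := by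
      rw [H20.External.inl_mem_centralizer_iff]
      intro a
      obtain ⟨m, hm⟩ :=
        (IsOfFinOrder.mem_powers_iff_mem_zpowers (isOfFinOrder_of_finite α)).mpr a.2
      rw [show φ a = (a : MulAut G) from rfl, ← hm]
      have key : ∀ k : ℕ, (α ^ k) t = t := by
        intro k
        induction k with
        | zero => simp
        | succ k ih => rw [pow_succ', MulAut.mul_apply, ih]; exact hT ht
      exact key m
    have h2 : (inl x : G ⋊[φ] A) = c * inl t * c⁻¹ := by rw [hte]; group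
    have h3 : (inl x : G ⋊[φ] A) ∈ Subgroup.centralizer (A' : Set (G ⋊[φ] A)) := by
      rw [h2]
      exact mul_mem (mul_mem hc.2 htA) (inv_mem hc.2)
    exact (H20.External.inl_mem_centralizer_iff φ).mp h3 ⟨α, Subgroup.mem_zpowers α⟩
  · rw [Nat.card_congr (Subgroup.equivMapOfInjective _ _
      (SemidirectProduct.inl_injective (φ := φ))).toEquiv,
      Subgroup.map_comap_eq_self (hPX.trans hXK), hPc, hcardX]

/-- An element conjugate to `τ` exchanging the base point with the point `δ` can be replaced by a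
fixed element, by a translation which is injective on all such elements. -/
theorem exists_translation (hτ : orderOf τ = 2) {δ : G ⧸ fixedPts α} {u : G} (hu : IsConj τ u)
    (huδ : u • ((1 : G) : G ⧸ fixedPts α) = δ) :
    ∃ u1 : G, ∀ v : G, IsConj τ v → v • ((1 : G) : G ⧸ fixedPts α) = δ →
      IsConj τ (v * u * u1) ∧ v * u * u1 ∈ fixedPts α ∧
      v * u ∈ MulAction.stabilizer G δ := by
  haveI := Fact.mk Nat.prime_two
  set γ : G ⧸ fixedPts α := ((1 : G) : G ⧸ fixedPts α) with hγ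
  have hfixγ : ∀ g : G, g • γ = γ ↔ g ∈ (fixedPts α) := fun g => by
    rw [hγ, MulAction.Quotient.smul_coe, smul_eq_mul, mul_one, QuotientGroup.eq, mul_one,
      inv_mem_iff]
  have hord : ∀ {v : G}, IsConj τ v → v * v = 1 := by
    intro v hv
    obtain ⟨g, rfl⟩ := isConj_iff.mp hv
    have h2 : τ * τ = 1 := by rw [← sq, ← hτ, pow_orderOf_eq_one]
    rw [show g * τ * g⁻¹ * (g * τ * g⁻¹) = g * (τ * τ) * g⁻¹ by group, h2]
    group
  have hinvu : u⁻¹ = u := inv_eq_of_mul_eq_one_right (hord hu)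
  have huback : u • δ = γ := by rw [← huδ, smul_smul, hord hu, one_smul]
  set D := (fixedPts α) ⊓ MulAction.stabilizer G δ with hD
  have hDn : ∀ d ∈ D, u * d * u⁻¹ ∈ D := by
    intro d hd
    obtain ⟨hd1, hd2⟩ := Subgroup.mem_inf.mp hd
    refine Subgroup.mem_inf.mpr ⟨(hfixγ _).mp ?_, MulAction.mem_stabilizer_iff.mpr ?_⟩
    · rw [hinvu, mul_smul, mul_smul, huδ, MulAction.mem_stabilizer_iff.mp hd2, huback]
    · rw [hinvu, mul_smul, mul_smul, huback, (hfixγ d).mpr hd1, huδ]
  set Q := Subgroup.centralizer (D : Set G) with hQ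
  have hQfix : ∀ x ∈ Q, α x ∈ Q := by
    intro x hx
    refine Subgroup.mem_centralizer_iff.mpr fun d hd => ?_
    have h1 := congrArg α (Subgroup.mem_centralizer_iff.mp hx d hd)
    have h2 : α d = d := (Subgroup.mem_inf.mp hd).1
    rwa [map_mul, map_mul, h2] at h1
  have hQn : ∀ x ∈ Q, u * x * u⁻¹ ∈ Q := by
    intro x hx
    refine Subgroup.mem_centralizer_iff.mpr fun d hd => ?_
    have h1 := Subgroup.mem_centralizer_iff.mp hx _ (hDn d hd)
    rw [hinvu] at h1 ⊢
    calc d * (u * x * u) = (u * u) * d * (u * x * u) := by rw [hord hu, one_mul]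
      _ = u * ((u * d * u) * x) * u := by group
      _ = u * (x * (u * d * u)) * u := by rw [h1]
      _ = u * x * u * d * (u * u) := by group
      _ = u * x * u * d := by rw [hord hu, mul_one]
  have hαu : u⁻¹ * α u ∈ Q := by
    refine Subgroup.mem_centralizer_iff.mpr fun d hd => ?_
    have h1 : α (u * d * u⁻¹) = u * d * u⁻¹ := (Subgroup.mem_inf.mp (hDn d hd)).1
    have h2 : α d = d := (Subgroup.mem_inf.mp hd).1
    rw [map_mul, map_mul, map_inv, h2] at h1
    calc d * (u⁻¹ * α u) = u⁻¹ * (u * d * u⁻¹) * α u := by group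
      _ = u⁻¹ * (α u * d * (α u)⁻¹) * α u := by rw [h1]
      _ = u⁻¹ * α u * d := by group
  -- the group `X = Q⟨u⟩`
  let X : Subgroup G :=
    { carrier := {x | x ∈ Q ∨ x * u ∈ Q}
      one_mem' := Or.inl Q.one_mem
      mul_mem' := by
        intro a b ha hb
        rcases ha with ha | ha <;> rcases hb with hb | hb
        · exact Or.inl (Q.mul_mem ha hb)
        · exact Or.inr (by rw [mul_assoc]; exact Q.mul_mem ha hb)
        · refine Or.inr ?_
          have h1 := Q.mul_mem ha (hQn b hb)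
          rwa [show a * u * (u * b * u⁻¹) = a * (u * u) * b * u⁻¹ by group, hord hu, mul_one,
            hinvu] at h1
        · refine Or.inl ?_
          have h1 := Q.mul_mem ha (hQn _ hb)
          rwa [show a * u * (u * (b * u) * u⁻¹) = a * (u * u) * b by group, hord hu, mul_one] at h1
      inv_mem' := by
        intro a ha
        rcases ha with ha | ha
        · exact Or.inl (Q.inv_mem ha)
        · refine Or.inr ?_
          have h1 := hQn _ (Q.inv_mem ha)
          rwa [show u * (a * u)⁻¹ * u⁻¹ = (u * u⁻¹) * a⁻¹ * u⁻¹ by group, mul_inv_cancel, one_mul,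
            hinvu] at h1 }
  have huX : u ∈ X := Or.inr (by rw [hord hu]; exact Q.one_mem)
  have hQX : Q ≤ X := fun x hx => Or.inl hx
  have hαX : ∀ x ∈ X, α x ∈ X := by
    intro x hx
    rcases hx with hx | hx
    · exact hQX (hQfix x hx)
    · have h1 : α u ∈ X := by
        have := X.mul_mem huX (hQX hαu)
        rwa [mul_inv_cancel_left] at this
      have h2 : x = x * u * u⁻¹ := by group
      rw [h2, map_mul, map_inv]
      exact X.mul_mem (hQX (hQfix _ hx)) (X.inv_mem h1)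
  obtain ⟨U, hUX, hUC, hUc⟩ := exists_fixed_sylow_of_invariant hcop hC hτ X hαX
  obtain ⟨P, hP⟩ := H20.exists_sylow_map_eq hUX hUc
  have hu2 : orderOf u = 2 := by
    obtain ⟨g, rfl⟩ := isConj_iff.mp hu
    rw [H28.orderOf_conj_eq, hτ]
  have hpu : IsPGroup 2 (Subgroup.zpowers (⟨u, huX⟩ : X)) :=
    IsPGroup.of_card (n := 1) (by rw [Nat.card_zpowers, Subgroup.orderOf_mk, hu2, pow_one])
  obtain ⟨R, hR⟩ := hpu.exists_le_sylow
  obtain ⟨g, hg⟩ := MulAction.exists_smul_eq X R P
  have hgu : (g : G) * u * (g : G)⁻¹ ∈ U := by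
    rw [← hP]
    refine ⟨g * ⟨u, huX⟩ * g⁻¹, ?_, by simp⟩
    show g * ⟨u, huX⟩ * g⁻¹ ∈ (P : Subgroup X)
    rw [← hg, Sylow.coe_subgroup_smul, H20.mem_conj_smul]
    simpa [mul_assoc] using hR (Subgroup.mem_zpowers _)
  obtain ⟨q, hq, hqu⟩ : ∃ q ∈ Q, q * u * q⁻¹ ∈ (fixedPts α) := by
    rcases g.2 with h | h
    · exact ⟨g, h, hUC hgu⟩
    · refine ⟨(g : G) * u, h, ?_⟩
      have h1 : ((g : G) * u) * u * ((g : G) * u)⁻¹ = (g : G) * u * (g : G)⁻¹ := by
        rw [mul_inv_rev, hinvu]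
        calc (g : G) * u * u * (u * (g : G)⁻¹) = (g : G) * (u * u) * u * (g : G)⁻¹ := by group
          _ = (g : G) * u * (g : G)⁻¹ := by rw [hord hu, mul_one]
      rw [h1]
      exact hUC hgu
  refine ⟨q * u * q⁻¹, fun v hv hvδ => ?_⟩
  have hvback : v • δ = γ := by rw [← hvδ, smul_smul, hord hv, one_smul]
  have hd : v * u ∈ D := Subgroup.mem_inf.mpr
    ⟨(hfixγ _).mp (by rw [mul_smul, huδ, hvback]),
      MulAction.mem_stabilizer_iff.mpr (by rw [mul_smul, huback, hvδ])⟩
  refine ⟨?_, (fixedPts α).mul_mem (Subgroup.mem_inf.mp hd).1 hqu, (Subgroup.mem_inf.mp hd).2⟩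
  have h1 := Subgroup.mem_centralizer_iff.mp hq _ hd
  have h2 : v * u * (q * u * q⁻¹) = q * v * q⁻¹ := by
    calc v * u * (q * u * q⁻¹) = (v * u * q) * u * q⁻¹ := by group
      _ = (q * (v * u)) * u * q⁻¹ := by rw [h1]
      _ = q * v * (u * u) * q⁻¹ := by group
      _ = q * v * q⁻¹ := by rw [hord hu, mul_one]
  rw [h2]
  exact hv.trans (isConj_iff.mpr ⟨q, rfl⟩)

/-- Two fixed conjugates of `τ` differ by an element of the core of the fixed-point subgroup. -/
theorem mul_inv_mem_normalCore (hτ : orderOf τ = 2) {a b : G} (ha : IsConj τ a)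
    (haC : a ∈ fixedPts α) (hb : IsConj τ b) (hbC : b ∈ fixedPts α) :
    a * b⁻¹ ∈ (fixedPts α).normalCore := by
  classical
  set C := fixedPts α with hCdef
  set γ : G ⧸ C := ((1 : G) : G ⧸ C) with hγ
  have hfix : ∀ (v g : G), v • (g : G ⧸ C) = (g : G ⧸ C) ↔ g⁻¹ * v * g ∈ C := fun v g => by
    rw [MulAction.Quotient.smul_coe, smul_eq_mul, QuotientGroup.eq, ← inv_mem_iff]
    simp [mul_assoc]
  have hex : ∀ v : {v : G // IsConj τ v}, ∃ δ : G ⧸ C, (v : G) • δ = δ := by
    rintro ⟨v, hv⟩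
    obtain ⟨g, rfl⟩ := isConj_iff.mp hv
    refine ⟨(g : G ⧸ C), (hfix _ g).mpr ?_⟩
    rw [show g⁻¹ * (g * τ * g⁻¹) * g = τ by group]
    exact hC τ (Subgroup.mem_centralizer_singleton_iff.mpr rfl)
  have huniq : ∀ (v : G), IsConj τ v → ∀ δ ε : G ⧸ C, v • δ = δ → v • ε = ε → δ = ε := by
    intro v hv δ ε hδ hε
    obtain ⟨g, rfl⟩ := isConj_iff.mp hv
    suffices h : ∀ η : G ⧸ C, (g * τ * g⁻¹) • η = η → η = (g : G ⧸ C) by rw [h δ hδ, h ε hε]
    intro η hη
    obtain ⟨k, rfl⟩ := QuotientGroup.mk_surjective η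
    rw [hfix] at hη
    rw [QuotientGroup.eq]
    refine mem_of_conj_mem hcop hC ?_
    rwa [show k⁻¹ * g * τ * (k⁻¹ * g)⁻¹ = k⁻¹ * (g * τ * g⁻¹) * k by group]
  choose f2 hf2 using hex
  let f1 : {v : G // IsConj τ v} → G ⧸ C := fun v => (v : G) • γ
  let B := {v : G // IsConj τ v ∧ v ∈ C}
  have hfib2 : ∀ δ : G ⧸ C, Nat.card {v // f2 v = δ} = Nat.card B := by
    intro δ
    obtain ⟨g, rfl⟩ := QuotientGroup.mk_surjective δ
    refine Nat.card_congr
      { toFun := fun v => ⟨g⁻¹ * (v.1 : G) * g, v.1.2.trans (isConj_iff.mpr ⟨g⁻¹, by group⟩),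
          (hfix _ g).mp (by have h := hf2 v.1; rwa [v.2] at h)⟩
        invFun := fun w => ⟨⟨g * w.1 * g⁻¹, w.2.1.trans (isConj_iff.mpr ⟨g, rfl⟩)⟩,
          huniq _ (w.2.1.trans (isConj_iff.mpr ⟨g, rfl⟩)) _ _
            (hf2 ⟨g * w.1 * g⁻¹, w.2.1.trans (isConj_iff.mpr ⟨g, rfl⟩)⟩) ((hfix _ g).mpr (by
            rw [show g⁻¹ * (g * w.1 * g⁻¹) * g = w.1 by group]; exact w.2.2))⟩
        left_inv := fun v => Subtype.ext (Subtype.ext (by group))
        right_inv := fun w => Subtype.ext (by group) }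
  have hord : ∀ {v : G}, IsConj τ v → orderOf v = 2 := by
    intro v hv
    obtain ⟨g, rfl⟩ := isConj_iff.mp hv
    rw [H28.orderOf_conj_eq, hτ]
  haveI : Fintype (G ⧸ C) := Fintype.ofFinite _
  have hle : ∀ δ : G ⧸ C, Nat.card {v // f1 v = δ} ≤ Nat.card B := by
    intro δ
    by_cases hne : Nonempty {v // f1 v = δ}
    · obtain ⟨⟨⟨u, hu⟩, huδ⟩⟩ := hne
      obtain ⟨u1, hu1⟩ := exists_translation hcop hC hτ hu huδ
      refine Nat.card_le_card_of_injective
        (fun v : {v // f1 v = δ} => (⟨(v.1 : G) * u * u1, (hu1 _ v.1.2 v.2).1,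
          (hu1 _ v.1.2 v.2).2.1⟩ : B)) ?_
      intro v w h
      have h' := congrArg Subtype.val h
      simp only [mul_left_inj] at h'
      exact Subtype.ext (Subtype.ext h')
    · rw [not_nonempty_iff] at hne
      simp
  have hsum : ∑ δ : G ⧸ C, Nat.card {v // f1 v = δ} = ∑ _δ : G ⧸ C, Nat.card B := by
    calc ∑ δ : G ⧸ C, Nat.card {v // f1 v = δ}
        = Nat.card {v : G // IsConj τ v} := by
          rw [← Nat.card_sigma]; exact Nat.card_congr (Equiv.sigmaFiberEquiv f1)
      _ = ∑ δ : G ⧸ C, Nat.card {v // f2 v = δ} := by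
          rw [← Nat.card_sigma]; exact Nat.card_congr (Equiv.sigmaFiberEquiv f2).symm
      _ = ∑ _δ : G ⧸ C, Nat.card B := Finset.sum_congr rfl fun δ _ => hfib2 δ
  have heq := (Finset.sum_eq_sum_iff_of_le fun δ _ => hle δ).mp hsum
  rw [Subgroup.normalCore]
  intro g
  show g * (a * b⁻¹) * g⁻¹ ∈ C
  set δ : G ⧸ C := ((g⁻¹ : G) : G ⧸ C) with hδ
  have hcard := heq δ (Finset.mem_univ δ)
  have hpos : 0 < Nat.card B := by
    haveI : Nonempty B := ⟨⟨a, ha, haC⟩⟩
    exact Nat.card_pos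
  obtain ⟨⟨⟨u, hu⟩, huδ⟩⟩ : Nonempty {v // f1 v = δ} :=
    (Nat.card_pos_iff.mp (hcard ▸ hpos)).1
  obtain ⟨u1, hu1⟩ := exists_translation hcop hC hτ hu huδ
  let F : {v // f1 v = δ} → B := fun v =>
    ⟨(v.1 : G) * u * u1, (hu1 _ v.1.2 v.2).1, (hu1 _ v.1.2 v.2).2.1⟩
  have hFinj : Function.Injective F := by
    intro v w h
    have h' := congrArg Subtype.val h
    simp only [F, mul_left_inj] at h'
    exact Subtype.ext (Subtype.ext h')
  have hFsurj : Function.Surjective F := (hFinj.bijective_of_nat_card_le hcard.ge).2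
  obtain ⟨va, hva⟩ := hFsurj ⟨a, ha, haC⟩
  obtain ⟨vb, hvb⟩ := hFsurj ⟨b, hb, hbC⟩
  have hva' := congrArg Subtype.val hva
  have hvb' := congrArg Subtype.val hvb
  simp only [F] at hva' hvb'
  have hmem : a * b⁻¹ ∈ MulAction.stabilizer G δ := by
    rw [← hva', ← hvb', show (va.1 : G) * u * u1 * ((vb.1 : G) * u * u1)⁻¹ =
      ((va.1 : G) * u) * ((vb.1 : G) * u)⁻¹ by group]
    exact mul_mem (hu1 _ va.1.2 va.2).2.2 (inv_mem (hu1 _ vb.1.2 vb.2).2.2)
  have h3 := (hfix _ g⁻¹).mp (MulAction.mem_stabilizer_iff.mp hmem)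
  rwa [inv_inv] at h3

/-- If the fixed-point subgroup has trivial core then `τ` is isolated. -/
theorem isolated_of_core (hτ : orderOf τ = 2) (hcore : (fixedPts α).normalCore = ⊥) :
    H28.IsIsolatedInvolution τ := by
  refine ⟨hτ, fun g hg => ?_⟩
  have h := mul_inv_mem_normalCore hcop hC hτ (a := g * τ * g⁻¹) (b := τ)
    (isConj_iff.mpr ⟨g, rfl⟩)
    (hC _ (Subgroup.mem_centralizer_singleton_iff.mpr hg.symm.eq)) (IsConj.refl τ)
    (hC τ (Subgroup.mem_centralizer_singleton_iff.mpr rfl))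
  rw [hcore, Subgroup.mem_bot] at h
  exact eq_of_mul_inv_eq_one h

end Cfsg.Agent.H32.CoprimeInvolution
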