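import Cfsg.Agent.H32.SplitSign
import Cfsg.Agent.H77.LargeEspTransfer

/-!
# The sign of a two-element on the cosets of an index two subgroup of an involution centralizer
-/

set_option autoImplicit false

namespace Cfsg.Agent.H32.EspSign

open Subgroup H77.LargeEsp SplitSign

variable {G : Type*} [Group G] [Finite G] {z : G} {E : Subgroup G}

theorem commE (S : Setting z E) {a b : G} (ha : a ∈ E) (hb : b ∈ E) :
    a * b = b * a ∨ a * b = z * (b * a) := by
  rcases S.bracket a ha b hb with h | h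
  · left
    calc a * b = a * b * a⁻¹ * b⁻¹ * (b * a) := by group
      _ = b * a := by rw [h, one_mul]
  · right
    calc a * b = a * b * a⁻¹ * b⁻¹ * (b * a) := by group
      _ = z * (b * a) := by rw [h]

/-- Subgroups between `⟨z⟩` and `E` are normalised by `E`. -/
theorem conj_mem_of_le (S : Setting z E) {M : Subgroup G} (hM : M ≤ E) (hz : z ∈ M) {e m : G}
    (he : e ∈ E) (hm : m ∈ M) : e * m * e⁻¹ ∈ M := by
  rw [show e * m * e⁻¹ = e * m * e⁻¹ * m⁻¹ * m by group]
  refine mul_mem ?_ hm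
  rcases S.bracket e he m (hM hm) with h | h <;> rw [h]
  · exact one_mem M
  · exact hz

theorem sq_mem_of_le (S : Setting z E) {M : Subgroup G} (hz : z ∈ M) {e : G} (he : e ∈ E) :
    e * e ∈ M := by
  rcases S.sq e he with h | h <;> rw [h]
  · exact one_mem M
  · exact hz

theorem pow_conj_mem {M : Subgroup G} {y : G} (hy : ∀ m ∈ M, y * m * y⁻¹ ∈ M) (n : ℕ) :
    ∀ m ∈ M, y ^ n * m * (y ^ n)⁻¹ ∈ M := by
  induction n with
  | zero => intro m hm; simpa using hm
  | succ n ih =>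
    intro m hm
    rw [show y ^ (n + 1) * m * (y ^ (n + 1))⁻¹ = y * (y ^ n * m * (y ^ n)⁻¹) * y⁻¹ by rw [pow_succ']; group]
    exact hy _ (ih m hm)

/-- A half of `L` over `D` that is invariant under a two-element. -/
theorem exists_half (S : Setting z E) {D L : Subgroup G} (hzD : z ∈ D) (hDL : D ≤ L) (hLE : L ≤ E)
    (hne : D ≠ L) {y : G} {k : ℕ} (hy : y ^ 2 ^ k = 1) (hyD : ∀ m ∈ D, y * m * y⁻¹ ∈ D)
    (hyL : ∀ m ∈ L, y * m * y⁻¹ ∈ L) :
    ∃ M : Subgroup G, ∃ a ∈ L, D ≤ M ∧ M ≤ L ∧ a ∉ M ∧ (∀ x ∈ L, x ∈ M ∨ a⁻¹ * x ∈ M) ∧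
      (∀ m ∈ M, y * m * y⁻¹ ∈ M) ∧ a⁻¹ * (y * a * y⁻¹) ∈ M := by
  classical
  let T : Set (Subgroup G) := {N | D ≤ N ∧ N < L ∧ ∀ m ∈ N, y * m * y⁻¹ ∈ N}
  obtain ⟨N, hN⟩ := T.toFinite.exists_maximal ⟨D, le_rfl, lt_of_le_of_ne hDL hne, hyD⟩
  obtain ⟨hDN, hNL, hyN⟩ := hN.prop
  have hzN : z ∈ N := hDN hzD
  let N' : Subgroup L := N.subgroupOf L
  haveI hN' : N'.Normal := ⟨fun n hn g => conj_mem_of_le S (hNL.le.trans hLE) hzN (hLE g.2) hn⟩
  let c : ℕ → (↥L →* ↥L) := fun j => MonoidHom.mk'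
    (fun l => ⟨y ^ j * (l : G) * (y ^ j)⁻¹, pow_conj_mem hyL j l l.2⟩)
    (fun a b => Subtype.ext (by show y ^ j * ((a : G) * b) * (y ^ j)⁻¹ = y ^ j * a * (y ^ j)⁻¹ * (y ^ j * b * (y ^ j)⁻¹); group))
  let Φ : ℕ → (↥L ⧸ N' →* ↥L ⧸ N') := fun j =>
    QuotientGroup.map N' N' (c j) fun l hl => pow_conj_mem hyN j l hl
  have hΦ : ∀ i j q, Φ i (Φ j q) = Φ (i + j) q := by
    intro i j q
    induction q using QuotientGroup.induction_on with
    | H l =>
      show ((c i (c j l) : L) : ↥L ⧸ N') = ((c (i + j) l : L) : ↥L ⧸ N')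
      congr 1
      ext
      show y ^ i * (y ^ j * (l : G) * (y ^ j)⁻¹) * (y ^ i)⁻¹ = y ^ (i + j) * l * (y ^ (i + j))⁻¹
      rw [pow_add]; group
  have hΦ0 : ∀ m q, y ^ m = 1 → Φ m q = q := by
    intro m q hm
    induction q using QuotientGroup.induction_on with
    | H l =>
      show ((c m l : L) : ↥L ⧸ N') = (l : ↥L ⧸ N')
      congr 1
      ext
      show y ^ m * (l : G) * (y ^ m)⁻¹ = l
      rw [hm]; group
  have h2k : 1 ≤ 2 ^ k := Nat.one_le_two_pow
  let σ : Equiv.Perm (↥L ⧸ N') :=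
    { toFun := Φ 1
      invFun := Φ (2 ^ k - 1)
      left_inv := fun q => by rw [hΦ, Nat.sub_add_cancel h2k]; exact hΦ0 _ _ hy
      right_inv := fun q => by rw [hΦ, Nat.add_sub_cancel' h2k]; exact hΦ0 _ _ hy }
  have hσ : ∀ (j : ℕ) q, (σ ^ j) q = Φ j q := by
    intro j
    induction j with
    | zero => exact fun q => (hΦ0 0 q (pow_zero y)).symm
    | succ j ih => intro q; rw [pow_succ', Equiv.Perm.mul_apply, ih, add_comm j 1, ← hΦ]; rfl
  haveI : Fintype (↥L ⧸ N') := Fintype.ofFinite _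
  have hσk : σ ^ 2 ^ k = 1 := Equiv.ext fun q => by rw [hσ, hΦ0 _ _ hy, Equiv.Perm.one_apply]
  obtain ⟨x₀, hx₀L, hx₀N⟩ := SetLike.exists_of_lt hNL
  have hsq : ∀ q : ↥L ⧸ N', q * q = 1 := by
    intro q
    induction q using QuotientGroup.induction_on with
    | H l => exact (QuotientGroup.eq_one_iff (l * l)).2 (sq_mem_of_le S hzN (hLE l.2))
  have hdvd : 2 ∣ Fintype.card (↥L ⧸ N') := by
    have h1 : ((⟨x₀, hx₀L⟩ : L) : ↥L ⧸ N') ≠ 1 := fun h => hx₀N ((QuotientGroup.eq_one_iff (⟨x₀, hx₀L⟩ : L)).1 h)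
    have h2 : orderOf ((⟨x₀, hx₀L⟩ : L) : ↥L ⧸ N') = 2 :=
      orderOf_eq_prime (by rw [pow_two]; exact hsq _) h1
    rw [← h2, ← Nat.card_eq_fintype_card]
    exact orderOf_dvd_natCard _
  obtain ⟨q, hq, hq1⟩ := Equiv.Perm.exists_fixed_point_of_prime' (p := 2) hdvd hσk (a := 1) (map_one (Φ 1))
  obtain ⟨⟨a, haL⟩, rfl⟩ := QuotientGroup.mk_surjective q
  have haN : a ∉ N := fun h => hq1 ((QuotientGroup.eq_one_iff _).2 h)
  have hya : a⁻¹ * (y * a * y⁻¹) ∈ N := by
    have h1 := QuotientGroup.eq.1 hq.symm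
    simpa [N', c, Subgroup.mem_subgroupOf] using h1
  have haE := hLE haL
  have hconj : ∀ n ∈ N, a⁻¹ * n * a ∈ N := fun n hn => by
    simpa using conj_mem_of_le S (hNL.le.trans hLE) hzN (inv_mem haE) hn
  have hia : a⁻¹ * a⁻¹ ∈ N := sq_mem_of_le S hzN (inv_mem haE)
  let N1 : Subgroup G :=
    { carrier := {x | x ∈ N ∨ a⁻¹ * x ∈ N}
      one_mem' := Or.inl (one_mem N)
      mul_mem' := by
        rintro x y (hx | hx) (hy | hy)
        · exact Or.inl (mul_mem hx hy)
        · exact Or.inr (by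
            have := mul_mem (hconj x hx) hy
            rwa [show a⁻¹ * x * a * (a⁻¹ * y) = a⁻¹ * (x * y) by group] at this)
        · exact Or.inr (by have := mul_mem hx hy; rwa [mul_assoc] at this)
        · exact Or.inl (by
            have h' : a * (a⁻¹ * x) * a⁻¹ ∈ N := conj_mem_of_le S (hNL.le.trans hLE) hzN haE hx
            have := mul_mem (mul_mem h' (inv_mem hia)) hy
            rwa [show a * (a⁻¹ * x) * a⁻¹ * (a⁻¹ * a⁻¹)⁻¹ * (a⁻¹ * y) = x * y by group] at this)
      inv_mem' := by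
        rintro x (hx | hx)
        · exact Or.inl (inv_mem hx)
        · exact Or.inr (by
            have := mul_mem hia (conj_mem_of_le S (hNL.le.trans hLE) hzN haE (inv_mem hx))
            rwa [show a⁻¹ * a⁻¹ * (a * (a⁻¹ * x)⁻¹ * a⁻¹) = a⁻¹ * x⁻¹ by group] at this) }
  have hN1L : N1 ≤ L := by
    rintro x (hx | hx)
    · exact hNL.le hx
    · simpa using mul_mem haL (hNL.le hx)
  have hN1 : N1 = L := by
    by_contra hne'
    have hmem : N1 ∈ T := ⟨hDN.trans fun x hx => Or.inl hx, lt_of_le_of_ne hN1L hne', by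
      rintro x (hx | hx)
      · exact Or.inl (hyN x hx)
      · refine Or.inr ?_
        have := mul_mem hya (hyN _ hx)
        rwa [show a⁻¹ * (y * a * y⁻¹) * (y * (a⁻¹ * x) * y⁻¹) = a⁻¹ * (y * x * y⁻¹) by group] at this⟩
    exact haN (hN.le_of_ge hmem (fun x hx => Or.inl hx) (Or.inr (by simp [one_mem] : a⁻¹ * a ∈ N)))
  exact ⟨N, a, haL, hDN, hNL.le, haN, fun x hx => (hN1.symm ▸ hx : x ∈ N1), hyN, hya⟩

/-- The centralizer of an involution outside `E` is not of index two in `E`. -/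
theorem no_half (S : Setting z E) (hext : Cfsg.IsExtraspecial 2 ↥E) {w : G} (hwz : w * z = z * w)
    (hw2 : w * w = 1) (hwE : w ∉ E) {a : G} (ha : a ∈ E)
    (h : ∀ x ∈ E, x * w = w * x ∨ a⁻¹ * x * w = w * (a⁻¹ * x)) : False := by
  classical
  let D : Subgroup G := E ⊓ centralizer ({w} : Set G)
  have hD : ∀ {x : G}, x ∈ D ↔ x ∈ E ∧ x * w = w * x := fun {x} => by
    simp only [D, mem_inf, mem_centralizer_singleton_iff]
  have hsplit : ∀ x ∈ E, x ∈ D ∨ a⁻¹ * x ∈ D := fun x hx => (h x hx).imp (fun e => hD.2 ⟨hx, e⟩)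
    fun e => hD.2 ⟨mul_mem (inv_mem ha) hx, e⟩
  by_cases haD : a ∈ D
  · rcases S.cent w (fun x hx => by
      rcases hsplit x hx with e | e
      · exact (hD.1 e).2.symm
      · have := (hD.1 (mul_mem haD e)).2
        rw [mul_inv_cancel_left] at this
        exact this.symm) with e | e
    · exact hwE (e ▸ one_mem E)
    · exact hwE (e ▸ S.mem)
  have hDE : D ≤ E := inf_le_left
  have hzD : z ∈ D := hD.2 ⟨S.mem, hwz.symm⟩
  have hwi : w⁻¹ = w := inv_eq_of_mul_eq_one_left hw2
  have hfix : ∀ d ∈ D, w * d * w⁻¹ = d := fun d hd => by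
    rw [← (hD.1 hd).2, mul_inv_cancel_right]
  obtain ⟨v, hv⟩ : ∃ v, v = w * a * w⁻¹ * a⁻¹ := ⟨_, rfl⟩
  have hva : w * a * w⁻¹ = v * a := by rw [hv]; group
  have hvE : v ∈ E := hv ▸ mul_mem (S.norm w hwz a ha) (inv_mem ha)
  have hback : w * (w * a * w⁻¹) * w⁻¹ = a := by
    rw [show w * (w * a * w⁻¹) * w⁻¹ = (w * w) * a * (w * w)⁻¹ by group, hw2]; group
  have hnD : w * a * w⁻¹ ∉ D := fun hh => by
    have e : a = w * a * w⁻¹ := by
      conv_lhs => rw [← hback]
      exact hfix _ hh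
    exact haD (e ▸ hh)
  have hvD : v ∈ D := by
    refine (hsplit v hvE).resolve_right fun hh => hnD ?_
    have e : w * a * w⁻¹ = a * (a⁻¹ * v) * a⁻¹ * (a * a) := by rw [hva]; group
    rw [e]
    exact mul_mem (conj_mem_of_le S hDE hzD ha hh) (sq_mem_of_le S hzD ha)
  have hv2 : v * v = 1 := by
    have e : v * v * a = a := by
      conv_rhs => rw [← hback, hva]
      rw [show w * (v * a) * w⁻¹ = (w * v * w⁻¹) * (w * a * w⁻¹) by group, hfix v hvD, hva, mul_assoc]
    exact mul_eq_right.1 e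
  have hva' : v * a = a * v := by
    have e1 : (v * a) * (v * a) = a * a := by
      rw [← hva, show w * a * w⁻¹ * (w * a * w⁻¹) = w * (a * a) * w⁻¹ by group]
      exact hfix _ (sq_mem_of_le S hzD ha)
    have e2 : v * a * v = a := mul_right_cancel (b := a) (by rw [← e1]; group)
    calc v * a = v * a * (v * v) := by rw [hv2, mul_one]
      _ = v * a * v * v := by group
      _ = a * v := by rw [e2]
  have hvDc : ∀ d ∈ D, v * d = d * v := by
    intro d hd
    have hd1 : a⁻¹ * d * a ∈ D := by simpa using conj_mem_of_le S hDE hzD (inv_mem ha) hd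
    have e : v * a * (a⁻¹ * d * a) * (v * a)⁻¹ = d := by
      conv_rhs => rw [← hfix d hd]
      rw [← hva]
      conv_lhs => rw [← hfix _ hd1]
      group
    rw [show v * a * (a⁻¹ * d * a) * (v * a)⁻¹ = v * d * v⁻¹ by group] at e
    exact mul_inv_eq_iff_eq_mul.1 e
  rcases S.cent v (fun x hx => by
    rcases hsplit x hx with e | e
    · exact hvDc x e
    · calc v * x = (v * a) * (a⁻¹ * x) := by group
        _ = a * (v * (a⁻¹ * x)) := by rw [hva', mul_assoc]
        _ = a * ((a⁻¹ * x) * v) := by rw [hvDc _ e]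
        _ = x * v := by group) with hv1 | hvz
  · rw [hv1, one_mul] at hva
    exact haD (hD.2 ⟨ha, (mul_inv_eq_iff_eq_mul.1 hva).symm⟩)
  rw [hvz] at hva
  -- some `f` of `E` induces the same automorphism
  obtain ⟨f, hfE, hfD, hf1, hfz⟩ : ∃ f ∈ E, (∀ d ∈ D, f * d = d * f) ∧ f ≠ 1 ∧ f ≠ z := by
    by_contra hno
    push Not at hno
    let D' : Subgroup E := D.subgroupOf E
    have hle : center (↥E) ≤ D' := fun c hc => by
      rcases S.cent (c : G) (fun x hx => (congrArg Subtype.val (mem_center_iff.1 hc ⟨x, hx⟩)).symm) with e | e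
      · show (c : G) ∈ D
        rw [e]; exact one_mem D
      · show (c : G) ∈ D
        rw [e]; exact hzD
    have h1 := H18.index_centralizer_mul_le hext D' hle
    have h2 : (centralizer (D' : Set E)) ≤ center (↥E) := by
      intro f hf
      by_cases hf1 : (f : G) = 1
      · exact (show f = 1 from Subtype.ext hf1) ▸ one_mem _
      have hfz : (f : G) = z := hno f f.2 (fun d hd => (congrArg Subtype.val
        (mem_centralizer_iff.1 hf ⟨d, hDE hd⟩ hd)).symm) hf1
      exact mem_center_iff.2 fun x => Subtype.ext (by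
        show (x : G) * f = f * x
        rw [hfz, S.comm x x.2])
    have h3 := Nat.card_le_card_of_injective _ (Subgroup.inclusion_injective h2)
    rw [hext.2] at h3
    have h4 := Subgroup.card_mul_index (centralizer (D' : Set E))
    have h5 := Subgroup.card_mul_index D'
    have h6 : 2 ≤ D'.index := (Nat.succ_le_iff.2 (lt_of_le_of_ne (Nat.one_le_iff_ne_zero.2 D'.index_ne_zero_of_finite)
      fun e => haD (show (⟨a, ha⟩ : E) ∈ D' from (index_eq_one.1 e.symm) ▸ mem_top _)))
    have h7 : 0 < Nat.card D' := Nat.card_pos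
    have h8 : 0 < (centralizer (D' : Set E)).index := Nat.pos_of_ne_zero index_ne_zero_of_finite
    nlinarith [Nat.mul_le_mul_left (Nat.card D') h6, Nat.mul_le_mul_right (centralizer (D' : Set E)).index h3]
  have hfa : f * a = z * (a * f) := by
    refine (commE S hfE ha).resolve_left fun hh => ?_
    rcases S.cent f (fun x hx => by
      rcases hsplit x hx with e | e
      · exact hfD x e
      · calc f * x = (f * a) * (a⁻¹ * x) := by group
          _ = a * (f * (a⁻¹ * x)) := by rw [hh, mul_assoc]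
          _ = a * ((a⁻¹ * x) * f) := by rw [hfD _ e]
          _ = x * f := by group) with e | e
    · exact hf1 e
    · exact hfz e
  have hfa' : f * a * f⁻¹ = z * a := by rw [hfa]; group
  have hc : ∀ x ∈ E, w * x * w⁻¹ = f * x * f⁻¹ := by
    intro x hx
    rcases hsplit x hx with e | e
    · rw [hfix x e, hfD x e, mul_inv_cancel_right]
    · rw [show w * x * w⁻¹ = (w * a * w⁻¹) * (w * (a⁻¹ * x) * w⁻¹) by group, hfix _ e, hva,
        show f * x * f⁻¹ = (f * a * f⁻¹) * (f * (a⁻¹ * x) * f⁻¹) by group, hfa', hfD _ e,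
        mul_inv_cancel_right]
  rcases S.cent (f⁻¹ * w) (fun x hx => by
    refine mul_inv_eq_iff_eq_mul.1 ?_
    rw [show f⁻¹ * w * x * (f⁻¹ * w)⁻¹ = f⁻¹ * (w * x * w⁻¹) * f by group, hc x hx]
    group) with e | e
  · exact hwE (by rw [inv_mul_eq_one.1 e] at hfE; exact hfE)
  · exact hwE (by
      have : w = f * z := by rw [← e]; group
      rw [this]; exact mul_mem hfE S.mem)

/-- A subgroup of index at most four is not abelian. -/
theorem exists_noncomm (hext : Cfsg.IsExtraspecial 2 ↥E) (hbig : 128 ≤ Nat.card E) {D M : Subgroup G}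
    (hDE : D ≤ E) {a b : G} (ha : a ∈ E) (hb : b ∈ E) (hE : ∀ x ∈ E, x ∈ M ∨ a⁻¹ * x ∈ M)
    (hM : ∀ x ∈ M, x ∈ D ∨ b⁻¹ * x ∈ D) : ∃ p ∈ D, ∃ q ∈ D, p * q ≠ q * p := by
  classical
  by_contra hab
  push Not at hab
  let D' : Subgroup E := D.subgroupOf E
  have h4 : D'.index ≤ 4 := by
    let a' : E := ⟨a, ha⟩
    let b' : E := ⟨b, hb⟩
    let g : Bool × Bool → (↥E ⧸ D') := fun p => (((bif p.1 then a' else 1) * (bif p.2 then b' else 1) : E) : ↥E ⧸ D')
    have hg : Function.Surjective g := by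
      intro q
      induction q using QuotientGroup.induction_on with
      | H x =>
        rcases hE x x.2 with h1 | h1
        · rcases hM _ h1 with h2 | h2
          · exact ⟨(false, false), QuotientGroup.eq.2 (mem_subgroupOf.2 (by simpa using h2))⟩
          · exact ⟨(false, true), QuotientGroup.eq.2 (mem_subgroupOf.2 (by simpa [b'] using h2))⟩
        · rcases hM _ h1 with h2 | h2
          · exact ⟨(true, false), QuotientGroup.eq.2 (mem_subgroupOf.2 (by simpa [a'] using h2))⟩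
          · exact ⟨(true, true), QuotientGroup.eq.2 (mem_subgroupOf.2 (by simpa [a', b', mul_assoc] using h2))⟩
    have := Nat.card_le_card_of_surjective g hg
    simpa [Nat.card_prod, ← index_eq_card] using this
  let Ca : Subgroup E := centralizer ({⟨a, ha⟩} : Set E)
  let Cb : Subgroup E := centralizer ({⟨b, hb⟩} : Set E)
  have hsub : D' ⊓ (Ca ⊓ Cb) ≤ center (↥E) := by
    intro c hc
    obtain ⟨hcD, hca, hcb⟩ := hc
    have hca' : (c : G) * a = a * c := congrArg Subtype.val (mem_centralizer_singleton_iff.1 hca)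
    have hcb' : (c : G) * b = b * c := congrArg Subtype.val (mem_centralizer_singleton_iff.1 hcb)
    have hMc : ∀ x ∈ M, (c : G) * x = x * c := by
      intro x hx
      rcases hM x hx with e | e
      · exact (show (c : G) * x = x * c from hab _ hcD x e)
      · calc (c : G) * x = ((c : G) * b) * (b⁻¹ * x) := by group
          _ = b * ((c : G) * (b⁻¹ * x)) := by rw [hcb', mul_assoc]
          _ = b * ((b⁻¹ * x) * c) := by rw [show (c : G) * (b⁻¹ * x) = b⁻¹ * x * c from hab _ hcD _ e]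
          _ = x * c := by group
    refine mem_center_iff.2 fun x => Subtype.ext ?_
    show (x : G) * c = c * x
    rcases hE x x.2 with e | e
    · exact (hMc x e).symm
    · calc (x : G) * c = a * ((a⁻¹ * x) * c) := by group
        _ = a * ((c : G) * (a⁻¹ * x)) := by rw [hMc _ e]
        _ = ((c : G) * a) * (a⁻¹ * x) := by rw [hca', mul_assoc]
        _ = c * x := by group
  have h1 := Nat.card_le_card_of_injective _ (Subgroup.inclusion_injective hsub)
  rw [hext.2] at h1
  have h2 : (D' ⊓ (Ca ⊓ Cb)).index ≤ 4 * (2 * 2) :=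
    (index_inf_le).trans (Nat.mul_le_mul h4 (index_inf_le.trans
      (Nat.mul_le_mul (H18.index_centralizer_singleton_le hext _) (H18.index_centralizer_singleton_le hext _))))
  have h3 := card_mul_index (D' ⊓ (Ca ⊓ Cb))
  have h5 := Nat.mul_le_mul h1 h2
  rw [h3] at h5
  omega

section action

variable (K : Subgroup G) (hKC : K ≤ centralizer ({z} : Set G))

/-- The projection between the coset spaces. -/
noncomputable def proj : G ⧸ K → G ⧸ centralizer ({z} : Set G) := fun q => (quotientEquivProdOfLE hKC q).1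

theorem proj_mk (g : G) : proj K hKC (g : G ⧸ K) = (g : G ⧸ centralizer ({z} : Set G)) := rfl

theorem proj_smul (g : G) (q : G ⧸ K) : proj K hKC (g • q) = g • proj K hKC q := by
  induction q using QuotientGroup.induction_on with
  | H x => rfl

/-- The points above the orbit of `c` under `L`. -/
def orb (L : Subgroup G) (c : G ⧸ centralizer ({z} : Set G)) : Set (G ⧸ K) :=
  {x | ∃ l ∈ L, proj K hKC x = l • c}

/-- The permutation given by an element. -/
def act : G →* Equiv.Perm (G ⧸ K) := MulAction.toPermHom G (G ⧸ K)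

theorem act_apply (g : G) (q : G ⧸ K) : act K g q = g • q := rfl

theorem even_preimage (hKi : K.relIndex (centralizer ({z} : Set G)) = 2)
    (T : Set (G ⧸ centralizer ({z} : Set G))) : Even (Nat.card {x : G ⧸ K // proj K hKC x ∈ T}) := by
  let e1 : {x : G ⧸ K // proj K hKC x ∈ T} ≃
      {p : (G ⧸ centralizer ({z} : Set G)) × (↥(centralizer ({z} : Set G)) ⧸ K.subgroupOf _) // p.1 ∈ T} :=
    (quotientEquivProdOfLE hKC).subtypeEquiv fun q => Iff.rfl
  let e2 : {p : (G ⧸ centralizer ({z} : Set G)) × (↥(centralizer ({z} : Set G)) ⧸ K.subgroupOf _) // p.1 ∈ T} ≃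
      T × (↥(centralizer ({z} : Set G)) ⧸ K.subgroupOf _) :=
    { toFun := fun p => (⟨p.1.1, p.2⟩, p.1.2)
      invFun := fun p => ⟨(p.1.1, p.2), p.1.2⟩
      left_inv := fun p => rfl
      right_inv := fun p => rfl }
  rw [Nat.card_congr (e1.trans e2), Nat.card_prod, ← index_eq_card]
  exact ⟨Nat.card T, by rw [show (K.subgroupOf _).index = 2 from hKi]; omega⟩

variable (S : Setting z E) {c : G ⧸ centralizer ({z} : Set G)} {M L : Subgroup G} {a : G}
include S

theorem orb_split (hML : M ≤ L) (haL : a ∈ L) (hsplit : ∀ x ∈ L, x ∈ M ∨ a⁻¹ * x ∈ M) (hLE : L ≤ E)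
    (hzM : z ∈ M) : orb K hKC L c = orb K hKC M c ∪ orb K hKC M (a • c) := by
  ext x
  constructor
  · rintro ⟨l, hl, hx⟩
    rcases hsplit l hl with h | h
    · exact Or.inl ⟨l, h, hx⟩
    · refine Or.inr ⟨a * (a⁻¹ * l) * a⁻¹, conj_mem_of_le S (hML.trans hLE) hzM (hLE haL) h, ?_⟩
      rw [hx, ← mul_smul]
      congr 1
      group
  · rintro (⟨m, hm, hx⟩ | ⟨m, hm, hx⟩)
    · exact ⟨m, hML hm, hx⟩
    · exact ⟨m * a, mul_mem (hML hm) haL, by rw [hx, mul_smul]⟩

theorem orb_disjoint (hME : M ≤ E) (haE : a ∈ E) (haM : a ∉ M)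
    (hD : ∀ e ∈ E, e • c = c → e ∈ M) : Disjoint (orb K hKC M c) (orb K hKC M (a • c)) := by
  rw [Set.disjoint_left]
  rintro x ⟨m, hm, hx⟩ ⟨m', hm', hx'⟩
  rw [hx, ← mul_smul] at hx'
  have h : (m' * a)⁻¹ * m ∈ M := hD _ (mul_mem (inv_mem (mul_mem (hME hm') haE)) (hME hm))
    (by rw [mul_smul, hx', inv_smul_smul])
  refine haM ?_
  have := mul_mem (inv_mem hm') (mul_mem hm (inv_mem h))
  rwa [show m'⁻¹ * (m * ((m' * a)⁻¹ * m)⁻¹) = a by group] at this

theorem act_swap_left (hME : M ≤ E) (haE : a ∈ E) (hzM : z ∈ M) :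
    ∀ x ∈ orb K hKC M c, act K a x ∈ orb K hKC M (a • c) := by
  rintro x ⟨m, hm, hx⟩
  refine ⟨a * m * a⁻¹, conj_mem_of_le S hME hzM haE hm, ?_⟩
  rw [act_apply, proj_smul, hx, ← mul_smul, ← mul_smul]
  congr 1
  group

theorem act_swap_right (hME : M ≤ E) (haE : a ∈ E) (hzM : z ∈ M) :
    ∀ x ∈ orb K hKC M (a • c), act K a x ∈ orb K hKC M c := by
  rintro x ⟨m, hm, hx⟩
  refine ⟨a * m * a⁻¹ * (a * a), mul_mem (conj_mem_of_le S hME hzM haE hm) (sq_mem_of_le S hzM haE), ?_⟩
  rw [act_apply, proj_smul, hx, ← mul_smul, ← mul_smul]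
  congr 1
  group

/-- The central involution is even on a split orbit. -/
theorem act_z_even (hML : M ≤ L) (haL : a ∈ L) (haM : a ∉ M) (hsplit : ∀ x ∈ L, x ∈ M ∨ a⁻¹ * x ∈ M)
    (hLE : L ≤ E) (hzM : z ∈ M) (hD : ∀ e ∈ E, e • c = c → e ∈ M) :
    onSet (orb K hKC L c) (act K z) = 1 := by
  have hME := hML.trans hLE
  have haE := hLE haL
  have hd := orb_disjoint K hKC S hME haE haM hD
  have hst : ∀ d, Stab (orb K hKC M d) (act K z) := fun d => stab_of_mapsTo (by
    rintro x ⟨m, hm, hx⟩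
    exact ⟨z * m, mul_mem hzM hm, by rw [act_apply, proj_smul, hx, mul_smul]⟩)
  have hab : ∀ x, act K a x ∈ orb K hKC M (a • c) ↔ x ∈ orb K hKC M c := by
    intro x
    refine ⟨fun h => ?_, act_swap_left K hKC S hME haE hzM x⟩
    obtain ⟨m, hm, hx⟩ := h
    refine ⟨a⁻¹ * m * a, by simpa using conj_mem_of_le S hME hzM (inv_mem haE) hm, ?_⟩
    rw [act_apply, proj_smul] at hx
    rw [← inv_smul_smul a (proj K hKC x), hx, ← mul_smul, ← mul_smul]
  rw [orb_split K hKC S hML haL hsplit hLE hzM, onSet_union hd (hst c) (hst _),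
    onSet_conj (act K a) hab (hst _)]
  have e : (act K a)⁻¹ * act K z * act K a = act K z := by
    rw [← map_inv, ← map_mul, ← map_mul]
    congr 1
    rw [mul_assoc, ← S.comm a haE, inv_mul_cancel_left]
  rw [e, Int.units_mul_self]

/-- The step lemma. -/
theorem act_even (hKi : K.relIndex (centralizer ({z} : Set G)) = 2)
    (hML : M ≤ L) (haL : a ∈ L) (haM : a ∉ M) (hsplit : ∀ x ∈ L, x ∈ M ∨ a⁻¹ * x ∈ M)
    (hLE : L ≤ E) (hzM : z ∈ M) (hD : ∀ e ∈ E, e • c = c → e ∈ M)
    {y : G} (hyM : ∀ m ∈ M, y * m * y⁻¹ ∈ M) (hya : a⁻¹ * y * a * y⁻¹ ∈ M)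
    (hyc : ∃ l ∈ L, y • c = l • c)
    (h1 : onSet (orb K hKC M c) (act K (a * a)) = 1)
    (h2 : onSet (orb K hKC M c) (act K (a⁻¹ * y * a * y⁻¹)) = 1)
    (h3 : onSet (orb K hKC M c) (act K (a⁻¹ * (a⁻¹ * y * a * y⁻¹) * a)) = 1) :
    onSet (orb K hKC L c) (act K y) = 1 := by
  have hME := hML.trans hLE
  have haE := hLE haL
  have hcm : ∀ m ∈ M, a * m * a⁻¹ ∈ M := fun m hm => conj_mem_of_le S hME hzM haE hm
  rw [orb_split K hKC S hML haL hsplit hLE hzM]
  refine onSet_half (orb_disjoint K hKC S hME haE haM hD) (even_preimage K hKC hKi {d | ∃ l ∈ M, d = l • c})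
    (act_swap_left K hKC S hME haE hzM) (act_swap_right K hKC S hME haE hzM) (by rw [← map_mul]; exact h1)
    ?_ (fun _ => by rw [← map_inv, ← map_inv, ← map_mul, ← map_mul, ← map_mul]; exact h2)
    (fun _ => by
      rw [← map_inv, ← map_mul, ← map_inv, ← map_mul, ← map_mul, ← map_mul,
        show a⁻¹ * (a⁻¹ * y) * a * (a⁻¹ * y)⁻¹ = a⁻¹ * (a⁻¹ * y * a * y⁻¹) * a by group]
      exact h3)
  obtain ⟨l, hl, hyc⟩ := hyc
  rcases hsplit l hl with hlM | hlM
  · left
    constructor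
    · exact stab_of_mapsTo (by
        rintro x ⟨m, hm, hx⟩
        refine ⟨y * m * y⁻¹ * l, mul_mem (hyM m hm) hlM, ?_⟩
        rw [act_apply, proj_smul, hx, mul_smul _ l, ← hyc, ← mul_smul, ← mul_smul]
        congr 1
        group)
    · exact stab_of_mapsTo (by
        rintro x ⟨m, hm, hx⟩
        refine ⟨y * m * y⁻¹ * (a * ((a⁻¹ * y * a * y⁻¹) * l) * a⁻¹),
          mul_mem (hyM m hm) (hcm _ (mul_mem hya hlM)), ?_⟩
        rw [act_apply, proj_smul, hx, ← mul_smul, ← mul_smul, ← mul_smul,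
          show y * m * y⁻¹ * (a * ((a⁻¹ * y * a * y⁻¹) * l) * a⁻¹) * a =
            y * m * a * y⁻¹ * l by group, mul_smul _ l, ← hyc, ← mul_smul]
        congr 1
        group)
  · right
    constructor
    · rintro x ⟨m, hm, hx⟩
      refine ⟨y * m * y⁻¹ * (a * (a⁻¹ * l) * a⁻¹), mul_mem (hyM m hm) (hcm _ hlM), ?_⟩
      rw [act_apply, proj_smul, hx, ← mul_smul, ← mul_smul,
        show y * m * y⁻¹ * (a * (a⁻¹ * l) * a⁻¹) * a = y * m * y⁻¹ * l by group, mul_smul _ l, ← hyc,
        ← mul_smul]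
      congr 1
      group
    · rintro x ⟨m, hm, hx⟩
      refine ⟨y * m * y⁻¹ * (a * (a⁻¹ * y * a * y⁻¹) * a⁻¹ * (a * a) * (a⁻¹ * l)),
        mul_mem (hyM m hm) (mul_mem (mul_mem (hcm _ hya) (sq_mem_of_le S hzM haE)) hlM), ?_⟩
      rw [act_apply, proj_smul, hx, ← mul_smul, ← mul_smul,
        show y * m * y⁻¹ * (a * (a⁻¹ * y * a * y⁻¹) * a⁻¹ * (a * a) * (a⁻¹ * l)) =
          y * m * a * y⁻¹ * l by group, mul_smul _ l, ← hyc, ← mul_smul]
      congr 1
      group

end action

/-- A commutator of two elements of `E` maps into every normal subgroup with abelian quotient. -/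
theorem conj_z_mem_of_noncomm (S : Setting z E) (K : Subgroup G)
    (hKi : K.relIndex (centralizer ({z} : Set G)) = 2) {g p q : G} (hpE : p ∈ E) (hqE : q ∈ E)
    (hp : p * (g * z * g⁻¹) = g * z * g⁻¹ * p) (hq : q * (g * z * g⁻¹) = g * z * g⁻¹ * q)
    (hpq : p * q ≠ q * p) : g⁻¹ * z * g ∈ K := by
  set C := centralizer ({z} : Set G) with hC
  have hC2 : ∀ {a b : G}, a ∈ C → b ∈ C → (a * b ∈ K ↔ (a ∈ K ↔ b ∈ K)) := fun {a b} ha hb =>
    mul_mem_iff_of_index_two (H := K.subgroupOf C) hKi (a := ⟨a, ha⟩) (b := ⟨b, hb⟩)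
  have hin : ∀ d, d * (g * z * g⁻¹) = g * z * g⁻¹ * d → g⁻¹ * d * g ∈ C := fun d hd => by
    refine mem_centralizer_singleton_iff.2 ?_
    calc g⁻¹ * d * g * z = g⁻¹ * (d * (g * z * g⁻¹)) * g := by group
      _ = g⁻¹ * (g * z * g⁻¹ * d) * g := by rw [hd]
      _ = _ := by group
  have hz' : p * q * p⁻¹ * q⁻¹ = z := (S.bracket p hpE q hqE).resolve_left fun h' => hpq (by
    calc p * q = p * q * p⁻¹ * q⁻¹ * (q * p) := by group
      _ = q * p := by rw [h', one_mul])
  rw [← hz', show g⁻¹ * (p * q * p⁻¹ * q⁻¹) * g =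
      (g⁻¹ * p * g) * (g⁻¹ * q * g) * ((g⁻¹ * p * g)⁻¹ * (g⁻¹ * q * g)⁻¹) by group]
  refine (hC2 (mul_mem (hin p hp) (hin q hq)) (mul_mem (inv_mem (hin p hp)) (inv_mem (hin q hq)))).2 ?_
  rw [hC2 (hin p hp) (hin q hq), hC2 (inv_mem (hin p hp)) (inv_mem (hin q hq)), inv_mem_iff, inv_mem_iff]

/-- The transfer argument: at a conjugate of `z` in `E` the centralized elements have images in `K`, and at a
conjugate outside `E` whose centralizer in `E` has index four the image of `z` is in `K`. -/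
theorem false_of_conditions (S : Setting z E) (hext : Cfsg.IsExtraspecial 2 ↥E)
    (hres : ∀ φ : G →* ℤˣ, ∀ g, φ g = 1) (K : Subgroup G) (hKC : K ≤ centralizer ({z} : Set G))
    (hKi : K.relIndex (centralizer ({z} : Set G)) = 2)
    (htwo : ∀ g : G, g * z * g⁻¹ ∈ E → g * z * g⁻¹ ≠ z → ∀ d ∈ E,
      d * (g * z * g⁻¹) = g * z * g⁻¹ * d → g⁻¹ * d * g ∈ K)
    (hfour : ∀ g : G, z * (g * z * g⁻¹) = g * z * g⁻¹ * z → g * z * g⁻¹ ∉ E →
      (∃ D M : Subgroup G, ∃ a ∈ E, ∃ b ∈ E, D ≤ E ∧ (∀ e ∈ D, e * (g * z * g⁻¹) = g * z * g⁻¹ * e) ∧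
        (∀ x ∈ E, x ∈ M ∨ a⁻¹ * x ∈ M) ∧ ∀ x ∈ M, x ∈ D ∨ b⁻¹ * x ∈ D) → g⁻¹ * z * g ∈ K) :
    False := by
  classical
  haveI hK' : (K.subgroupOf (centralizer ({z} : Set G))).Normal := normal_of_index_eq_two hKi
  have hC2 : ∀ {a b : G}, a ∈ centralizer ({z} : Set G) → b ∈ centralizer ({z} : Set G) →
      (a * b ∈ K ↔ (a ∈ K ↔ b ∈ K)) := fun {a b} ha hb =>
    mul_mem_iff_of_index_two (H := K.subgroupOf (centralizer ({z} : Set G))) hKi (a := ⟨a, ha⟩) (b := ⟨b, hb⟩)
  -- a two-element outside `K`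
  obtain ⟨u, huC, huK, k, huk⟩ : ∃ u ∈ centralizer ({z} : Set G), u ∉ K ∧ ∃ k : ℕ, u ^ 2 ^ k = 1 := by
    obtain ⟨u0, hu0C, hu0K⟩ : ∃ u ∈ centralizer ({z} : Set G), u ∉ K := by
      by_contra h
      push Not at h
      have := relIndex_eq_one.2 h
      omega
    obtain ⟨k, m, hm, hkm⟩ := Nat.exists_eq_pow_mul_and_not_dvd (orderOf_pos u0).ne' 2 (by norm_num)
    refine ⟨u0 ^ m, pow_mem hu0C m, fun h => hu0K ?_, k, by rw [← pow_mul, mul_comm, ← hkm, pow_orderOf_eq_one]⟩
    obtain ⟨j, rfl⟩ : ∃ j, m = 2 * j + 1 := ⟨m / 2, by omega⟩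
    have h2 : u0 * u0 ∈ K := (hC2 hu0C hu0C).2 Iff.rfl
    rw [pow_succ, pow_mul, pow_two] at h
    exact (mul_mem_cancel_left (pow_mem h2 j)).1 h
  have huz : u * z = z * u := mem_centralizer_singleton_iff.1 huC
  set C := centralizer ({z} : Set G) with hC
  let c0 : G ⧸ C := ((1 : G) : G ⧸ C)
  have hfix0 : ∀ g : G, g • c0 = c0 ↔ g ∈ C := fun g => by
    show ((g * 1 : G) : G ⧸ C) = ((1 : G) : G ⧸ C) ↔ _
    rw [QuotientGroup.eq, mul_one, mul_one, inv_mem_iff]
  have hfix : ∀ g h : G, g • (h : G ⧸ C) = (h : G ⧸ C) ↔ g * (h * z * h⁻¹) = h * z * h⁻¹ * g := fun g h => by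
    show ((g * h : G) : G ⧸ C) = (h : G ⧸ C) ↔ _
    rw [QuotientGroup.eq, show (g * h)⁻¹ * h = (h⁻¹ * g * h)⁻¹ by group, inv_mem_iff, hC,
      mem_centralizer_singleton_iff]
    constructor <;> intro e
    · calc g * (h * z * h⁻¹) = h * ((h⁻¹ * g * h) * z) * h⁻¹ := by group
        _ = h * (z * (h⁻¹ * g * h)) * h⁻¹ := by rw [e]
        _ = _ := by group
    · calc h⁻¹ * g * h * z = h⁻¹ * (g * (h * z * h⁻¹)) * h := by group
        _ = h⁻¹ * (h * z * h⁻¹ * g) * h := by rw [e]
        _ = _ := by group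
  have hπu : ∀ x, proj K hKC (act K u x) = u • proj K hKC x := fun x => proj_smul K hKC u x
  -- the two points above the trivial coset
  let A0 : Set (G ⧸ K) := {((1 : G) : G ⧸ K)}
  let B0 : Set (G ⧸ K) := {((u : G) : G ⧸ K)}
  have hne0 : ((1 : G) : G ⧸ K) ≠ ((u : G) : G ⧸ K) := fun h => huK (by simpa using QuotientGroup.eq.1 h)
  have huu : u * u ∈ K := (hC2 huC huC).2 Iff.rfl
  have hU0 : A0 ∪ B0 = {x | proj K hKC x = c0} := by
    ext x
    constructor
    · rintro (rfl | rfl)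
      · exact proj_mk K hKC 1
      · rw [Set.mem_setOf_eq, proj_mk]
        exact QuotientGroup.eq.2 (by simpa using inv_mem huC)
    · intro hx
      induction x using QuotientGroup.induction_on with
      | H g =>
        have hgC : g ∈ C := by simpa using inv_mem (QuotientGroup.eq.1 hx)
        by_cases hg : g ∈ K
        · exact Or.inl (QuotientGroup.eq.2 (by simpa using inv_mem hg))
        · refine Or.inr (QuotientGroup.eq.2 ?_)
          exact (hC2 (inv_mem hgC) huC).2 (by simp [hg, huK])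
  have s0 : onSet {x | proj K hKC x = c0} (act K u) = -1 := by
    rw [← hU0, onSet_swap (Set.disjoint_singleton.2 hne0), onSet_of_fix]
    · simp [A0]
    · rintro x rfl
      show ((u * (u * 1) : G) : G ⧸ K) = _
      exact QuotientGroup.eq.2 (by simpa using inv_mem huu)
    · rintro x rfl
      show ((u * 1 : G) : G ⧸ K) = _
      rw [mul_one]
    · rintro x rfl
      show ((u * u : G) : G ⧸ K) = _
      exact QuotientGroup.eq.2 (by simpa using inv_mem huu)
  -- points above cosets moved by `z`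
  let U1 : Set (G ⧸ K) := {x | z • proj K hKC x ≠ proj K hKC x}
  have hU1 : Stab U1 (act K u) := stab_of_mapsTo fun x hx h => hx (by
    rw [hπu, ← mul_smul, ← huz, mul_smul] at h
    exact MulAction.injective u h)
  have hzz : ∀ d : G ⧸ C, z • z • d = d := fun d => by rw [← mul_smul, S.z_sq, one_smul]
  have s1 : onSet U1 (act K u) = 1 := by
    let f : G ⧸ K → Set (G ⧸ C) := fun x => {proj K hKC x, z • proj K hKC x}
    have hfeq : ∀ x y, f y = f x ↔ (proj K hKC y = proj K hKC x ∨ proj K hKC y = z • proj K hKC x) := by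
      intro x y
      constructor
      · intro h
        have : proj K hKC y ∈ f x := h ▸ Or.inl rfl
        exact this
      · rintro (h | h)
        · simp only [f, h]
        · simp only [f, h, hzz, Set.pair_comm]
    refine onSet_blocks f (act K u) U1 hU1 ?_ ?_ ?_ ?_
    · intro x hx y hy h
      rcases (hfeq x y).1 hy with e | e
      · rw [e] at h; exact hx h
      · rw [e, hzz] at h; exact hx h.symm
    · intro x _ y _
      rw [hfeq, hfeq, hπu, hπu, ← mul_smul z u, ← huz, mul_smul]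
      simp only [smul_left_cancel_iff]
    · intro x _
      rw [show {y | f y = f x} = {y | proj K hKC y ∈ f x} from Set.ext fun y => hfeq x y]
      exact even_preimage K hKC hKi (f x)
    · intro x hx n _ hn
      rw [← map_pow]
      set y := u ^ n with hy
      have hyz : y * z = z * y := (show Commute u z from huz).pow_left n
      have hn' : y • proj K hKC x = proj K hKC x ∨ y • proj K hKC x = z • proj K hKC x := by
        rw [← map_pow, hfeq, act_apply, proj_smul] at hn
        exact hn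
      let A : Set (G ⧸ K) := {w | proj K hKC w = proj K hKC x}
      let B : Set (G ⧸ K) := {w | proj K hKC w = z • proj K hKC x}
      rw [show {w | f w = f x} = A ∪ B from Set.ext fun w => hfeq x w]
      have hd : Disjoint A B := Set.disjoint_left.2 fun w (h1 : _ = _) (h2 : _ = _) => hx (h2.symm.trans h1)
      refine onSet_half (a := act K z) hd (even_preimage K hKC hKi {proj K hKC x}) ?_ ?_ ?_ ?_ ?_ ?_
      · intro w (hw : _ = _)
        show _ = _
        rw [act_apply, proj_smul, hw]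
      · intro w (hw : _ = _)
        show _ = _
        rw [act_apply, proj_smul, hw, hzz]
      · rw [← map_mul, S.z_sq]
        exact onSet_of_fix fun w _ => by rw [map_one, Equiv.Perm.one_apply]
      · rcases hn' with e | e
        · left
          constructor <;> refine stab_of_mapsTo fun w (hw : _ = _) => ?_ <;> show _ = _
          · rw [act_apply, proj_smul, hw, e]
          · rw [act_apply, proj_smul, hw, ← mul_smul, hyz, mul_smul, e]
        · right
          constructor <;> intro w (hw : _ = _) <;> show _ = _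
          · rw [act_apply, proj_smul, hw, e]
          · rw [act_apply, proj_smul, hw, ← mul_smul, hyz, mul_smul, e, hzz]
      · intro _
        rw [← map_inv, ← map_inv, ← map_mul, ← map_mul, ← map_mul,
          show z⁻¹ * y * z * y⁻¹ = z⁻¹ * (y * z) * y⁻¹ by group, hyz]
        exact onSet_of_fix fun w _ => by simp
      · intro _
        rw [← map_inv, ← map_mul, ← map_inv, ← map_mul, ← map_mul, ← map_mul,
          show z⁻¹ * (z⁻¹ * y) * z * (z⁻¹ * y)⁻¹ = z⁻¹ * z⁻¹ * (y * z) * y⁻¹ * z by group, hyz,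
          show z⁻¹ * z⁻¹ * (z * y) * y⁻¹ * z = 1 by group]
        exact onSet_of_fix fun w _ => by simp
  -- points above cosets fixed by `z`
  let U2 : Set (G ⧸ K) := {x | z • proj K hKC x = proj K hKC x ∧ proj K hKC x ≠ c0}
  have hEC : ∀ e ∈ E, e ∈ C := fun e he => mem_centralizer_singleton_iff.2 (S.comm e he)
  have hU2 : Stab U2 (act K u) := stab_of_mapsTo fun x ⟨h1, h2⟩ => ⟨by
    rw [hπu, ← mul_smul, ← huz, mul_smul, h1], fun h => h2 (by
    rw [hπu] at h
    rw [← inv_smul_smul u (proj K hKC x), h]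
    exact (hfix0 _).2 (inv_mem huC))⟩
  have s2 : onSet U2 (act K u) = 1 := by
    let f : G ⧸ K → Set (G ⧸ C) := fun x => {d | ∃ e ∈ E, d = e • proj K hKC x}
    have hfeq : ∀ x y, f y = f x ↔ ∃ e ∈ E, proj K hKC y = e • proj K hKC x := by
      intro x y
      constructor
      · intro h
        have : proj K hKC y ∈ f x := h ▸ ⟨1, one_mem E, (one_smul G _).symm⟩
        exact this
      · rintro ⟨e, he, h⟩
        ext d
        constructor
        · rintro ⟨e', he', rfl⟩
          exact ⟨e' * e, mul_mem he' he, by rw [h, mul_smul]⟩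
        · rintro ⟨e', he', rfl⟩
          exact ⟨e' * e⁻¹, mul_mem he' (inv_mem he), by rw [h, ← mul_smul, inv_mul_cancel_right]⟩
    have horb : ∀ x, {y | f y = f x} = orb K hKC E (proj K hKC x) := fun x => Set.ext fun y => hfeq x y
    have huE : ∀ e ∈ E, u * e * u⁻¹ ∈ E := fun e he => S.norm u huz e he
    have huE' : ∀ e ∈ E, u⁻¹ * e * u ∈ E := fun e he => by
      simpa using S.norm u⁻¹ (mem_centralizer_singleton_iff.1 (inv_mem huC)) e he
    refine onSet_blocks f (act K u) U2 hU2 ?_ ?_ ?_ ?_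
    · rintro x ⟨h1, h2⟩ y hy
      obtain ⟨e, he, h⟩ := (hfeq x y).1 hy
      refine ⟨by rw [h, ← mul_smul, ← S.comm e he, mul_smul, h1], fun h0 => h2 ?_⟩
      rw [← inv_smul_smul e (proj K hKC x), ← h, h0]
      exact (hfix0 _).2 (inv_mem (hEC e he))
    · intro x _ y _
      rw [hfeq, hfeq, hπu, hπu]
      constructor
      · rintro ⟨e, he, h⟩
        refine ⟨u⁻¹ * e * u, huE' e he, ?_⟩
        rw [mul_smul, mul_smul, ← h, inv_smul_smul]
      · rintro ⟨e, he, h⟩
        refine ⟨u * e * u⁻¹, huE e he, ?_⟩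
        rw [h, ← mul_smul, ← mul_smul]
        congr 1
        group
    · intro x _
      rw [show {y | f y = f x} = {y | proj K hKC y ∈ f x} from Set.ext fun y => hfeq x y]
      exact even_preimage K hKC hKi (f x)
    rintro x ⟨hx1, hx2⟩ n _ hn
    rw [horb, ← map_pow]
    set y := u ^ n with hy
    set c := proj K hKC x with hc
    obtain ⟨l, hl, hyc⟩ : ∃ l ∈ E, y • c = l • c := by
      rw [← map_pow, hfeq, act_apply, proj_smul] at hn
      exact hn
    have hyz : y * z = z * y := (show Commute u z from huz).pow_left n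
    have hyk : y ^ 2 ^ k = 1 := by rw [hy, ← pow_mul, mul_comm, pow_mul, huk, one_pow]
    have hyE : ∀ e ∈ E, y * e * y⁻¹ ∈ E := fun e he => S.norm y hyz e he
    obtain ⟨h, hh⟩ := QuotientGroup.mk_surjective c
    let D : Subgroup G := E ⊓ MulAction.stabilizer G c
    have hzD : z ∈ D := ⟨S.mem, hx1⟩
    have hDfix : ∀ e ∈ E, e • c = c → e ∈ D := fun e he h => ⟨he, h⟩
    have hyD : ∀ d ∈ D, y * d * y⁻¹ ∈ D := by
      intro d hd
      refine ⟨hyE d hd.1, ?_⟩
      have hdl : (l⁻¹ * (y * d * y⁻¹) * l) • c = c := by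
        rw [mul_smul, ← hyc, ← mul_smul, show l⁻¹ * (y * d * y⁻¹) * y = l⁻¹ * (y * d) by group, mul_smul,
          mul_smul, show d • c = c from hd.2, hyc, inv_smul_smul]
      have hm : l * (l⁻¹ * (y * d * y⁻¹) * l) * l⁻¹ ∈ D :=
        conj_mem_of_le S inf_le_left hzD hl
          ((⟨mul_mem (mul_mem (inv_mem hl) (hyE d hd.1)) hl, hdl⟩ :
            l⁻¹ * (y * d * y⁻¹) * l ∈ E ∧ (l⁻¹ * (y * d * y⁻¹) * l) • c = c))
      rw [show l * (l⁻¹ * (y * d * y⁻¹) * l) * l⁻¹ = y * d * y⁻¹ by group] at hm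
      exact hm.2
    have hwz : (h * z * h⁻¹) * z = z * (h * z * h⁻¹) := by
      have := (hfix z h).1 (hh.symm ▸ hx1)
      exact this.symm
    have hwne : h * z * h⁻¹ ≠ z := fun this => hx2 (by
      rw [← hh]
      exact QuotientGroup.eq.2 (by
        rw [mul_one, inv_mem_iff]
        exact mem_centralizer_singleton_iff.2 (mul_inv_eq_iff_eq_mul.1 this)))
    have hDw : ∀ e : G, e • c = c ↔ e * (h * z * h⁻¹) = h * z * h⁻¹ * e := fun e => hh ▸ hfix e h
    have hsame : ∀ m ∈ E, ∀ d ∈ D, d • (m • c) = m • c := by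
      intro m hm d hd
      have h1 := conj_mem_of_le S inf_le_left hzD (inv_mem hm) hd
      rw [inv_inv] at h1
      rw [← mul_smul, show d * m = m * (m⁻¹ * d * m) by group, mul_smul, show (m⁻¹ * d * m) • c = c from h1.2]
    by_cases hwE : h * z * h⁻¹ ∈ E
    · obtain ⟨a, haE, haD⟩ : ∃ a ∈ E, a ∉ D := by
        by_contra hall
        push Not at hall
        rcases S.cent _ (fun e he => ((hDw e).1 (hall e he).2).symm) with e | e
        · exact S.z_ne (conj_eq_one_iff.1 e)
        · exact hwne e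
      have hsplit : ∀ e ∈ E, e ∈ D ∨ a⁻¹ * e ∈ D := by
        intro e he
        by_cases heD : e * (h * z * h⁻¹) = h * z * h⁻¹ * e
        · exact Or.inl ⟨he, (hDw e).2 heD⟩
        refine Or.inr ((⟨mul_mem (inv_mem haE) he, (hDw _).2 ?_⟩ : a⁻¹ * e ∈ E ∧ (a⁻¹ * e) • c = c))
        have h1 := (commE S haE hwE).resolve_left fun e' => haD ⟨haE, (hDw a).2 e'⟩
        have h2 := (commE S he hwE).resolve_left heD
        calc a⁻¹ * e * (h * z * h⁻¹) = a⁻¹ * (z * (h * z * h⁻¹ * e)) := by rw [mul_assoc, h2]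
          _ = a⁻¹ * (z * (h * z * h⁻¹ * a)) * (a⁻¹ * e) := by group
          _ = a⁻¹ * (a * (h * z * h⁻¹)) * (a⁻¹ * e) := by rw [h1]
          _ = h * z * h⁻¹ * (a⁻¹ * e) := by group
      have hya : a⁻¹ * y * a * y⁻¹ ∈ D := by
        rcases hsplit _ (hyE a haE) with e | e
        · refine absurd ?_ haD
          have := pow_conj_mem hyD (2 ^ k - 1) _ e
          rwa [show y ^ (2 ^ k - 1) * (y * a * y⁻¹) * (y ^ (2 ^ k - 1))⁻¹ =
            (y ^ (2 ^ k - 1) * y) * a * (y ^ (2 ^ k - 1) * y)⁻¹ by group, ← pow_succ,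
            Nat.sub_add_cancel (Nat.one_le_two_pow), hyk, one_mul, inv_one, mul_one] at this
        · rwa [show a⁻¹ * (y * a * y⁻¹) = a⁻¹ * y * a * y⁻¹ by group] at e
      have hfixD : ∀ d ∈ D, onSet (orb K hKC D c) (act K d) = 1 := by
        intro d hd
        refine onSet_of_fix ?_
        intro w hw
        induction w using QuotientGroup.induction_on with
        | H g =>
          obtain ⟨m, hm, hgm⟩ := hw
          rw [proj_mk, show m • c = c from hm.2] at hgm
          have hgw : g * z * g⁻¹ = h * z * h⁻¹ := by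
            have h1 := QuotientGroup.eq.1 (hgm.trans hh.symm)
            have h2 : g⁻¹ * h * z = z * (g⁻¹ * h) := mem_centralizer_singleton_iff.1 h1
            calc g * z * g⁻¹ = g * (z * (g⁻¹ * h)) * h⁻¹ := by group
              _ = g * (g⁻¹ * h * z) * h⁻¹ := by rw [h2]
              _ = h * z * h⁻¹ := by group
          show ((d * g : G) : G ⧸ K) = (g : G ⧸ K)
          refine QuotientGroup.eq.2 ?_
          rw [show (d * g)⁻¹ * g = (g⁻¹ * d * g)⁻¹ by group, inv_mem_iff]
          exact htwo g (hgw ▸ hwE) (hgw ▸ hwne) d hd.1 (hgw ▸ (hDw d).1 hd.2)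
      exact act_even K hKC S hKi inf_le_left haE haD hsplit le_rfl hzD hDfix hyD hya ⟨l, hl, hyc⟩
        (hfixD _ (sq_mem_of_le S hzD haE)) (hfixD _ hya)
        (hfixD _ (by
          have h' := conj_mem_of_le S inf_le_left hzD (inv_mem haE) hya
          rwa [inv_inv] at h'))
    have hw2 : h * z * h⁻¹ * (h * z * h⁻¹) = 1 := by
      rw [show h * z * h⁻¹ * (h * z * h⁻¹) = h * (z * z) * h⁻¹ by group, S.z_sq]; group
    have hnh : ∀ a ∈ E, ¬ ∀ e ∈ E, e ∈ D ∨ a⁻¹ * e ∈ D := by
      intro a ha hall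
      refine no_half S hext hwz hw2 hwE ha fun e he => (hall e he).imp (fun h' => ?_) (fun h' => ?_)
      · exact (hfix e h).1 (hh.symm ▸ h'.2)
      · exact (hfix _ h).1 (hh.symm ▸ h'.2)
    have hDE : D ≠ E := fun h' => hnh 1 (one_mem E) fun e he => Or.inl (h'.symm ▸ he)
    obtain ⟨M, a, haE, hDM, hME, haM, hsplit, hyM, hya⟩ := exists_half S hzD inf_le_left le_rfl hDE hyk hyD hyE
    have hzM : z ∈ M := hDM hzD
    have hDne : D ≠ M := fun h' => hnh a haE fun e he => h'.symm ▸ hsplit e he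
    obtain ⟨L1, b, hbM, hDL1, hL1M, hbL1, hsplit1, -, -⟩ := exists_half S hzD hDM hME hDne (y := 1) (k := k)
      (one_pow _) (by simp) (by simp)
    have hL1E : L1 ≤ E := hL1M.trans hME
    have hzL1 : onSet (orb K hKC L1 c) (act K z) = 1 := by
      by_cases hDL : D = L1
      · refine onSet_of_fix ?_
        intro w hw
        induction w using QuotientGroup.induction_on with
        | H g =>
          obtain ⟨m, hm, hgm⟩ := hw
          rw [proj_mk] at hgm
          have hmE := hL1E hm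
          have hwg : ∀ d ∈ D, d * (g * z * g⁻¹) = g * z * g⁻¹ * d := fun d hd =>
            (hfix d g).1 (hgm ▸ hsame m hmE d hd)
          have hgE : g * z * g⁻¹ ∉ E := by
            intro hgE
            refine hwE ?_
            have h1 : ((m * h : G) : G ⧸ C) = (g : G ⧸ C) := by
              rw [hgm, ← hh]
              rfl
            have h2 : (m * h)⁻¹ * g * z = z * ((m * h)⁻¹ * g) :=
              mem_centralizer_singleton_iff.1 (QuotientGroup.eq.1 h1)
            have h3 : h * z * h⁻¹ = m⁻¹ * (g * z * g⁻¹) * m := by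
              calc h * z * h⁻¹ = h * (z * ((m * h)⁻¹ * g)) * g⁻¹ * m := by group
                _ = h * ((m * h)⁻¹ * g * z) * g⁻¹ * m := by rw [h2]
                _ = m⁻¹ * (g * z * g⁻¹) * m := by group
            rw [h3]
            exact mul_mem (mul_mem (inv_mem hmE) hgE) hmE
          show ((z * g : G) : G ⧸ K) = (g : G ⧸ K)
          refine QuotientGroup.eq.2 ?_
          rw [show (z * g)⁻¹ * g = (g⁻¹ * z * g)⁻¹ by group, inv_mem_iff]
          exact hfour g (hwg z hzD) hgE ⟨D, M, a, haE, b, hME hbM, inf_le_left, hwg, hsplit,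
            fun e he => hDL ▸ hsplit1 e he⟩
      · obtain ⟨L2, d, hdL1, hDL2, hL2L1, hdL2, hsplit2, -, -⟩ := exists_half S hzD hDL1 hL1E hDL (y := 1)
          (k := k) (one_pow _) (by simp) (by simp)
        exact act_z_even K hKC S hL2L1 hdL1 hdL2 hsplit2 hL1E (hDL2 hzD) fun e he h' => hDL2 (hDfix e he h')
    have h1z : ∀ g : G, (g = 1 ∨ g = z) → onSet (orb K hKC L1 c) (act K g) = 1 := by
      rintro g (rfl | rfl)
      · exact onSet_of_fix fun w _ => by simp
      · exact hzL1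
    -- elements of `M` are even above the orbit of `M`
    have hMev : ∀ m ∈ M, onSet (orb K hKC M c) (act K m) = 1 := by
      intro m hm
      have hbE := hME hbM
      have hbr := S.bracket b⁻¹ (inv_mem hbE) m (hME hm)
      rw [inv_inv] at hbr
      refine act_even K hKC S hKi hL1M hbM hbL1 hsplit1 hME (hDL1 hzD) (fun e he h' => hDL1 (hDfix e he h'))
        (fun x hx => conj_mem_of_le S hL1E (hDL1 hzD) (hME hm) hx)
        (by rcases hbr with e | e <;> rw [e]; exacts [one_mem L1, hDL1 hzD])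
        ⟨m, hm, rfl⟩ (h1z _ (S.sq b hbE)) (h1z _ hbr) (h1z _ ?_)
      rcases hbr with e | e <;> rw [e]
      · exact Or.inl (by group)
      · exact Or.inr (by rw [mul_assoc, ← S.comm b hbE, inv_mul_cancel_left])
    have hya' : a⁻¹ * y * a * y⁻¹ ∈ M := by
      rwa [show a⁻¹ * y * a * y⁻¹ = a⁻¹ * (y * a * y⁻¹) by group]
    exact act_even K hKC S hKi hME haE haM hsplit le_rfl hzM (fun e he h' => hDM (hDfix e he h'))
      hyM hya' ⟨l, hl, hyc⟩ (hMev _ (sq_mem_of_le S hzM haE)) (hMev _ hya')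
      (hMev _ (by simpa using conj_mem_of_le S hME hzM (inv_mem haE) hya'))
  -- put the parts together
  let U0 : Set (G ⧸ K) := {x | proj K hKC x = c0}
  have hU0' : Stab U0 (act K u) := stab_of_mapsTo fun x (hx : _ = _) => by
    show _ = _
    rw [hπu, hx]
    exact (hfix0 u).2 huC
  have hz0 : z • c0 = c0 := (hfix0 z).2 (hEC z S.mem)
  have hd1 : Disjoint U1 U2 := Set.disjoint_left.2 fun x h1 h2 => h1 h2.1
  have hd0 : Disjoint U0 (U1 ∪ U2) := by
    refine Set.disjoint_left.2 fun x (hx : _ = _) h => ?_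
    rcases h with h | h
    · exact h (by rw [hx, hz0])
    · exact h.2 hx
  have huniv : (Set.univ : Set (G ⧸ K)) = U0 ∪ (U1 ∪ U2) := by
    refine (Set.eq_univ_of_forall fun x => ?_).symm
    by_cases h0 : proj K hKC x = c0
    · exact Or.inl h0
    · by_cases h1 : z • proj K hKC x = proj K hKC x
      · exact Or.inr (Or.inr ⟨h1, h0⟩)
      · exact Or.inr (Or.inl h1)
  have hall := hres (sgn.comp (act K)) u
  rw [MonoidHom.comp_apply, ← onSet_univ, huniv, onSet_union hd0 hU0' (fun x => or_congr (hU1 x) (hU2 x)),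
    onSet_union hd1 hU1 hU2, s0, s1, s2] at hall
  simp at hall

/-- If no other conjugate of `z` lies in `E`, the centralizer has no subgroup of index two. -/
theorem exists_conj (S : Setting z E) (hext : Cfsg.IsExtraspecial 2 ↥E) (hbig : 128 ≤ Nat.card E)
    (hres : ∀ φ : G →* ℤˣ, ∀ g, φ g = 1) (K : Subgroup G) (hKC : K ≤ centralizer ({z} : Set G))
    (hKi : K.relIndex (centralizer ({z} : Set G)) = 2) :
    ∃ g : G, g * z * g⁻¹ ∈ E ∧ g * z * g⁻¹ ≠ z := by
  classical
  by_contra hno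
  push Not at hno
  refine false_of_conditions S hext hres K hKC hKi (fun g hg hne => absurd (hno g hg) hne) ?_
  rintro g - - ⟨D, M, a, ha, b, hb, hDE, hDw, hsplit, hsplit1⟩
  obtain ⟨p, hp, q, hq, hpq⟩ := exists_noncomm hext hbig hDE ha hb hsplit hsplit1
  exact conj_z_mem_of_noncomm S K hKi (hDE hp) (hDE hq) (hDw p hp) (hDw q hq) hpq

end Cfsg.Agent.H32.EspSign
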