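import Mathlib
import Cfsg.Agent.H51.Basic

/-!
# A class of involutions with odd prime power products: derived group nilpotent, given Z*
-/

set_option autoImplicit false

namespace Cfsg.Agent.H32

open Subgroup
open scoped commutatorElement

variable {G : Type*} [Group G] [Finite G]

/-- In a group of order twice an odd number all involutions are conjugate, and each Sylow
subgroup for an odd prime is normalized by one of them. -/
theorem exists_sylow_inv {N : Subgroup G} [N.Normal] {d : G} (hd : orderOf d = 2)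
    (hN : Odd (Nat.card N)) (h2 : N.index = 2) (q : ℕ) [Fact q.Prime] (hq : q ≠ 2) :
    ∃ Q : Sylow q G, (Q : Subgroup G) ≤ N ∧ ∀ y ∈ (Q : Subgroup G), d * y * d⁻¹ ∈ (Q : Subgroup G) := by
  haveI : Fact (Nat.Prime 2) := ⟨Nat.prime_two⟩
  obtain ⟨Q⟩ : Nonempty (Sylow q G) := inferInstance
  have hQN : ∀ R : Sylow q G, (R : Subgroup G) ≤ N := by
    intro R x hx
    rw [← QuotientGroup.eq_one_iff, ← orderOf_eq_one_iff]
    obtain ⟨k, hk⟩ := IsPGroup.iff_orderOf.mp R.2 ⟨x, hx⟩
    rw [Subgroup.orderOf_mk] at hk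
    have h1 : orderOf ((x : G) : G ⧸ N) ∣ q ^ k := hk ▸ orderOf_map_dvd (QuotientGroup.mk' N) x
    have h3 : orderOf ((x : G) : G ⧸ N) ∣ 2 := by
      rw [← h2]; exact orderOf_dvd_natCard _
    exact Nat.eq_one_of_dvd_coprimes
      (Nat.Coprime.pow_left _ ((Nat.coprime_primes Fact.out Nat.prime_two).mpr hq)) h1 h3
  have htop := Sylow.normalizer_sup_eq_top' Q (hQN Q)
  let R := normalizer ((Q : Subgroup G) : Set G)
  have h2R : 2 ∣ Nat.card R := by
    by_contra hodd
    have hle : R ≤ N := by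
      intro x hx
      rw [← QuotientGroup.eq_one_iff, ← orderOf_eq_one_iff]
      have h1 : orderOf ((x : G) : G ⧸ N) ∣ Nat.card R :=
        (orderOf_map_dvd (QuotientGroup.mk' N) x).trans (Subgroup.orderOf_dvd_natCard _ hx)
      have h3 : orderOf ((x : G) : G ⧸ N) ∣ 2 := by
        rw [← h2]; exact orderOf_dvd_natCard _
      exact Nat.eq_one_of_dvd_coprimes ((Nat.prime_two.coprime_iff_not_dvd).mpr hodd).symm h1 h3
    have : N = ⊤ := top_le_iff.mp (htop ▸ sup_le hle le_rfl)
    rw [this, index_top] at h2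
    exact absurd h2 (by norm_num)
  obtain ⟨t, ht⟩ := exists_prime_orderOf_dvd_card' 2 h2R
  have ht' : orderOf (t : G) = 2 := by rwa [Subgroup.orderOf_coe]
  -- `t` and `d` generate Sylow 2-subgroups
  have hcard : Nat.card G = 2 * Nat.card N := by rw [← N.card_mul_index, h2, mul_comm]
  have hfac : ∀ x : G, orderOf x = 2 → ∀ S : Sylow 2 G, x ∈ (S : Subgroup G) →
      (S : Subgroup G) = zpowers x := by
    intro x hx S hxS
    refine (eq_of_le_of_card_ge ((zpowers_le).mpr hxS) ?_).symm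
    obtain ⟨k, hk⟩ := IsPGroup.iff_card.mp S.2
    have hdvd : 2 ^ k ∣ 2 * Nat.card N := hk ▸ hcard ▸ card_subgroup_dvd_card _
    rw [Nat.card_zpowers, hx, hk]
    rcases k with _ | _ | k
    · norm_num
    · norm_num
    · exfalso
      rw [pow_succ', Nat.mul_dvd_mul_iff_left two_pos] at hdvd
      exact (Nat.not_even_iff_odd.mpr hN) (even_iff_two_dvd.mpr
        ((dvd_pow_self 2 k.succ_ne_zero).trans hdvd))
  have hz : ∀ x : G, orderOf x = 2 → IsPGroup 2 (zpowers x) := fun x hx =>
    IsPGroup.of_card (n := 1) (by rw [Nat.card_zpowers, hx, pow_one])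
  obtain ⟨S, hS⟩ := (hz _ ht').exists_le_sylow
  obtain ⟨S', hS'⟩ := (hz _ hd).exists_le_sylow
  obtain ⟨g, hg⟩ := MulAction.exists_smul_eq G S S'
  have hmem : g * (t : G) * g⁻¹ ∈ (S' : Subgroup G) := by
    rw [← hg, Sylow.coe_subgroup_smul]
    exact ⟨t, hS (mem_zpowers _), rfl⟩
  rw [hfac d hd S' (hS' (mem_zpowers _))] at hmem
  have hgt : g * (t : G) * g⁻¹ = d := by
    obtain ⟨n, hn⟩ := hmem
    rcases Int.even_or_odd n with ⟨m, rfl⟩ | ⟨m, rfl⟩
    · exfalso
      have h1 : d * d = 1 := by rw [← pow_two, ← hd, pow_orderOf_eq_one]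
      have : g * (t : G) * g⁻¹ = 1 := by
        rw [← hn]
        show d ^ (m + m) = 1
        rw [← two_mul, zpow_mul, zpow_two, h1, one_zpow]
      rw [conj_eq_one_iff.mp this] at ht'
      simp at ht'
    · rw [← hn]
      show d ^ (2 * m + 1) = d
      have h1 : d * d = 1 := by rw [← pow_two, ← hd, pow_orderOf_eq_one]
      rw [zpow_add, zpow_mul, zpow_two, h1, one_zpow, one_mul, zpow_one]
  refine ⟨g • Q, hQN _, fun y hy => ?_⟩
  rw [Sylow.coe_subgroup_smul] at hy ⊢
  obtain ⟨z, hz', rfl⟩ := hy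
  refine ⟨(t : G) * z * (t : G)⁻¹, (t.2 z).mp hz', ?_⟩
  rw [← hgt]
  simp [mul_assoc]

/-- The statement, with Glauberman's Z*-theorem as a hypothesis. -/
theorem isPGroup_commutator_of_zStar
    (zstar : ∀ (P : Sylow 2 G) (u : G), orderOf u = 2 → u ∈ P →
      (∀ g : G, g * u * g⁻¹ ∈ P → g * u * g⁻¹ = u) →
      ∃ N : Subgroup G, N.Normal ∧ Odd (Nat.card N) ∧ ∀ g : G, (u * g * u⁻¹ * g⁻¹) ∈ N)
    (p : ℕ) (hp : p.Prime) (hodd : p ≠ 2) {D : Set G} (hinv : ∀ d ∈ D, orderOf d = 2)
    (hconj : ∃ d ∈ D, D = conjugatesOf d) (hgen : Subgroup.closure D = ⊤)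
    (hprod : ∀ x ∈ D, ∀ y ∈ D, x ≠ y → ∃ k : ℕ, orderOf (x * y) = p ^ k) :
    IsPGroup p ↥(commutator G) := by
  haveI : Fact (Nat.Prime 2) := ⟨Nat.prime_two⟩
  haveI : Fact p.Prime := ⟨hp⟩
  obtain ⟨d, hdD, hDd⟩ := hconj
  have hd := hinv d hdD
  have hdd : d * d = 1 := by rw [← pow_two, ← hd, pow_orderOf_eq_one]
  have hdi : d⁻¹ = d := inv_eq_of_mul_eq_one_right hdd
  have hcjD : ∀ g : G, g * d * g⁻¹ ∈ D := fun g => hDd ▸ isConj_iff.mpr ⟨g, rfl⟩
  have hprod' : ∀ g : G, ∃ k : ℕ, orderOf (d * (g * d * g⁻¹)) = p ^ k := by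
    intro g
    by_cases h : d = g * d * g⁻¹
    · exact ⟨0, by rw [← h, hdd, orderOf_one, pow_zero]⟩
    · exact hprod d hdD _ (hcjD g) h
  have hcop : ∀ (g : G) (S : Subgroup G) (q : ℕ), q.Prime → q ≠ p → IsPGroup q S →
      d * (g * d * g⁻¹) ∈ S → g * d * g⁻¹ = d := by
    intro g S q hq hqp hS hm
    obtain ⟨k, hk⟩ := hprod' g
    obtain ⟨n, hn⟩ := hS ⟨_, hm⟩
    have h1 : orderOf (d * (g * d * g⁻¹)) ∣ q ^ n :=
      orderOf_dvd_of_pow_eq_one (congrArg Subtype.val hn)
    rw [hk] at h1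
    have h2 := Nat.eq_one_of_dvd_coprimes
      (((Nat.coprime_primes hp hq).mpr hqp.symm).pow k n) dvd_rfl h1
    rw [h2, orderOf_eq_one_iff] at hk
    rw [← inv_eq_of_mul_eq_one_right hk, hdi]
  obtain ⟨P₂, hP₂⟩ := (IsPGroup.of_card (n := 1) (G := zpowers d)
    (by rw [Nat.card_zpowers, hd, pow_one]) : IsPGroup 2 (zpowers d)).exists_le_sylow
  obtain ⟨N, hNn, hNodd, hZ⟩ := zstar P₂ d hd (hP₂ (mem_zpowers d)) fun g hg =>
    hcop g P₂ 2 Nat.prime_two hodd.symm P₂.2 (mul_mem (hP₂ (mem_zpowers d)) hg)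
  have hdN : d ∉ N := fun h => by
    have h1 := Subgroup.orderOf_dvd_natCard N h
    rw [hd] at h1
    exact Nat.not_even_iff_odd.mpr hNodd (even_iff_two_dvd.mpr h1)
  -- the quotient is generated by the image of `d`
  have himg : ∀ x ∈ D, ((x : G) : G ⧸ N) = (d : G ⧸ N) := by
    intro x hx
    rw [hDd] at hx
    obtain ⟨g, rfl⟩ := isConj_iff.mp hx
    refine (QuotientGroup.eq.mpr ?_).symm
    have := hZ g
    rw [hdi] at this ⊢
    simpa [mul_assoc] using this
  have hgenQ : ∀ z : G ⧸ N, z ∈ zpowers (d : G ⧸ N) := by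
    intro z
    obtain ⟨x, rfl⟩ := QuotientGroup.mk_surjective z
    have hle : closure D ≤ (zpowers (d : G ⧸ N)).comap (QuotientGroup.mk' N) :=
      (closure_le _).mpr fun y hy => by
        show ((y : G) : G ⧸ N) ∈ zpowers (d : G ⧸ N)
        rw [himg y hy]; exact mem_zpowers _
    exact hle (hgen ▸ mem_top x)
  have h2 : N.index = 2 := by
    rw [Subgroup.index_eq_card, ← orderOf_eq_card_of_forall_mem_zpowers hgenQ]
    refine orderOf_eq_prime ?_ fun h => hdN ((QuotientGroup.eq_one_iff d).mp h)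
    rw [← QuotientGroup.mk_pow, pow_two, hdd, QuotientGroup.mk_one]
  have hcommN : commutator G ≤ N := by
    rw [_root_.commutator_def, commutator_le]
    intro a _ b _
    obtain ⟨i, hi⟩ := hgenQ a
    obtain ⟨j, hj⟩ := hgenQ b
    simp only at hi hj
    rw [← QuotientGroup.eq_one_iff, ← QuotientGroup.mk'_apply, map_commutatorElement,
      commutatorElement_eq_one_iff_mul_comm, QuotientGroup.mk'_apply, QuotientGroup.mk'_apply,
      ← hi, ← hj]
    exact zpow_mul_comm _ i j
  -- every prime other than `p` misses the class size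
  let C := centralizer ({d} : Set G)
  have hCp : ∀ q : ℕ, q.Prime → q ∣ C.index → q = p := by
    intro q hq hqdvd
    by_contra hqp
    haveI : Fact q.Prime := ⟨hq⟩
    obtain ⟨Q, hQC⟩ : ∃ Q : Sylow q G, (Q : Subgroup G) ≤ C := by
      by_cases hq2 : q = 2
      · subst hq2
        refine ⟨P₂, fun x hx => mem_centralizer_singleton_iff.mpr ?_⟩
        have hcx := hcop x P₂ 2 Nat.prime_two hodd.symm P₂.2
          (mul_mem (hP₂ (mem_zpowers d)) (mul_mem (mul_mem hx (hP₂ (mem_zpowers d))) (inv_mem hx)))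
        exact mul_inv_eq_iff_eq_mul.mp hcx
      · obtain ⟨Q, -, hQ⟩ := exists_sylow_inv hd hNodd h2 q hq2
        refine ⟨Q, fun x hx => mem_centralizer_singleton_iff.mpr ?_⟩
        have hm : d * (x * d * x⁻¹) ∈ (Q : Subgroup G) := by
          rw [← mul_assoc]
          refine mul_mem ?_ (inv_mem hx)
          have := hQ x hx
          rw [hdi, mul_assoc] at this
          simpa [mul_assoc] using this
        exact mul_inv_eq_iff_eq_mul.mp (hcop x Q q hq hqp Q.2 hm)
    exact Q.not_dvd_index (hqdvd.trans (index_dvd_of_le hQC))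
  have hindex : ∃ a : ℕ, C.index = p ^ a := by
    refine ⟨_, Nat.eq_prime_pow_of_unique_prime_dvd Subgroup.index_ne_zero_of_finite
      fun {q} hq hdvd => hCp q hq hdvd⟩
  obtain ⟨P, hPN, hPd⟩ := exists_sylow_inv hd hNodd h2 p hodd
  -- `P` is transitive on the class
  have horb : D = Set.range fun u : (P : Subgroup G) => (u : G) * d * (u : G)⁻¹ := by
    refine (Set.eq_of_subset_of_ncard_le (Set.range_subset_iff.mpr fun u : (P : Subgroup G) => hcjD (u : G)) ?_
      (Set.toFinite _)).symm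
    have hD : D.ncard = C.index := by
      rw [hDd, ← Nat.card_coe_set_eq, index_eq_card]
      refine (Nat.card_congr (Equiv.ofBijective (fun x : G ⧸ C => (⟨Quotient.out x * d * (Quotient.out x)⁻¹,
        isConj_iff.mpr ⟨Quotient.out x, rfl⟩⟩ : conjugatesOf d)) ⟨fun x y h => ?_, fun z => ?_⟩)).symm
      · have h' := congrArg Subtype.val h
        rw [← QuotientGroup.out_eq' x, ← QuotientGroup.out_eq' y, QuotientGroup.eq]
        refine mem_centralizer_singleton_iff.mpr ?_
        simp only at h'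
        calc (Quotient.out x)⁻¹ * Quotient.out y * d
            = (Quotient.out x)⁻¹ * (Quotient.out y * d * (Quotient.out y)⁻¹) * Quotient.out y := by
              group
          _ = d * ((Quotient.out x)⁻¹ * Quotient.out y) := by rw [← h']; group
      · obtain ⟨g, hg⟩ := isConj_iff.mp z.2
        obtain ⟨c, hc⟩ := QuotientGroup.mk_out_eq_mul C g
        refine ⟨(g : G ⧸ C), Subtype.ext ?_⟩
        simp only [hc]
        rw [← hg, show g * (c : G) * d * (g * (c : G))⁻¹ = g * ((c : G) * d) * (c : G)⁻¹ * g⁻¹ by group,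
          mem_centralizer_singleton_iff.mp c.2]
        group
    obtain ⟨a, ha⟩ := hindex
    -- compare the p-parts
    let C' := C.subgroupOf (P : Subgroup G)
    have hrange : C'.index ≤ (Set.range fun u : (P : Subgroup G) =>
        (u : G) * d * (u : G)⁻¹).ncard := by
      rw [← Nat.card_coe_set_eq, index_eq_card]
      refine Nat.card_le_card_of_injective
        (fun x => ⟨(Quotient.out x : (P : Subgroup G)) * d *
          ((Quotient.out x : (P : Subgroup G)) : G)⁻¹, _, rfl⟩) fun x y h => ?_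
      have h' := congrArg Subtype.val h
      rw [← QuotientGroup.out_eq' x, ← QuotientGroup.out_eq' y, QuotientGroup.eq, mem_subgroupOf]
      refine mem_centralizer_singleton_iff.mpr ?_
      simp only at h'
      push_cast
      calc ((Quotient.out x : (P : Subgroup G)) : G)⁻¹ * (Quotient.out y : (P : Subgroup G)) * d
          = ((Quotient.out x : (P : Subgroup G)) : G)⁻¹ * (((Quotient.out y : (P : Subgroup G)) : G) * d *
            ((Quotient.out y : (P : Subgroup G)) : G)⁻¹) * (Quotient.out y : (P : Subgroup G)) := by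
            group
        _ = d * (((Quotient.out x : (P : Subgroup G)) : G)⁻¹ * (Quotient.out y : (P : Subgroup G))) := by
            rw [← h']; group
    refine le_trans ?_ hrange
    rw [hD]
    obtain ⟨n, hn⟩ := IsPGroup.iff_card.mp P.2
    obtain ⟨c, -, hc⟩ := (Nat.dvd_prime_pow hp).mp (hn ▸ card_subgroup_dvd_card C')
    have hPC : C'.index * Nat.card C' = p ^ n := by rw [mul_comm, card_mul_index, hn]
    have hCC : Nat.card C' ∣ Nat.card C := by
      refine card_dvd_of_injective ((((P : Subgroup G).subtype.comp C'.subtype)).codRestrict C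
        fun x => x.2) fun x y h => ?_
      have h' := congrArg Subtype.val h
      exact Subtype.ext (Subtype.ext h')
    have hmax : p ^ (c + a) ∣ p ^ n := by
      rw [← hn, Sylow.card_eq_multiplicity]
      refine pow_dvd_pow p ((Nat.Prime.pow_dvd_iff_le_factorization hp Nat.card_pos.ne').mp ?_)
      rw [pow_add, ← hc, ← ha, ← C.card_mul_index]
      exact mul_dvd_mul hCC dvd_rfl
    rw [hc] at hPC
    have hle : c + a ≤ n := (Nat.pow_dvd_pow_iff_le_right hp.one_lt).mp hmax
    rw [ha]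
    refine Nat.le_of_mul_le_mul_right ?_ (pow_pos hp.pos c)
    rw [hPC, ← pow_add]
    exact Nat.pow_le_pow_right hp.pos (by omega)
  -- so the group is `P` extended by `d`
  have hK : ∀ g : G, g ∈ (P : Subgroup G) ∨ g * d ∈ (P : Subgroup G) := by
    intro g
    have hddz : ∀ z : G, d * (d * z) = z := fun z => by rw [← mul_assoc, hdd, one_mul]
    have hflip : ∀ z ∈ (P : Subgroup G), d * z * d ∈ (P : Subgroup G) := fun z hz => by
      have := hPd z hz; rwa [hdi] at this
    have hg : g ∈ closure D := hgen ▸ mem_top g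
    induction hg using Subgroup.closure_induction with
    | mem x hx =>
      rw [horb] at hx
      obtain ⟨u, rfl⟩ := hx
      refine Or.inr ?_
      simpa [mul_assoc] using mul_mem u.2 (hflip _ (inv_mem u.2))
    | one => exact Or.inl (one_mem _)
    | mul x y _ _ hx hy =>
      rcases hx with hx | hx <;> rcases hy with hy | hy
      · exact Or.inl (mul_mem hx hy)
      · exact Or.inr (by simpa [mul_assoc] using mul_mem hx hy)
      · refine Or.inr ?_
        simpa [mul_assoc, hdd, hddz] using mul_mem hx (hflip _ hy)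
      · refine Or.inl ?_
        simpa [mul_assoc, hdd, hddz] using mul_mem hx (hflip _ hy)
    | inv x _ hx =>
      rcases hx with hx | hx
      · exact Or.inl (inv_mem hx)
      · refine Or.inr ?_
        simpa [mul_assoc, hdd, hddz, hdi, mul_inv_rev] using hflip _ (inv_mem hx)
  have hNP : N ≤ (P : Subgroup G) := fun x hx => by
    rcases hK x with h | h
    · exact h
    · exfalso
      have := mul_mem (inv_mem hx) (hPN h)
      rw [inv_mul_cancel_left] at this
      exact hdN this
  exact P.2.to_le (hcommN.trans hNP)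

/-- The statement, with Glauberman's Z*-theorem as a hypothesis. -/
theorem isNilpotent_commutator_of_zStar
    (zstar : ∀ (P : Sylow 2 G) (u : G), orderOf u = 2 → u ∈ P →
      (∀ g : G, g * u * g⁻¹ ∈ P → g * u * g⁻¹ = u) →
      ∃ N : Subgroup G, N.Normal ∧ Odd (Nat.card N) ∧ ∀ g : G, (u * g * u⁻¹ * g⁻¹) ∈ N)
    (p : ℕ) (hp : p.Prime) (hodd : p ≠ 2) {D : Set G} (hinv : ∀ d ∈ D, orderOf d = 2)
    (hconj : ∃ d ∈ D, D = conjugatesOf d) (hgen : Subgroup.closure D = ⊤)
    (hprod : ∀ x ∈ D, ∀ y ∈ D, x ≠ y → ∃ k : ℕ, orderOf (x * y) = p ^ k) :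
    Group.IsNilpotent ↥(commutator G) :=
  haveI : Fact p.Prime := ⟨hp⟩
  (isPGroup_commutator_of_zStar zstar p hp hodd hinv hconj hgen hprod).isNilpotent

/-- The class of an involution with odd prime power products lies over the `p`-core, given Z*. -/
theorem mul_mem_pCore_of_zStar {d : G}
    (zstar : ∀ (P : Sylow 2 (closure (conjugatesOf d))) (u : closure (conjugatesOf d)),
      orderOf u = 2 → u ∈ P → (∀ g, g * u * g⁻¹ ∈ P → g * u * g⁻¹ = u) →
      ∃ N : Subgroup (closure (conjugatesOf d)), N.Normal ∧ Odd (Nat.card N) ∧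
        ∀ g, (u * g * u⁻¹ * g⁻¹) ∈ N)
    {p : ℕ} (hp : p.Prime) (hp2 : p ≠ 2) (hd : orderOf d = 2)
    (hprod : ∀ a ∈ conjugatesOf d, ∀ b ∈ conjugatesOf d, ∃ k : ℕ, orderOf (a * b) = p ^ k) :
    ∀ a ∈ conjugatesOf d, ∀ b ∈ conjugatesOf d, a * b ∈ Cfsg.pCore p G := by
  haveI : Fact p.Prime := ⟨hp⟩
  set L := closure (conjugatesOf d) with hL
  haveI hLn : L.Normal := by
    refine ⟨fun x hx g => ?_⟩
    induction hx using Subgroup.closure_induction with
    | mem y hy => exact subset_closure (IsConj.trans hy (isConj_iff.mpr ⟨g, rfl⟩))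
    | one => simp
    | mul y z _ _ hy hz => simpa [mul_assoc] using mul_mem hy hz
    | inv y _ hy => simpa [mul_assoc] using inv_mem hy
  have hord : ∀ a ∈ conjugatesOf d, orderOf a = 2 := fun a ha => by
    obtain ⟨g, rfl⟩ := isConj_iff.mp ha
    rw [← hd, ← MulAut.conj_apply]; exact (MulAut.conj g).orderOf_eq d
  have hsq : ∀ a ∈ conjugatesOf d, a * a = 1 := fun a ha => by
    rw [← pow_two, ← hord a ha, pow_orderOf_eq_one]
  -- any two conjugates are conjugate inside `L`
  have hconjL : ∀ a ∈ conjugatesOf d, ∀ b ∈ conjugatesOf d, ∃ r ∈ L, r⁻¹ * a * r = b := by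
    intro a ha b hb
    obtain ⟨k, hk⟩ := hprod a ha b hb
    have hodd : Odd (p ^ k) := (hp.odd_of_ne_two hp2).pow
    obtain ⟨m, hm⟩ := hodd
    refine ⟨(a * b) ^ (m + 1), pow_mem (mul_mem (subset_closure ha) (subset_closure hb)) _, ?_⟩
    have hinv : a * (a * b) * a = (a * b)⁻¹ := by
      rw [mul_inv_rev, inv_eq_of_mul_eq_one_right (hsq a ha),
        inv_eq_of_mul_eq_one_right (hsq b hb), ← mul_assoc a a, hsq a ha, one_mul]
    have hflip : ∀ n : ℕ, a * (a * b) ^ n * a = ((a * b) ^ n)⁻¹ := by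
      intro n
      have := (MulAut.conj a).toMonoidHom.map_pow (a * b) n
      simp only [MulEquiv.coe_toMonoidHom, MulAut.conj_apply,
        inv_eq_of_mul_eq_one_right (hsq a ha)] at this
      rw [this, hinv, inv_pow]
    rw [← hflip]
    calc a * (a * b) ^ (m + 1) * a * a * (a * b) ^ (m + 1)
        = a * ((a * b) ^ (m + 1) * (a * a) * (a * b) ^ (m + 1)) := by simp only [mul_assoc]
      _ = b := by
        rw [hsq a ha, mul_one, ← pow_add, show m + 1 + (m + 1) = p ^ k + 1 by omega, pow_succ,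
          ← hk, pow_orderOf_eq_one, one_mul, ← mul_assoc, hsq a ha, one_mul]
  let D : Set L := {x | (x : G) ∈ conjugatesOf d}
  have hdD : (⟨d, subset_closure (mem_conjugatesOf_self)⟩ : L) ∈ D := mem_conjugatesOf_self
  have hP := isPGroup_commutator_of_zStar zstar p hp hp2 (D := D)
    (fun x hx => by rw [← Subgroup.orderOf_coe]; exact hord _ hx)
    ⟨_, hdD, by
      ext x
      refine ⟨fun hx => ?_, fun hx => ?_⟩
      · obtain ⟨r, hr, he⟩ := hconjL d mem_conjugatesOf_self _ hx
        exact isConj_iff.mpr ⟨⟨r, hr⟩⁻¹, Subtype.ext (by simpa [mul_assoc] using he)⟩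
      · obtain ⟨r, rfl⟩ := isConj_iff.mp hx
        exact isConj_iff.mpr ⟨(r : G), rfl⟩⟩
    (Subgroup.closure_closure_coe_preimage) (fun x hx y hy _ => by
      obtain ⟨k, hk⟩ := hprod _ hx _ hy
      exact ⟨k, by rw [← Subgroup.orderOf_coe]; exact hk⟩)
  intro a ha b hb
  have hp' : IsPGroup p (⁅L, L⁆ : Subgroup G) := by
    rw [← map_subtype_commutator]; exact hP.map _
  refine H51.le_pCore (commutator_normal L L) hp' ?_
  obtain ⟨r, hr, rfl⟩ := hconjL a ha b hb
  have : a * (r⁻¹ * a * r) = ⁅a, r⁻¹⁆ := by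
    rw [commutatorElement_def, inv_eq_of_mul_eq_one_right (hsq a ha)]; group
  rw [this]
  exact commutator_mem_commutator (subset_closure ha) (inv_mem hr)

end Cfsg.Agent.H32
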