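import Mathlib
import Cfsg.Agent.H24.SmallRank
import Cfsg.Agent.H24.PGroupBasic
import Cfsg.Agent.H20.Generation

/-!
`p`-groups without a "normal pair": an element `b` of order `p` whose conjugates lie in `b ⟨z⟩`
for a central element `z` of order `p`.
-/

set_option autoImplicit false

open scoped IsMulCommutative

namespace Cfsg.Agent.H32.OrbitTwoGroup

variable {P : Type*} [Group P] [Finite P]

/-- An element `b` of order `p` outside `⟨z⟩` whose conjugates lie in `b ⟨z⟩`, `z` central. -/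
def HasNormalPair (P : Type*) [Group P] (p : ℕ) : Prop :=
  ∃ z b : P, z ∈ Subgroup.center P ∧ z ^ p = 1 ∧ z ≠ 1 ∧ b ^ p = 1 ∧ b ∉ Subgroup.zpowers z ∧
    ∀ u : P, ∃ i : ℕ, u * b * u⁻¹ = b * z ^ i

theorem hasNormalPair_of_elementary {p : ℕ} [hp : Fact p.Prime] (hP : IsPGroup p P)
    (A : Subgroup P) [A.Normal] (hA : IsMulCommutative A) (hAe : ∀ a ∈ A, a ^ p = 1)
    (hAcard : Nat.card A = p ^ 2) : HasNormalPair P p := by
  classical
  have hA0 : A ≠ ⊥ := fun h => by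
    rw [h, Subgroup.card_bot] at hAcard
    nlinarith [hp.out.two_le]
  obtain ⟨z, hzA, hzc, hzo⟩ := H24.exists_central_orderOf hP (N := A) hA0
  have hne : ¬ A ≤ Subgroup.zpowers z := fun h => by
    have := Subgroup.card_le_of_le h
    rw [hAcard, Nat.card_zpowers, hzo] at this
    nlinarith [hp.out.two_le]
  obtain ⟨b, hbA, hb⟩ := SetLike.not_le_iff_exists.1 hne
  refine ⟨z, b, hzc, hAe z hzA, fun h => ?_, hAe b hbA, hb, fun u => ?_⟩
  · rw [h, orderOf_one] at hzo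
    exact hp.out.one_lt.ne hzo
  -- `A = ⟨z⟩ ⟨b⟩`
  have hzA' : Subgroup.zpowers z ≤ A := Subgroup.zpowers_le.2 hzA
  have hsup : ∀ x ∈ A, ∃ s i : ℕ, x = b ^ s * z ^ i := by
    have hcomm : Commute b z := congrArg Subtype.val (mul_comm' (⟨b, hbA⟩ : A) ⟨z, hzA⟩)
    have hpow : ∀ y : P, y ^ p = 1 → ∀ m : ℕ, y ^ m = y ^ (m % p) := fun y hy m => by
      conv_lhs => rw [← Nat.mod_add_div m p]
      rw [pow_add, pow_mul, hy, one_pow, mul_one]
    let f : Fin p × Fin p → A := fun si =>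
      ⟨b ^ (si.1 : ℕ) * z ^ (si.2 : ℕ), mul_mem (pow_mem hbA _) (pow_mem hzA _)⟩
    have hf : Function.Injective f := by
      rintro ⟨s, i⟩ ⟨s', i'⟩ h
      have h' : b ^ (s : ℕ) * z ^ (i : ℕ) = b ^ (s' : ℕ) * z ^ (i' : ℕ) := congrArg Subtype.val h
      have hs : s = s' := by
        by_contra hss
        apply hb
        have hmem : b ^ ((s : ℤ) - (s' : ℤ)) ∈ Subgroup.zpowers z := by
          refine ⟨(i' : ℤ) - i, ?_⟩
          simp only [zpow_sub, zpow_natCast]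
          have e1 : b ^ (s : ℕ) = b ^ (s' : ℕ) * (z ^ (i' : ℕ) * (z ^ (i : ℕ))⁻¹) := by
            rw [← mul_assoc, ← h', mul_inv_cancel_right]
          rw [e1, ((hcomm.pow_pow (s' : ℕ) (i' : ℕ)).mul_right
            (hcomm.pow_pow (s' : ℕ) (i : ℕ)).inv_right).eq, mul_inv_cancel_right]
        have hcop : IsCoprime ((s : ℤ) - (s' : ℤ)) (p : ℤ) := by
          rw [Int.isCoprime_iff_gcd_eq_one]
          refine Nat.Coprime.symm (hp.out.coprime_iff_not_dvd.2 fun hd => ?_)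
          have := Nat.le_of_dvd (by
            have : (s : ℕ) ≠ s' := fun e => hss (Fin.ext e)
            omega) hd
          have := s.2
          have := s'.2
          omega
        obtain ⟨α, β, hab⟩ := hcop
        have e : b = (b ^ ((s : ℤ) - (s' : ℤ))) ^ α := by
          rw [← zpow_mul]
          conv_lhs => rw [← zpow_one b, ← hab]
          rw [zpow_add, mul_comm β, zpow_mul b (p : ℤ), zpow_natCast, hAe b hbA, one_zpow, mul_one,
            mul_comm α]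
        rw [e]
        exact zpow_mem hmem α
      subst hs
      have h2 : z ^ (i : ℕ) = z ^ (i' : ℕ) := mul_left_cancel h'
      exact Prod.ext rfl (Fin.ext (pow_injOn_Iio_orderOf (by simp [hzo]) (by simp [hzo]) h2))
    have hbij := (Nat.bijective_iff_injective_and_card f).2
      ⟨hf, by rw [Nat.card_prod, Nat.card_fin, hAcard, pow_two]⟩
    intro x hx
    obtain ⟨⟨s, i⟩, hsi⟩ := hbij.2 ⟨x, hx⟩
    exact ⟨s, i, (congrArg Subtype.val hsi).symm⟩
  obtain ⟨s, i, hsi⟩ := hsup _ (Subgroup.Normal.conj_mem inferInstance b hbA u)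
  obtain ⟨k, hk⟩ := hP u
  -- modulo `⟨z⟩` conjugation multiplies exponents by `s`, and `s ^ (p ^ k) ≡ 1`
  have hiter : ∀ m : ℕ, ∃ j : ℕ, u ^ m * b * (u ^ m)⁻¹ = b ^ s ^ m * z ^ j := by
    intro m
    induction m with
    | zero => exact ⟨0, by simp⟩
    | succ m ih =>
      obtain ⟨j, hj⟩ := ih
      refine ⟨i * s ^ m + j, ?_⟩
      have hzu : u * z ^ j * u⁻¹ = z ^ j :=
        mul_inv_eq_iff_eq_mul.2 ((Commute.pow_right (Subgroup.mem_center_iff.1 hzc u : Commute u z) j).eq)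
      calc u ^ (m + 1) * b * (u ^ (m + 1))⁻¹ = u * (u ^ m * b * (u ^ m)⁻¹) * u⁻¹ := by
            rw [pow_succ', mul_inv_rev]; simp only [mul_assoc]
        _ = (u * b * u⁻¹) ^ s ^ m * (u * z ^ j * u⁻¹) := by
            rw [hj, conj_pow]; group
        _ = b ^ s ^ (m + 1) * z ^ (i * s ^ m + j) := by
            rw [hzu, hsi, (Commute.pow_pow ((Subgroup.mem_center_iff.1 hzc b : Commute b z)) s i).mul_pow,
              ← pow_mul, ← pow_mul, mul_assoc, ← pow_add, pow_succ, mul_comm (s ^ m) s]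
  obtain ⟨j, hj⟩ := hiter (p ^ k)
  rw [hk, one_mul, inv_one, mul_one] at hj
  have hmod : (s ^ p ^ k : ℕ) ≡ 1 [MOD p] := by
    by_contra hne'
    apply hb
    have h1 : b ^ ((s ^ p ^ k : ℕ) : ℤ) * b⁻¹ ∈ Subgroup.zpowers z := by
      refine ⟨-(j : ℤ), ?_⟩
      simp only [zpow_neg, zpow_natCast]
      rw [eq_mul_inv_iff_mul_eq, inv_mul_eq_iff_eq_mul]
      calc b = b ^ s ^ p ^ k * z ^ j := hj
        _ = z ^ j * b ^ s ^ p ^ k :=
          (Commute.pow_pow (Subgroup.mem_center_iff.1 hzc b : Commute b z) _ j).eq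
    have hcop : IsCoprime (((s ^ p ^ k : ℕ) : ℤ) - 1) (p : ℤ) := by
      refine ((Prime.coprime_iff_not_dvd (Nat.prime_iff_prime_int.1 hp.out)).2 fun hd => hne' ?_).symm
      exact (Nat.modEq_iff_dvd.2 hd).symm
    obtain ⟨α, β, hab⟩ := hcop
    rw [← zpow_sub_one] at h1
    have e : b = (b ^ (((s ^ p ^ k : ℕ) : ℤ) - 1)) ^ α := by
      rw [← zpow_mul]
      conv_lhs => rw [← zpow_one b, ← hab]
      rw [zpow_add, mul_comm β, zpow_mul b (p : ℤ), zpow_natCast, hAe b hbA, one_zpow, mul_one,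
        mul_comm α]
    rw [e]
    exact zpow_mem h1 α
  have hs : s ≡ 1 [MOD p] := by
    have h1 : ((s : ℕ) : ZMod p) ^ p ^ k = 1 := by
      rw [← Nat.cast_pow, ← Nat.cast_one, ZMod.natCast_eq_natCast_iff]
      exact hmod
    rw [ZMod.pow_card_pow, ← Nat.cast_one, ZMod.natCast_eq_natCast_iff] at h1
    exact h1
  exact ⟨i, by rw [hsi, pow_eq_pow_mod s (hAe b hbA), hs, ← pow_eq_pow_mod 1 (hAe b hbA), pow_one]⟩

/-- A `2`-group has a normal pair or a cyclic subgroup of index at most two, inverted modulo four. -/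
theorem two_group_cases (hP : IsPGroup 2 P) :
    HasNormalPair P 2 ∨ ∃ c : P, (Subgroup.zpowers c).Normal ∧
      ∀ y : P, y ∈ Subgroup.zpowers c ∨
        (4 ∣ orderOf c ∧ y * y ∈ Subgroup.zpowers c ∧ ∃ j : ℕ, j % 4 = 3 ∧ y * c * y⁻¹ = c ^ j) := by
  classical
  haveI : Fact (Nat.Prime 2) := ⟨Nat.prime_two⟩
  obtain ⟨A, hAn, hAc, hmax⟩ := H24.exists_maximal_normal_abelian P
  haveI := hAn
  haveI : IsMulCommutative A := hAc
  have hCA := H24.centralizer_eq_of_maximal_normal_abelian hP hAc hmax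
  let V : Subgroup P := (powMonoidHom 2 : A →* A).ker.map A.subtype
  haveI : V.Normal := ⟨fun x hx g => by
    obtain ⟨⟨a, ha⟩, hax, rfl⟩ := hx
    refine ⟨⟨g * a * g⁻¹, hAn.conj_mem a ha g⟩, ?_, rfl⟩
    have : a ^ 2 = 1 := congrArg Subtype.val (MonoidHom.mem_ker.1 hax)
    exact Subtype.ext (by simp [conj_pow, this])⟩
  by_cases hV : 2 < Nat.card V
  · left
    obtain ⟨U, hUn, -, hUc, hUe, hUcard⟩ := H24.exists_normal_elementary_two_le hP (fun v hv => by
      obtain ⟨a, ha, rfl⟩ := hv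
      exact congrArg Subtype.val (MonoidHom.mem_ker.1 ha)) hV
    haveI := hUn
    exact hasNormalPair_of_elementary hP U hUc hUe hUcard
  have hker2 : Nat.card (powMonoidHom 2 : A →* A).ker ≤ 2 := by
    have : Nat.card V = Nat.card (powMonoidHom 2 : A →* A).ker :=
      Nat.card_congr ((Subgroup.equivMapOfInjective _ A.subtype A.subtype_injective).toEquiv.symm)
    omega
  haveI hcyc : IsCyclic A := by
    refine H20.isCyclic_of_prime_kernels fun q hq => ?_
    by_cases hq2 : q = 2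
    · subst hq2; exact hker2
    · refine le_trans (le_of_eq (Subgroup.card_eq_one.mpr (eq_bot_iff.mpr fun x hx =>
        Subgroup.mem_bot.mpr ?_))) hq.one_le
      obtain ⟨k, hk⟩ := IsPGroup.iff_orderOf.mp (hP.to_subgroup A) x
      exact orderOf_eq_one_iff.mp (Nat.eq_one_of_dvd_coprimes
        (((Nat.coprime_primes hq Nat.prime_two).mpr hq2).pow_right k)
        (orderOf_dvd_of_pow_eq_one hx) (dvd_of_eq hk))
  obtain ⟨c, hc⟩ := (Subgroup.isCyclic_iff_exists_zpowers_eq_top A).1 hcyc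
  subst hc
  set n := orderOf c with hn
  obtain ⟨k, hk⟩ := IsPGroup.iff_orderOf.1 hP c
  have hcent : ∀ g : P, g * c * g⁻¹ = c → g ∈ Subgroup.zpowers c := fun g hg => by
    rw [← hCA, Subgroup.mem_centralizer_iff]
    intro a ha
    obtain ⟨i, rfl⟩ := Subgroup.mem_zpowers_iff.1 ha
    exact ((show Commute g c from mul_inv_eq_iff_eq_mul.1 hg).zpow_right i).eq.symm
  have hconj : ∀ g : P, ∃ j : ℕ, g * c * g⁻¹ = c ^ j := fun g => by
    obtain ⟨j, hj⟩ := (mem_powers_iff_mem_zpowers (x := c)).2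
      (hAn.conj_mem c (Subgroup.mem_zpowers c) g)
    exact ⟨j, hj.symm⟩
  choose J hJ using hconj
  have hJmul : ∀ g h : P, c ^ J (g * h) = c ^ (J h * J g) := fun g h => by
    rw [← hJ, mul_comm, pow_mul, ← hJ g, conj_pow, ← hJ h]
    group
  by_cases hk1 : k ≤ 1
  · right
    refine ⟨c, hAn, fun y => Or.inl (hcent y ?_)⟩
    have h1 : orderOf (y * c * y⁻¹) = orderOf c := orderOf_injective (MulAut.conj y).toMonoidHom
      (MulAut.conj y).injective c
    rw [hJ] at h1 ⊢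
    interval_cases k
    · rw [pow_zero, orderOf_eq_one_iff] at hk
      rw [hk, one_pow]
    · have hc2 : c ^ 2 = 1 := by rw [show 2 = orderOf c by rw [hk, pow_one], pow_orderOf_eq_one]
      rcases Nat.even_or_odd (J y) with ⟨r, hr⟩ | ⟨r, hr⟩
      · exfalso
        have : c ^ J y = 1 := by
          rw [hr, ← two_mul, pow_mul, hc2, one_pow]
        rw [this, orderOf_one, hk] at h1
        norm_num at h1
      · rw [hr, pow_succ, pow_mul, hc2, one_pow, one_mul]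
  have h4n : 4 ∣ n := by
    rw [hn, hk]
    exact pow_dvd_pow 2 (show 2 ≤ k by omega)
  have hJodd : ∀ g, J g % 2 = 1 := by
    intro g
    by_contra hev
    have h1 : orderOf (g * c * g⁻¹) = orderOf c := orderOf_injective (MulAut.conj g).toMonoidHom
      (MulAut.conj g).injective c
    rw [hJ, orderOf_pow, hk] at h1
    have hg2 : 2 ∣ Nat.gcd (2 ^ k) (J g) :=
      Nat.dvd_gcd (dvd_pow_self 2 (by omega)) (Nat.dvd_of_mod_eq_zero (by omega))
    have hpos : 0 < 2 ^ k := pow_pos (by norm_num) k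
    have := Nat.div_lt_self hpos (lt_of_lt_of_le (by norm_num)
      (Nat.le_of_dvd (Nat.gcd_pos_of_pos_left _ hpos) hg2))
    omega
  by_cases hone : ∀ y : P, J y % 4 = 1 → y ∈ Subgroup.zpowers c
  · right
    refine ⟨c, hAn, fun y => ?_⟩
    by_cases hy : y ∈ Subgroup.zpowers c
    · exact Or.inl hy
    refine Or.inr ⟨h4n, hone _ ?_, J y, ?_, hJ y⟩
    · have h1 := (pow_eq_pow_iff_modEq.1 (hJmul y y)).of_dvd h4n
      rw [h1, Nat.mul_mod]
      have := hJodd y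
      have : J y % 4 = 1 ∨ J y % 4 = 3 := by omega
      rcases this with e | e <;> rw [e]
    · have := hJodd y
      by_contra h3
      exact hy (hone y (by omega))
  left
  push_neg at hone
  obtain ⟨y₀, hy₀, hy₀A⟩ := hone
  -- reduce to `y * y ∈ ⟨c⟩`
  obtain ⟨y, hy, hyA, hy2⟩ : ∃ y : P, J y % 4 = 1 ∧ y ∉ Subgroup.zpowers c ∧
      y * y ∈ Subgroup.zpowers c := by
    obtain ⟨m, hm⟩ := hP y₀
    clear hk1
    induction m generalizing y₀ with
    | zero => rw [pow_zero, pow_one] at hm; exact absurd (hm ▸ one_mem _) hy₀A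
    | succ m ih =>
      by_cases h : y₀ * y₀ ∈ Subgroup.zpowers c
      · exact ⟨y₀, hy₀, hy₀A, h⟩
      · refine ih (y₀ * y₀) ?_ h (by rw [← pow_two, ← pow_mul, ← pow_succ']; exact hm)
        have h1 := (pow_eq_pow_iff_modEq.1 (hJmul y₀ y₀)).of_dvd h4n
        rw [h1, Nat.mul_mod, hy₀]
  -- `y c y⁻¹ = c z`
  set z : P := c ^ (2 ^ (k - 1)) with hz
  have hkk : 2 ^ (k - 1) * 2 = 2 ^ k := by rw [← pow_succ, Nat.sub_add_cancel (by omega)]
  have hz2 : z ^ 2 = 1 := by rw [hz, ← pow_mul, hkk, ← hk, pow_orderOf_eq_one]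
  have hz1 : z ≠ 1 := by
    rw [hz]
    intro h
    have h1 := Nat.le_of_dvd (pow_pos (by norm_num) _) (orderOf_dvd_of_pow_eq_one h)
    have h2 : 0 < 2 ^ (k - 1) := pow_pos (by norm_num) _
    omega
  have hyc : y * c * y⁻¹ = c * z ∧ 3 ≤ k := by
    have hsq : c ^ (J y * J y) = c ^ 1 := by
      rw [← hJmul, ← hJ, pow_one]
      obtain ⟨i, hi⟩ := Subgroup.mem_zpowers_iff.1 hy2
      rw [← hi]
      group
    obtain ⟨m, hm⟩ : ∃ m, J y = 4 * m + 1 := ⟨J y / 4, by omega⟩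
    have hd : (2 ^ k : ℕ) ∣ 4 * m * (4 * m + 2) := by
      rw [← hk]
      have := (pow_eq_pow_iff_modEq.1 hsq)
      rw [hm, Nat.ModEq.comm, Nat.modEq_iff_dvd' (by nlinarith)] at this
      convert this using 1
      refine (Nat.sub_eq_of_eq_add ?_).symm
      ring
    have hd2 : (2 ^ (k - 1) : ℕ) ∣ 4 * m := by
      have h1 : 2 ^ (k - 1) * 2 ∣ 4 * m * (2 * m + 1) * 2 := by
        rw [hkk]; convert hd using 1; ring
      have h2 := Nat.dvd_of_mul_dvd_mul_right (by norm_num) h1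
      exact (Nat.Coprime.pow_left _ ((Nat.prime_two.coprime_iff_not_dvd).2 (by omega))).dvd_of_dvd_mul_right h2
    obtain ⟨r, hr⟩ := hd2
    have hne : y * c * y⁻¹ ≠ c := fun h => hyA (hcent y h)
    have hcase : y * c * y⁻¹ = c * z ^ (r % 2) := by
      rw [hJ, hm, hr, ← pow_eq_pow_mod r hz2, hz, ← pow_mul, ← pow_succ']
    rcases Nat.mod_two_eq_zero_or_one r with e | e
    · rw [e, pow_zero, mul_one] at hcase; exact absurd hcase hne
    · rw [e, pow_one] at hcase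
      refine ⟨hcase, ?_⟩
      by_contra hk3
      obtain rfl : k = 2 := by omega
      norm_num at hr
      omega
  obtain ⟨hyc, hk3⟩ := hyc
  obtain ⟨q8, hq8⟩ : ∃ q8, 2 ^ (k - 1) = 4 * q8 :=
    ⟨2 ^ (k - 3), by
      rw [show k - 1 = (k - 3) + 2 by omega, pow_add, mul_comm]
      norm_num⟩
  have hord : (orderOf c : ℤ) = 8 * q8 := by
    rw [hk, ← hkk, hq8]; push_cast; ring
  have hsquare : ∀ i : ℤ, (y * c ^ i) * (y * c ^ i) = y * y * c ^ (i * (2 + 4 * (q8 : ℤ))) := by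
    intro i
    have hyy : Commute (y * y) c := by
      obtain ⟨l, hl⟩ := Subgroup.mem_zpowers_iff.1 hy2
      rw [← hl]
      exact Commute.zpow_self c l
    have h1 : y⁻¹ * c * y = c * z := by
      calc y⁻¹ * c * y = y * c * y⁻¹ := by
            rw [eq_mul_inv_iff_mul_eq]
            calc y⁻¹ * c * y * y = y⁻¹ * (c * (y * y)) := by group
              _ = y⁻¹ * ((y * y) * c) := by rw [hyy.eq]
              _ = y * c := by group
        _ = c * z := hyc
    have h2 : y⁻¹ * c ^ i * y = c ^ (i * (1 + 4 * (q8 : ℤ))) := by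
      have h3 : y⁻¹ * c ^ i * y = (y⁻¹ * c * y) ^ i := by
        simpa only [inv_inv] using (conj_zpow (a := y⁻¹) (b := c) (i := i)).symm
      rw [h3, h1, hz, hq8, ← zpow_natCast, ← zpow_one_add,
        ← zpow_mul, mul_comm]
      push_cast
      ring_nf
    calc (y * c ^ i) * (y * c ^ i) = y * y * ((y⁻¹ * c ^ i * y) * c ^ i) := by group
      _ = y * y * c ^ (i * (2 + 4 * (q8 : ℤ))) := by rw [h2, ← zpow_add]; ring_nf
  obtain ⟨r, hr⟩ := Subgroup.mem_zpowers_iff.1 hy2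
  obtain ⟨s, hs⟩ : ∃ s : ℤ, r = 2 * s := by
    have h1 : y * c ^ r * y⁻¹ = c ^ r := by rw [hr]; group
    rw [← conj_zpow, hyc, hz, ← zpow_natCast, ← zpow_one_add, ← zpow_mul,
      zpow_eq_zpow_iff_modEq, hq8, hord, Int.modEq_iff_dvd] at h1
    obtain ⟨l, hl⟩ := h1
    push_cast at hl
    refine ⟨r / 2, ?_⟩
    have hq0 : (q8 : ℤ) ≠ 0 := by
      intro e
      have : q8 = 0 := by exact_mod_cast e
      subst this
      have := pow_pos (show 0 < 2 by norm_num) (k - 1)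
      omega
    have : r = 2 * (-l) := by
      refine mul_left_cancel₀ (mul_ne_zero (show (4 : ℤ) ≠ 0 by norm_num) hq0) ?_
      linear_combination -hl
    omega
  subst hs
  set t := y * c ^ (-s * (1 - 2 * (q8 : ℤ))) with ht
  have ht2 : t * t = 1 := by
    rw [ht, hsquare, ← hr, ← zpow_add, ← orderOf_dvd_iff_zpow_eq_one, hord]
    exact ⟨s * q8, by ring⟩
  have hzA : z ∈ Subgroup.zpowers c := Subgroup.pow_mem _ (Subgroup.mem_zpowers c) _
  have htA : t ∉ Subgroup.zpowers c := fun h =>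
    hyA ((Subgroup.mul_mem_cancel_right _ (Subgroup.zpow_mem _ (Subgroup.mem_zpowers c) _)).1 h)
  have hzc : z ∈ Subgroup.center P := by
    rw [Subgroup.mem_center_iff]
    intro g
    refine (mul_inv_eq_iff_eq_mul.1 ?_)
    obtain ⟨m, hm⟩ : ∃ m, J g = 2 * m + 1 := ⟨J g / 2, by have := hJodd g; omega⟩
    rw [hz, ← conj_pow, hJ, ← pow_mul, mul_comm, pow_mul, ← hz, hm, pow_succ, pow_mul, hz2,
      one_pow, one_mul]
  refine ⟨z, t, hzc, hz2, hz1, by rw [pow_two, ht2], fun h => htA ?_, fun g => ?_⟩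
  · exact (Subgroup.zpowers_le.2 hzA) h
  · -- `g t g⁻¹` is an involution in `y ⟨c⟩`
    have hJc : ∀ (h : P) (i : ℤ), h * c ^ i * h⁻¹ = c ^ ((J h : ℤ) * i) := fun h i => by
      rw [← conj_zpow, hJ, ← zpow_natCast, ← zpow_mul]
    have hin : g * y * g⁻¹ * y⁻¹ ∈ Subgroup.zpowers c := by
      refine hcent _ ?_
      calc g * y * g⁻¹ * y⁻¹ * c * (g * y * g⁻¹ * y⁻¹)⁻¹
          = g * (y * (g⁻¹ * (y⁻¹ * c ^ (1 : ℤ) * y⁻¹⁻¹) * g⁻¹⁻¹) * y⁻¹) * g⁻¹ := by group
        _ = c ^ ((J g : ℤ) * ((J y : ℤ) * ((J g⁻¹ : ℤ) * ((J y⁻¹ : ℤ) * 1)))) := by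
            rw [hJc, hJc, hJc, hJc]
        _ = c ^ ((J g : ℤ) * ((J g⁻¹ : ℤ) * ((J y : ℤ) * ((J y⁻¹ : ℤ) * 1)))) := by ring_nf
        _ = g * (g⁻¹ * (y * (y⁻¹ * c ^ (1 : ℤ) * y⁻¹⁻¹) * y⁻¹) * g⁻¹⁻¹) * g⁻¹ := by
            rw [hJc, hJc, hJc, hJc]
        _ = c := by group
    obtain ⟨i, hi⟩ : ∃ i : ℤ, g * t * g⁻¹ = y * c ^ i := by
      obtain ⟨u, hu⟩ := Subgroup.mem_zpowers_iff.1 hin
      have hmem : y⁻¹ * (g * t * g⁻¹) ∈ Subgroup.zpowers c := by
        rw [ht, show y⁻¹ * (g * (y * c ^ (-s * (1 - 2 * (q8 : ℤ)))) * g⁻¹) =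
          (y⁻¹ * (g * y * g⁻¹ * y⁻¹) * y) * (g * c ^ (-s * (1 - 2 * (q8 : ℤ))) * g⁻¹) by group]
        refine mul_mem ?_ (hAn.conj_mem _ (Subgroup.zpow_mem _ (Subgroup.mem_zpowers c) _) g)
        have := hAn.conj_mem _ hin y⁻¹
        rwa [inv_inv] at this
      obtain ⟨i, hi⟩ := Subgroup.mem_zpowers_iff.1 hmem
      exact ⟨i, by rw [hi]; group⟩
    have h1 : (y * c ^ i) * (y * c ^ i) = 1 := by
      rw [← hi, show g * t * g⁻¹ * (g * t * g⁻¹) = g * (t * t) * g⁻¹ by group, ht2, mul_one,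
        mul_inv_cancel]
    rw [hsquare, ← hr, ← zpow_add, ← orderOf_dvd_iff_zpow_eq_one, hord] at h1
    obtain ⟨w, hw⟩ := h1
    have e : i * (1 + 2 * (q8 : ℤ)) + s = 4 * q8 * w := by linarith [hw]
    obtain ⟨δ, hδ⟩ : ∃ δ : ℤ, i + s * (1 - 2 * (q8 : ℤ)) = 4 * q8 * δ :=
      ⟨w * (1 - 2 * q8) + i * q8, by linear_combination (1 - 2 * (q8 : ℤ)) * e⟩
    refine ⟨(δ % 2).natAbs, ?_⟩
    rw [hi, ht, mul_assoc, show z ^ (δ % 2).natAbs = z ^ δ from ?_, hz, hq8, ← zpow_natCast,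
      ← zpow_mul, ← zpow_add]
    · congr 2
      push_cast
      linarith
    · rw [← zpow_natCast, Int.natAbs_of_nonneg (Int.emod_nonneg _ (by norm_num))]
      have h2 : z ^ (2 : ℤ) = 1 := by exact_mod_cast hz2
      conv_rhs => rw [← Int.emod_add_mul_ediv δ 2, zpow_add, zpow_mul, h2, one_zpow, mul_one]

end Cfsg.Agent.H32.OrbitTwoGroup
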