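import Mathlib
import Cfsg.Agent.H32.OrbitCyclic
import Cfsg.Agent.H32.OrbitTwoGroup
import Cfsg.Agent.H87.PPowerClasses
import Cfsg.Agent.H24.SmallRank

/-!
A finite group acting coprimely and faithfully on a vector space over `ZMod q`, all orbits having
`p`-power length for one prime `p`, is solvable.
-/

set_option autoImplicit false

open scoped Pointwise

namespace Cfsg.Agent.H32.OrbitSolvable

open Finset

universe u v

section Setting

variable {T : Type u} [Group T] [Finite T] {W : Type v} [AddCommGroup W] [Finite W]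
  [DistribMulAction T W] {q p : ℕ}

/-- Multiplication by a number prime to the exponent is injective. -/
theorem eq_zero_of_smul_eq_zero {q : ℕ} (hq : q.Prime) (hW : ∀ w : W, q • w = 0) {m : ℕ}
    (hm : ¬ q ∣ m) {w : W} (h : m • w = 0) : w = 0 := by
  have h1 := addOrderOf_dvd_of_nsmul_eq_zero (hW w)
  have h2 := addOrderOf_dvd_of_nsmul_eq_zero h
  rw [← AddMonoid.addOrderOf_eq_one_iff]
  exact Nat.eq_one_of_dvd_coprimes (hq.coprime_iff_not_dvd.2 hm) h1 h2

/-- Decomposition into `p` pieces permuted cyclically. -/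
theorem isSolvable_of_pieces [Fact p.Prime] (P : Subgroup T)
    (hsame : ∀ (g : T) (w : W), ∃ u ∈ P, g • w = u • w)
    (hirr : ∀ U : AddSubgroup W, (∀ u ∈ P, ∀ x ∈ U, u • x ∈ U) → U = ⊥ ∨ U = ⊤)
    (hprop : ∀ N : Subgroup T, N.Normal → N ≠ ⊤ → Group.IsSolvable N)
    (B : ZMod p → AddSubgroup W) (hne : ∀ i, B i ≠ ⊥)
    (hindep : ∀ f g : ZMod p → W, (∀ i, f i ∈ B i) → (∀ i, g i ∈ B i) →
      ∑ i, f i = ∑ i, g i → f = g)
    (hperm : ∀ u ∈ P, ∃ t : ZMod p, ∀ i, ∀ x ∈ B i, u • x ∈ B (i + t)) :
    Group.IsSolvable T := by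
  classical
  have hsingle : ∀ i (x : W), x ∈ B i → ∀ j, (Pi.single i x : ZMod p → W) j ∈ B j := by
    intro i x hx j
    by_cases h : j = i
    · subst h; simpa using hx
    · rw [Pi.single_eq_of_ne h]; exact zero_mem _
  have hdisj : ∀ i j x, x ∈ B i → x ∈ B j → x ≠ 0 → i = j := by
    intro i j x hi hj hx
    by_contra hij
    have := congrFun (hindep _ _ (hsingle i x hi) (hsingle j x hj)
      (by simp [Finset.sum_pi_single'])) i
    rw [Pi.single_eq_same, Pi.single_eq_of_ne hij] at this
    exact hx this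
  have htwo : ∀ i j k l (a b c d : W), a ∈ B i → b ∈ B j → c ∈ B k → d ∈ B l → i ≠ j →
      a ≠ 0 → b ≠ 0 → a + b = c + d → (k = i ∧ l = j) ∨ (k = j ∧ l = i) := by
    intro i j k l a b c d ha hb hc hd hij ha0 hb0 h
    have hh := hindep (Pi.single i a + Pi.single j b) (Pi.single k c + Pi.single l d)
      (fun m => by simpa using add_mem (hsingle i a ha m) (hsingle j b hb m))
      (fun m => by simpa using add_mem (hsingle k c hc m) (hsingle l d hd m))
      (by simp [Finset.sum_add_distrib, Finset.sum_pi_single', h])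
    have hi := congrFun hh i
    have hj := congrFun hh j
    simp only [Pi.add_apply, Pi.single_eq_same, Pi.single_eq_of_ne hij, add_zero,
      Pi.single_eq_of_ne (Ne.symm hij), zero_add] at hi hj
    have hi' : k = i ∨ l = i := by
      by_contra hcon
      push_neg at hcon
      rw [Pi.single_eq_of_ne hcon.1.symm, Pi.single_eq_of_ne hcon.2.symm, add_zero] at hi
      exact ha0 hi
    have hj' : k = j ∨ l = j := by
      by_contra hcon
      push_neg at hcon
      rw [Pi.single_eq_of_ne hcon.1.symm, Pi.single_eq_of_ne hcon.2.symm, add_zero] at hj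
      exact hb0 hj
    rcases hi' with rfl | rfl <;> rcases hj' with rfl | rfl
    · exact absurd rfl hij
    · exact Or.inl ⟨rfl, rfl⟩
    · exact Or.inr ⟨rfl, rfl⟩
    · exact absurd rfl hij
  have hexπ : ∀ (g : T) (i : ZMod p), ∃ j, ∀ x ∈ B i, g • x ∈ B j := by
    intro g i
    obtain ⟨x₀, hx₀, hx₀0⟩ := (AddSubgroup.bot_or_exists_ne_zero (B i)).resolve_left (hne i)
    have hmem : ∀ x ∈ B i, ∃ j, g • x ∈ B j := fun x hx => by
      obtain ⟨u, hu, hux⟩ := hsame g x
      obtain ⟨t, ht⟩ := hperm u hu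
      exact ⟨i + t, hux ▸ ht i x hx⟩
    obtain ⟨j, hj⟩ := hmem x₀ hx₀
    refine ⟨j, fun x hx => ?_⟩
    obtain ⟨k, hk⟩ := hmem x hx
    by_cases hgx : g • x = 0
    · rw [hgx]; exact zero_mem _
    obtain ⟨l, hl⟩ := hmem (x₀ + x) (add_mem hx₀ hx)
    by_contra hxj
    have hjk : j ≠ k := fun e => hxj (e ▸ hk)
    have hgx₀ : g • x₀ ≠ 0 := (smul_ne_zero_iff_ne g).2 hx₀0
    rw [smul_add] at hl
    have := htwo j k l l (g • x₀) (g • x) (g • x₀ + g • x) 0 hj hk hl (zero_mem _) hjk hgx₀ hgx
      (add_zero _).symm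
    rcases this with ⟨h1, h2⟩ | ⟨h1, h2⟩
    · exact hjk (h1.symm.trans h2)
    · exact hjk (h2.symm.trans h1)
  choose π hπ using hexπ
  have huniq : ∀ g i j, (∀ x ∈ B i, g • x ∈ B j) → π g i = j := by
    intro g i j hj
    obtain ⟨x₀, hx₀, hx₀0⟩ := (AddSubgroup.bot_or_exists_ne_zero (B i)).resolve_left (hne i)
    exact hdisj _ _ _ (hπ g i x₀ hx₀) (hj x₀ hx₀) ((smul_ne_zero_iff_ne g).2 hx₀0)
  have hπmul : ∀ g h i, π (g * h) i = π g (π h i) := fun g h i =>
    huniq _ _ _ fun x hx => by rw [mul_smul]; exact hπ g _ _ (hπ h i x hx)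
  have hπone : ∀ i, π 1 i = i := fun i => huniq _ _ _ fun x hx => by rwa [one_smul]
  have hpair : ∀ g i k, π g i - π g k = i - k ∨ π g i - π g k = k - i := by
    intro g i k
    by_cases hik : i = k
    · subst hik; simp
    obtain ⟨x, hx, hx0⟩ := (AddSubgroup.bot_or_exists_ne_zero (B i)).resolve_left (hne i)
    obtain ⟨y, hy, hy0⟩ := (AddSubgroup.bot_or_exists_ne_zero (B k)).resolve_left (hne k)
    obtain ⟨u, hu, hux⟩ := hsame g (x + y)
    obtain ⟨t, ht⟩ := hperm u hu
    rw [smul_add, smul_add] at hux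
    have hπik : π g i ≠ π g k := fun e => hik (by
      have := congrArg (π g⁻¹) e
      rwa [← hπmul, ← hπmul, inv_mul_cancel, hπone, hπone] at this)
    rcases htwo _ _ _ _ _ _ _ _ (hπ g i x hx) (hπ g k y hy) (ht i x hx) (ht k y hy) hπik
      ((smul_ne_zero_iff_ne g).2 hx0) ((smul_ne_zero_iff_ne g).2 hy0) hux with ⟨h1, h2⟩ | ⟨h1, h2⟩
    · left; rw [← h1, ← h2]; ring
    · right; rw [← h1, ← h2]; ring
  let ε : T → ZMod p := fun g => π g 1 - π g 0
  have haff : ∀ g x, π g x = π g 0 + ε g * x := by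
    intro g x
    have h1 := hpair g x 0
    have h2 := hpair g x 1
    have h3 := hpair g 1 0
    have ha : (π g x - π g 0) ^ 2 = x ^ 2 := by rcases h1 with h | h <;> rw [h] <;> ring
    have hb : (π g x - π g 1) ^ 2 = (x - 1) ^ 2 := by rcases h2 with h | h <;> rw [h] <;> ring
    have he : ε g ^ 2 = 1 := by rcases h3 with h | h <;> simp only [ε, h] <;> ring
    have key : 2 * (π g x - π g 0 - ε g * x) = 0 := by
      have : 2 * (π g x - π g 0) * ε g = 2 * x := by
        simp only [ε] at he ⊢
        linear_combination ha - hb + he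
      linear_combination ε g * this - (2 * (π g x - π g 0)) * he
    by_cases h2' : (2 : ZMod p) = 0
    · have hneg : ∀ y : ZMod p, -y = y := fun y => by
        rw [neg_eq_iff_add_eq_zero, ← two_mul, h2', zero_mul]
      have e1 : ε g = 1 := by
        rcases h3 with h | h <;> simp only [ε, h]
        · ring
        · rw [zero_sub, hneg]
      rw [e1, one_mul]
      rcases h1 with h | h
      · linear_combination h
      · rw [zero_sub, hneg] at h; linear_combination h
    · exact eq_add_of_sub_eq' (sub_eq_zero.1 ((mul_eq_zero.1 key).resolve_left h2'))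
  let φ : T →* Equiv.Perm (ZMod p) :=
    { toFun := fun g =>
        { toFun := π g
          invFun := π g⁻¹
          left_inv := fun i => by rw [← hπmul, inv_mul_cancel, hπone]
          right_inv := fun i => by rw [← hπmul, mul_inv_cancel, hπone] }
      map_one' := Equiv.ext hπone
      map_mul' := fun g g' => Equiv.ext fun i => hπmul g g' i }
  let α : T →* ZMod p :=
    { toFun := ε
      map_one' := by simp [ε, hπone]
      map_mul' := fun g h => by
        have e1 := haff g (π h 1)
        have e0 := haff g (π h 0)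
        simp only [ε, hπmul] at *
        rw [e1, e0]
        ring }
  have hkerne : φ.ker ≠ ⊤ := by
    intro htop
    have hinv : ∀ i, B i = ⊤ := fun i =>
      (hirr (B i) fun u hu x hx => by
        have : π u i = i := congrArg (fun e : Equiv.Perm (ZMod p) => e i)
          (MonoidHom.mem_ker.1 (htop ▸ Subgroup.mem_top u))
        exact this ▸ hπ u i x hx).resolve_left (hne i)
    obtain ⟨x, hx, hx0⟩ := (AddSubgroup.bot_or_exists_ne_zero (B 0)).resolve_left (hne 0)
    exact zero_ne_one (hdisj 0 1 x hx (hinv 1 ▸ AddSubgroup.mem_top x) hx0)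
  haveI hker : Group.IsSolvable φ.ker := hprop _ inferInstance hkerne
  refine OrbitCyclic.isSolvable_of_normal_solvable φ.rangeRestrict
    (by rw [MonoidHom.ker_rangeRestrict]; exact hker) ?_
  -- the range consists of affine maps
  let β : φ.range →* ZMod p :=
    { toFun := fun e => (e : Equiv.Perm (ZMod p)) 1 - (e : Equiv.Perm (ZMod p)) 0
      map_one' := by simp
      map_mul' := by
        rintro ⟨_, g, rfl⟩ ⟨_, h, rfl⟩
        show π g (π h 1) - π g (π h 0) = ε g * ε h
        rw [← hπmul, ← hπmul]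
        exact α.map_mul g h }
  refine OrbitCyclic.isSolvable_of_normal_solvable β.toHomUnits
    (Group.isSolvable_of_comm fun s t => ?_) inferInstance
  obtain ⟨⟨_, g, rfl⟩, hg⟩ := s
  obtain ⟨⟨_, h, rfl⟩, hh⟩ := t
  have hg' : ε g = 1 := congrArg (fun x : (ZMod p)ˣ => (x : ZMod p)) (MonoidHom.mem_ker.1 hg)
  have hh' : ε h = 1 := congrArg (fun x : (ZMod p)ˣ => (x : ZMod p)) (MonoidHom.mem_ker.1 hh)
  refine Subtype.ext (Subtype.ext (Equiv.ext fun x => ?_))
  show π g (π h x) = π h (π g x)
  rw [haff g (π h x), haff h x, haff h (π g x), haff g x, hg', hh']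
  ring

/-- A `p`-group with a normal pair gives a decomposition into pieces. -/
theorem isSolvable_of_normalPair [Fact p.Prime] (hq : q.Prime) (hW : ∀ w : W, q • w = 0)
    (hpq : p ≠ q) (hfaith : ∀ g : T, (∀ w : W, g • w = w) → g = 1) (P : Subgroup T)
    (hsame : ∀ (g : T) (w : W), ∃ u ∈ P, g • w = u • w)
    (hirr : ∀ U : AddSubgroup W, (∀ u ∈ P, ∀ x ∈ U, u • x ∈ U) → U = ⊥ ∨ U = ⊤)
    (hprop : ∀ N : Subgroup T, N.Normal → N ≠ ⊤ → Group.IsSolvable N)
    (hW0 : ∃ w : W, w ≠ 0)
    (hpair : OrbitTwoGroup.HasNormalPair P p) : Group.IsSolvable T := by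
  classical
  have hp : p.Prime := Fact.out
  obtain ⟨z', b', hzc, hz, hz1, hb, hbz, hconj⟩ := hpair
  set z : T := (z' : T) with hzdef
  set b : T := (b' : T) with hbdef
  have hzp : z ^ p = 1 := by rw [hzdef]; exact congrArg Subtype.val hz
  have hbp : b ^ p = 1 := by rw [hbdef]; exact congrArg Subtype.val hb
  have hzu : ∀ u ∈ P, u * z = z * u := fun u hu =>
    congrArg Subtype.val (Subgroup.mem_center_iff.1 hzc ⟨u, hu⟩)
  have hbzc : Commute b z := hzu b b'.2
  have hconj' : ∀ u ∈ P, ∃ t : ℕ, u * b * u⁻¹ = b * z ^ t := fun u hu =>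
    (hconj ⟨u, hu⟩).imp fun t ht => congrArg Subtype.val ht
  have hpcancel : ∀ w : W, p • w = 0 → w = 0 := fun w hw =>
    eq_zero_of_smul_eq_zero hq hW (fun h => hpq ((Nat.prime_dvd_prime_iff_eq hq hp).1 h).symm) hw
  have hzfix : ∀ w : W, z • w = w → w = 0 := by
    intro w hw
    let U : AddSubgroup W :=
      { carrier := {x | z • x = x}
        zero_mem' := smul_zero z
        add_mem' := fun {a c} ha hc => by simp only [Set.mem_setOf_eq, smul_add] at *; rw [ha, hc]
        neg_mem' := fun {a} ha => by simp only [Set.mem_setOf_eq, smul_neg] at *; rw [ha] }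
    rcases hirr U (fun u hu x (hx : z • x = x) => by
      show z • u • x = u • x
      rw [← mul_smul, ← hzu u hu, mul_smul, hx]) with h | h
    · have : w ∈ U := hw
      rwa [h, AddSubgroup.mem_bot] at this
    · exfalso
      refine hz1 (Subtype.ext (hfaith z fun x => ?_))
      have : x ∈ U := h ▸ AddSubgroup.mem_top x
      exact this
  have hzsum : ∀ w : W, ∑ k ∈ Finset.range p, z ^ k • w = 0 := by
    intro w
    refine hzfix _ ?_
    rw [Finset.smul_sum]
    have h1 := Finset.sum_range_succ' (fun k => z ^ k • w) p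
    have h2 := Finset.sum_range_succ (fun k => z ^ k • w) p
    rw [hzp, one_smul] at h2
    rw [h2, pow_zero, one_smul, add_left_inj] at h1
    simp only [← mul_smul, ← pow_succ']
    exact h1.symm
  let c : ZMod p → T := fun i => b * z ^ i.val
  have hzadd : ∀ i j : ZMod p, z ^ (i + j).val = z ^ i.val * z ^ j.val := fun i j => by
    rw [ZMod.val_add, ← pow_eq_pow_mod _ hzp, pow_add]
  have hznat : ∀ k : ℕ, z ^ ((k : ZMod p)).val = z ^ k := fun k => by
    rw [ZMod.val_natCast, ← pow_eq_pow_mod _ hzp]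
  have hcp : ∀ i, c i ^ p = 1 := fun i => by
    rw [(hbzc.pow_right _).mul_pow, hbp, one_mul, ← pow_mul, mul_comm, pow_mul, hzp, one_pow]
  let e : ZMod p → W → W := fun i w => ∑ k ∈ Finset.range p, c i ^ k • w
  let B : ZMod p → AddSubgroup W := fun i =>
    { carrier := {x | c i • x = x}
      zero_mem' := smul_zero _
      add_mem' := fun {a d} ha hd => by simp only [Set.mem_setOf_eq, smul_add] at *; rw [ha, hd]
      neg_mem' := fun {a} ha => by simp only [Set.mem_setOf_eq, smul_neg] at *; rw [ha] }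
  have hBpow : ∀ i, ∀ x ∈ B i, ∀ k : ℕ, c i ^ k • x = x := by
    intro i x hx k
    induction k with
    | zero => simp
    | succ k ih => rw [pow_succ, mul_smul, (hx : c i • x = x), ih]
  have heB : ∀ i w, e i w ∈ B i := by
    intro i w
    show c i • e i w = e i w
    simp only [e, Finset.smul_sum]
    have h1 := Finset.sum_range_succ' (fun k => c i ^ k • w) p
    have h2 := Finset.sum_range_succ (fun k => c i ^ k • w) p
    rw [hcp, one_smul] at h2
    rw [h2, pow_zero, one_smul, add_left_inj] at h1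
    simp only [← mul_smul, ← pow_succ']
    exact h1.symm
  have he_self : ∀ i, ∀ x ∈ B i, e i x = p • x := fun i x hx => by
    simp only [e]
    rw [Finset.sum_congr rfl fun k _ => hBpow i x hx k, Finset.sum_const, Finset.card_range]
  have hcdiff : ∀ i j k, c i ^ k = (z ^ (i - j).val) ^ k * c j ^ k := by
    intro i j k
    have h1 : c i = z ^ (i - j).val * c j := by
      show b * z ^ i.val = z ^ (i - j).val * (b * z ^ j.val)
      rw [← mul_assoc, ← (hbzc.pow_right _).eq, mul_assoc, ← hzadd, sub_add_cancel]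
    rw [h1, Commute.mul_pow]
    exact (((hbzc.symm).pow_left _).mul_right (Commute.pow_pow_self z _ _))
  have hperm_sum : ∀ (d : ZMod p), d ≠ 0 → ∀ w : W,
      ∑ k ∈ Finset.range p, (z ^ d.val) ^ k • w = 0 := by
    intro d hd w
    rw [← hzsum w]
    have hval : ∀ (m : ℕ), m < p → ((m : ZMod p)).val = m := fun m hm => ZMod.val_cast_of_lt hm
    refine Finset.sum_nbij' (fun k => (d * (k : ZMod p)).val) (fun m => (d⁻¹ * (m : ZMod p)).val)
      (fun k _ => Finset.mem_range.2 (ZMod.val_lt _)) (fun m _ => Finset.mem_range.2 (ZMod.val_lt _))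
      (fun k hk => ?_) (fun m hm => ?_) (fun k _ => ?_)
    · simp [← mul_assoc, inv_mul_cancel₀ hd, hval k (Finset.mem_range.1 hk)]
    · simp [← mul_assoc, mul_inv_cancel₀ hd, hval m (Finset.mem_range.1 hm)]
    · rw [← pow_mul, ← hznat (d.val * k), Nat.cast_mul, ZMod.natCast_zmod_val]
  have he_other : ∀ i j, i ≠ j → ∀ x ∈ B j, e i x = 0 := by
    intro i j hij x hx
    simp only [e]
    rw [Finset.sum_congr rfl fun k _ => by rw [hcdiff i j k, mul_smul, hBpow j x hx k]]
    exact hperm_sum _ (sub_ne_zero.2 hij) x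
  have hesum : ∀ w : W, ∑ i, e i w = p • w := by
    intro w
    simp only [e]
    rw [Finset.sum_comm]
    rw [Finset.sum_eq_single_of_mem 0 (Finset.mem_range.2 hp.pos)]
    · simp [Finset.card_univ]
    · intro k hk hk0
      have hk' : (k : ZMod p) ≠ 0 := fun h => hk0 (Nat.eq_zero_of_dvd_of_lt
        ((ZMod.natCast_eq_zero_iff k p).1 h) (Finset.mem_range.1 hk))
      have hck : ∀ i : ZMod p, c i ^ k • w = b ^ k • ((z ^ (k : ZMod p).val) ^ i.val • w) := by
        intro i
        show (b * z ^ i.val) ^ k • w = _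
        rw [(hbzc.pow_right _).mul_pow, mul_smul, hznat, ← pow_mul, ← pow_mul, mul_comm k]
      simp only [hck, ← Finset.smul_sum]
      refine smul_eq_zero_iff_eq (b ^ k) |>.2 ?_
      rw [← hperm_sum _ hk' w]
      refine Finset.sum_nbij' (fun i => ZMod.val i) (fun m => (m : ZMod p))
        (fun i _ => Finset.mem_range.2 (ZMod.val_lt i)) (fun m _ => Finset.mem_univ _)
        (fun i _ => ZMod.natCast_zmod_val i)
        (fun m hm => ZMod.val_cast_of_lt (Finset.mem_range.1 hm)) (fun i _ => rfl)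
  have hindep : ∀ f g : ZMod p → W, (∀ i, f i ∈ B i) → (∀ i, g i ∈ B i) →
      ∑ i, f i = ∑ i, g i → f = g := by
    intro f g hf hg h
    funext i
    have hlin : ∀ f : ZMod p → W, (∀ i, f i ∈ B i) → e i (∑ j, f j) = p • f i := by
      intro f hf
      have h1 : e i (∑ j, f j) = ∑ j, e i (f j) := by
        simp only [e, Finset.smul_sum]
        exact Finset.sum_comm
      rw [h1, Finset.sum_eq_single_of_mem i (Finset.mem_univ i)
        (fun j _ hji => he_other i j hji.symm _ (hf j)), he_self i _ (hf i)]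
    refine sub_eq_zero.1 (hpcancel _ ?_)
    rw [smul_sub, ← hlin f hf, ← hlin g hg, h, sub_self]
  have hpermu : ∀ u ∈ P, ∃ t : ℕ, ∀ i, ∀ x ∈ B i, u • x ∈ B (i + (t : ZMod p)) := by
    intro u hu
    obtain ⟨t, ht⟩ := hconj' u hu
    refine ⟨t, fun i x (hx : c i • x = x) => ?_⟩
    show c (i + t) • u • x = u • x
    have h1 : c (i + t) * u = u * c i := by
      show b * z ^ (i + (t : ZMod p)).val * u = u * (b * z ^ i.val)
      have hcu : Commute u (z ^ i.val) := (show Commute u z from hzu u hu).pow_right _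
      rw [hzadd, hznat, (Commute.pow_pow_self z i.val t).eq]
      calc b * (z ^ t * z ^ i.val) * u = b * z ^ t * (z ^ i.val * u) := by simp only [mul_assoc]
        _ = b * z ^ t * (u * z ^ i.val) := by rw [hcu.eq]
        _ = b * z ^ t * u * z ^ i.val := by simp only [mul_assoc]
        _ = u * b * z ^ i.val := by rw [← ht, inv_mul_cancel_right]
        _ = u * (b * z ^ i.val) := mul_assoc _ _ _
    rw [← mul_smul, h1, mul_smul, hx]
  obtain ⟨i₀, hi₀⟩ : ∃ i, B i ≠ ⊥ := by
    by_contra hcon
    push_neg at hcon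
    obtain ⟨w, hw⟩ := hW0
    refine hw (hpcancel w ?_)
    rw [← hesum w]
    refine Finset.sum_eq_zero fun i _ => ?_
    have := heB i w
    rwa [hcon i, AddSubgroup.mem_bot] at this
  -- some element moves the pieces
  obtain ⟨u₁, hu₁, t₁, ht₁, ht₁0⟩ : ∃ u ∈ P, ∃ t : ℕ, (∀ i, ∀ x ∈ B i, u • x ∈ B (i + (t : ZMod p))) ∧
      (t : ZMod p) ≠ 0 := by
    by_contra hcon
    push_neg at hcon
    have hinv : ∀ i, B i ≠ ⊥ → B i = ⊤ := fun i hi => (hirr (B i) fun u hu x hx => by
      obtain ⟨t, ht⟩ := hpermu u hu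
      have := ht i x hx
      rwa [hcon u hu t ht, add_zero] at this).resolve_left hi
    refine hbz ?_
    have h1 : c i₀ = 1 := hfaith _ fun w => by
      have : w ∈ B i₀ := hinv i₀ hi₀ ▸ AddSubgroup.mem_top w
      exact this
    refine ⟨-(i₀.val : ℤ), Subtype.ext ?_⟩
    simp only [zpow_neg, zpow_natCast, Subgroup.coe_inv, Subgroup.coe_pow]
    exact inv_eq_of_mul_eq_one_left (h1 : b * z ^ i₀.val = 1)
  have hne : ∀ i, B i ≠ ⊥ := by
    have hstep : ∀ k : ℕ, B (i₀ + k • (t₁ : ZMod p)) ≠ ⊥ := by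
      intro k
      induction k with
      | zero => simpa using hi₀
      | succ k ih =>
        obtain ⟨x, hx, hx0⟩ := (AddSubgroup.bot_or_exists_ne_zero _).resolve_left ih
        intro hbot
        have hmem := ht₁ _ x hx
        rw [succ_nsmul, ← add_assoc] at hbot
        rw [hbot, AddSubgroup.mem_bot, smul_eq_zero_iff_eq] at hmem
        exact hx0 hmem
    intro i
    have := hstep ((i - i₀) * (t₁ : ZMod p)⁻¹).val
    rwa [nsmul_eq_mul, ZMod.natCast_zmod_val, mul_assoc, inv_mul_cancel₀ ht₁0, mul_one,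
      add_sub_cancel] at this
  exact isSolvable_of_pieces P hsame hirr hprop B hne hindep
    fun u hu => (hpermu u hu).elim fun t ht => ⟨t, ht⟩

/-- A cyclic irreducible group of automorphisms gives a field structure. -/
theorem exists_field (hq : q.Prime) (hW : ∀ w : W, q • w = 0) (c : T) (hW0 : ∃ w : W, w ≠ 0)
    (hirr : ∀ U : AddSubgroup W, (∀ x ∈ U, c • x ∈ U) → U = ⊥ ∨ U = ⊤) :
    ∃ (E : Type v) (_ : Field E) (_ : Finite E) (_ : CharP E q) (e : W ≃+ E) (ζ : E),
      (∀ w, e (c • w) = ζ * e w) ∧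
      AddSubgroup.closure (Set.range fun i : ℕ => ζ ^ i) = ⊤ := by
  classical
  haveI : Fact q.Prime := ⟨hq⟩
  have hmod : Module (ZMod q) W := AddCommGroup.zmodModule hW
  let ρ : Module.End (ZMod q) W :=
    (DistribMulAction.toAddMonoidHom W c).toZModLinearMap q
  let R := Algebra.adjoin (ZMod q) ({ρ} : Set (Module.End (ZMod q) W))
  have hcommR : ∀ r ∈ R, Commute r ρ := fun r hr => by
    induction hr using Algebra.adjoin_induction with
    | mem x hx => rw [Set.mem_singleton_iff] at hx; subst hx; exact Commute.refl _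
    | algebraMap a => exact Algebra.commute_algebraMap_left a ρ
    | add x y _ _ hx hy => exact hx.add_left hy
    | mul x y _ _ hx hy => exact hx.mul_left hy
  letI : CommRing R := Algebra.adjoinCommRingOfComm (ZMod q) (s := ({ρ} : Set _))
    (by intro a ha b hb; rw [Set.mem_singleton_iff] at ha hb; rw [ha, hb])
  obtain ⟨v₀, hv₀⟩ := hW0
  have hinj : ∀ r : R, r ≠ 0 → ∀ w : W, (r : Module.End (ZMod q) W) w = 0 → w = 0 := by
    intro r hr w hw
    let U : AddSubgroup W := (r : Module.End (ZMod q) W).toAddMonoidHom.ker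
    rcases hirr U (fun x (hx : (r : Module.End (ZMod q) W) x = 0) => by
      show (r : Module.End (ZMod q) W) (ρ x) = 0
      rw [← Module.End.mul_apply, (hcommR r r.2).eq, Module.End.mul_apply, hx, map_zero]) with h | h
    · have : w ∈ U := hw
      rwa [h, AddSubgroup.mem_bot] at this
    · refine absurd (Subtype.ext (LinearMap.ext fun x => ?_)) hr
      have : x ∈ U := h ▸ AddSubgroup.mem_top x
      exact (this : (r : Module.End (ZMod q) W) x = 0)
  haveI : Nontrivial R := ⟨0, 1, fun h => hv₀ (by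
    have := congrArg (fun r : R => (r : Module.End (ZMod q) W) v₀) h
    simpa using this.symm)⟩
  haveI : NoZeroDivisors R := ⟨fun {a b} h => by
    by_contra hcon
    push_neg at hcon
    have h1 := congrArg (fun r : R => (r : Module.End (ZMod q) W) v₀) h
    simp only [Subalgebra.coe_mul, Module.End.mul_apply, Subalgebra.coe_zero,
      LinearMap.zero_apply] at h1
    exact hv₀ (hinj b hcon.2 _ (hinj a hcon.1 _ h1))⟩
  haveI : IsDomain R := NoZeroDivisors.to_isDomain R
  haveI : Finite (Module.End (ZMod q) W) := Finite.of_injective _ DFunLike.coe_injective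
  haveI : Finite R := inferInstance
  letI : Field R := (Finite.isField_of_domain R).toField
  let ev : R →+ W :=
    { toFun := fun r => (r : Module.End (ZMod q) W) v₀
      map_zero' := by simp
      map_add' := fun a b => by simp }
  have hevinj : Function.Injective ev := (injective_iff_map_eq_zero ev).2 fun r hr => by
    by_contra h
    exact hv₀ (hinj r h v₀ hr)
  have hevsurj : Function.Surjective ev := by
    rw [← AddMonoidHom.range_eq_top]
    refine (hirr ev.range ?_).resolve_left ?_
    · rintro _ ⟨r, rfl⟩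
      exact ⟨⟨ρ, Algebra.subset_adjoin rfl⟩ * r, rfl⟩
    · intro h
      have h1 : ev 1 ∈ ev.range := ⟨1, rfl⟩
      rw [h, AddSubgroup.mem_bot] at h1
      exact hv₀ (by simpa [ev] using h1)
  let e : W ≃+ R := (AddEquiv.ofBijective ev ⟨hevinj, hevsurj⟩).symm
  let ζ : R := ⟨ρ, Algebra.subset_adjoin rfl⟩
  have hev : ∀ w, (e w : Module.End (ZMod q) W) v₀ = w := fun w =>
    (AddEquiv.ofBijective ev ⟨hevinj, hevsurj⟩).apply_symm_apply w
  have hce : ∀ w, e (c • w) = ζ * e w := fun w => hevinj (by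
    show (e (c • w) : Module.End (ZMod q) W) v₀ = (ρ * (e w : Module.End (ZMod q) W)) v₀
    rw [hev, Module.End.mul_apply, hev]
    rfl)
  refine ⟨R, inferInstance, inferInstance, ?_, e, ζ, hce, ?_⟩
  · exact charP_of_injective_ringHom (f := algebraMap (ZMod q) R) (RingHom.injective _) q
  · let U : AddSubgroup W := (AddSubgroup.closure (Set.range fun i : ℕ => ζ ^ i)).comap e.toAddMonoidHom
    have hU : U = ⊤ := by
      refine (hirr U fun x (hx : e x ∈ AddSubgroup.closure _) => ?_).resolve_left ?_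
      · show e (c • x) ∈ AddSubgroup.closure _
        rw [hce]
        have hle : AddSubgroup.closure (Set.range fun i : ℕ => ζ ^ i) ≤
            (AddSubgroup.closure (Set.range fun i : ℕ => ζ ^ i)).comap (AddMonoidHom.mulLeft ζ) := by
          rw [AddSubgroup.closure_le]
          rintro _ ⟨i, rfl⟩
          exact AddSubgroup.subset_closure ⟨i + 1, pow_succ' ζ i⟩
        exact hle hx
      · intro h
        have h1 : e.symm 1 ∈ U := by
          show e (e.symm 1) ∈ AddSubgroup.closure (Set.range fun i : ℕ => ζ ^ i)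
          rw [e.apply_symm_apply]
          exact AddSubgroup.subset_closure ⟨0, pow_zero ζ⟩
        rw [h, AddSubgroup.mem_bot] at h1
        exact one_ne_zero (e.symm.map_eq_zero_iff.1 h1)
    refine eq_top_iff.2 fun x _ => ?_
    have h1 : e.symm x ∈ U := hU ▸ AddSubgroup.mem_top _
    have h2 : e (e.symm x) ∈ AddSubgroup.closure (Set.range fun i : ℕ => ζ ^ i) := h1
    rwa [e.apply_symm_apply] at h2

end Setting

/-- A coprime faithful action in dimension two. -/
theorem isSolvable_dim_two {T : Type u} [Group T] [Finite T] {W : Type v} [AddCommGroup W]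
    [Finite W] [DistribMulAction T W] {q : ℕ} [Fact q.Prime] (hW : ∀ w : W, q • w = 0)
    (hWcard : Nat.card W ∣ q ^ 2) (hfaith : ∀ g : T, (∀ w : W, g • w = w) → g = 1)
    (hcop : ¬ q ∣ Nat.card T) {p : ℕ} [Fact p.Prime] (hW0 : ∃ w : W, w ≠ 0)
    (horb : ∀ w : W, ∃ a, (MulAction.stabilizer T w).index = p ^ a) :
    Group.IsSolvable T := by
  classical
  have hmod : Module (ZMod q) W := AddCommGroup.zmodModule hW
  haveI : Module.Finite (ZMod q) W := Module.Finite.of_finite
  have hdim : Module.finrank (ZMod q) W ≤ 2 := by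
    have h1 := Module.natCard_eq_pow_finrank (K := ZMod q) (V := W)
    rw [Nat.card_zmod] at h1
    rw [h1] at hWcard
    exact Nat.pow_dvd_pow_iff_le_right (Fact.out : q.Prime).one_lt |>.1 hWcard
  let ρ : T →* Module.End (ZMod q) W :=
    { toFun := fun g => (DistribMulAction.toAddMonoidHom W g).toZModLinearMap q
      map_one' := LinearMap.ext fun w => by simp
      map_mul' := fun g h => LinearMap.ext fun w => by simp [mul_smul] }
  let δ : T →* (ZMod q)ˣ := (LinearMap.det.comp ρ).toHomUnits
  refine OrbitCyclic.isSolvable_of_normal_solvable δ ?_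
    (Group.isSolvable_of_comm fun a b => mul_comm a b)
  have hfree : ∀ g : δ.ker, ∀ w : W, w ≠ 0 → (g : T) • w = w → g = 1 := by
    intro g w hw hgw
    have hdet : LinearMap.det (ρ (g : T)) = 1 :=
      congrArg (fun u : (ZMod q)ˣ => (u : ZMod q)) (MonoidHom.mem_ker.1 g.2)
    have hnil : ∀ x : W, (g : T) • ((g : T) • x - x) = (g : T) • x - x := by
      intro x
      by_cases hdep : x ∈ Submodule.span (ZMod q) ({w} : Set W)
      · obtain ⟨r, rfl⟩ := Submodule.mem_span_singleton.1 hdep
        have : ρ (g : T) (r • w) = r • w := by rw [map_smul]; exact congrArg (r • ·) hgw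
        rw [show (g : T) • (r • w) = r • w from this, sub_self, smul_zero]
      have hli : LinearIndependent (ZMod q) ![w, x] := by
        rw [LinearIndependent.pair_iff' hw]
        exact fun r hr => hdep (Submodule.mem_span_singleton.2 ⟨r, hr⟩)
      have hcard : Fintype.card (Fin 2) = Module.finrank (ZMod q) W := by
        have := hli.fintype_card_le_finrank
        simp only [Fintype.card_fin] at this ⊢
        omega
      let bb := basisOfLinearIndependentOfCardEqFinrank hli hcard
      have hb0 : bb 0 = w := by simp [bb]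
      have hb1 : bb 1 = x := by simp [bb]
      have hdet2 := LinearMap.det_toMatrix bb (ρ (g : T))
      rw [hdet, Matrix.det_fin_two] at hdet2
      have hcol : ρ (g : T) (bb 0) = bb 0 := by rw [hb0]; exact hgw
      have h00 : LinearMap.toMatrix bb bb (ρ (g : T)) 0 0 = 1 := by
        rw [LinearMap.toMatrix_apply, hcol]; simp
      have h10 : LinearMap.toMatrix bb bb (ρ (g : T)) 1 0 = 0 := by
        rw [LinearMap.toMatrix_apply, hcol]; simp
      rw [h00, h10, one_mul, mul_zero, sub_zero] at hdet2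
      have hx : ρ (g : T) (bb 1) = (bb.repr (ρ (g : T) (bb 1)) 0) • bb 0 + bb 1 := by
        conv_lhs => rw [← bb.sum_repr (ρ (g : T) (bb 1))]
        rw [Fin.sum_univ_two]
        rw [LinearMap.toMatrix_apply] at hdet2
        rw [hdet2, one_smul]
      rw [hb0, hb1] at hx
      have hgx : (g : T) • x = (bb.repr (ρ (g : T) x) 0) • w + x := hx
      rw [hgx, add_sub_cancel_right]
      show ρ (g : T) (_ • w) = _
      rw [map_smul]
      exact congrArg ((bb.repr (ρ (g : T) x) 0) • ·) hgw
    have hpow : ∀ (m : ℕ) (x : W), (g : T) ^ m • x = x + m • ((g : T) • x - x) := by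
      intro m
      induction m with
      | zero => intro x; simp
      | succ m ih =>
        intro x
        rw [pow_succ', mul_smul, ih, smul_add, smul_comm (g : T) m, hnil, succ_nsmul]
        abel
    have hgq : (g : T) ^ q = 1 := hfaith _ fun x => by rw [hpow, hW, add_zero]
    refine Subtype.ext (orderOf_eq_one_iff.1 (Nat.eq_one_of_dvd_coprimes
      ((Fact.out : q.Prime).coprime_iff_not_dvd.2 hcop) (orderOf_dvd_of_pow_eq_one hgq)
      (orderOf_dvd_natCard (g : T))))
  obtain ⟨w₀, hw₀⟩ := hW0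
  obtain ⟨a, ha⟩ := horb w₀
  have hbot : (MulAction.stabilizer T w₀).subgroupOf δ.ker = ⊥ :=
    (Subgroup.eq_bot_iff_forall _).2 fun g hg =>
      hfree g w₀ hw₀ (MulAction.mem_stabilizer_iff.1 (Subgroup.mem_subgroupOf.1 hg))
  have hdvd : Nat.card δ.ker ∣ p ^ a := by
    rw [← Subgroup.index_bot, ← hbot, ← ha]
    exact OrbitCyclic.relIndex_dvd_index_normal _ _
  obtain ⟨k, -, hk⟩ := (Nat.dvd_prime_pow (Fact.out : p.Prime)).1 hdvd
  haveI := (IsPGroup.of_card hk).isNilpotent
  infer_instance

theorem main : ∀ (n : ℕ) {T : Type u} [Group T] [Finite T] {W : Type v} [AddCommGroup W]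
    [Finite W] [DistribMulAction T W], Nat.card T = n →
    (∀ g : T, (∀ w : W, g • w = w) → g = 1) → ∀ {q : ℕ}, q.Prime → (∀ w : W, q • w = 0) →
    ¬ q ∣ Nat.card T → ∀ {p : ℕ}, p.Prime →
    (∀ w : W, ∃ a, (MulAction.stabilizer T w).index = p ^ a) → Group.IsSolvable T := by
  intro n
  induction n using Nat.strong_induction_on with
  | _ n ih =>
  intro T _ _ W _ _ _ hn hfaith q hq hW hcop p hp horb
  subst hn
  classical
  haveI : Fact q.Prime := ⟨hq⟩
  haveI : Fact p.Prime := ⟨hp⟩
  letI : Fintype T := Fintype.ofFinite T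
  have hprop : ∀ N : Subgroup T, N.Normal → N ≠ ⊤ → Group.IsSolvable N := by
    intro N hN hNtop
    have hlt : Nat.card N < Nat.card T := lt_of_le_of_ne
      (Nat.le_of_dvd Nat.card_pos (Subgroup.card_subgroup_dvd_card N))
      (fun e => hNtop (Subgroup.eq_top_of_card_eq N e))
    refine ih _ hlt (W := W) rfl (fun g hg => Subtype.ext (hfaith g hg)) hq hW
      (fun h => hcop (h.trans (Subgroup.card_subgroup_dvd_card N))) hp fun w => ?_
    obtain ⟨a, ha⟩ := horb w
    have he : MulAction.stabilizer N w = (MulAction.stabilizer T w).subgroupOf N := rfl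
    obtain ⟨b, -, hb⟩ := (Nat.dvd_prime_pow hp).1
      (ha ▸ OrbitCyclic.relIndex_dvd_index_normal (MulAction.stabilizer T w) N :
        (MulAction.stabilizer T w).relIndex N ∣ p ^ a)
    exact ⟨b, by rw [he]; exact hb⟩
  -- invariant subgroups
  have hker : ∀ U : AddSubgroup W, (∀ g : T, ∀ x ∈ U, g • x ∈ U) → (∃ g : T, ∃ x ∈ U, g • x ≠ x) →
      (∀ g : T, (∀ x ∈ U, g • x = x) → g = 1) ∨ Group.IsSolvable T := by
    intro U hU hmove
    let ρ : T →* AddMonoid.End U :=
      { toFun := fun g =>
          { toFun := fun x => ⟨g • (x : W), hU g _ x.2⟩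
            map_zero' := Subtype.ext (smul_zero g)
            map_add' := fun x y => Subtype.ext (smul_add g (x : W) y) }
        map_one' := AddMonoidHom.ext fun x => Subtype.ext (one_smul T (x : W))
        map_mul' := fun g h => AddMonoidHom.ext fun x => Subtype.ext (mul_smul g h (x : W)) }
    let K := ρ.ker
    haveI : K.Normal := MonoidHom.normal_ker ρ
    by_cases hK : K = ⊥
    · left
      intro g hg
      have : g ∈ K := AddMonoidHom.ext fun x => Subtype.ext (hg x x.2)
      rwa [hK, Subgroup.mem_bot] at this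
    right
    have hKtop : K ≠ ⊤ := by
      intro e
      obtain ⟨g, x, hx, hgx⟩ := hmove
      have h1 : ρ g = 1 := MonoidHom.mem_ker.1 (e ▸ Subgroup.mem_top g : g ∈ K)
      have h2 : ρ g (⟨x, hx⟩ : U) = ⟨x, hx⟩ := by rw [h1]; rfl
      exact hgx (congrArg Subtype.val h2)
    let σ : T ⧸ K →* AddMonoid.End U := QuotientGroup.lift K ρ le_rfl
    letI : DistribMulAction (T ⧸ K) U :=
      { smul := fun g x => σ g x
        one_smul := fun x => by show σ 1 x = x; rw [map_one]; rfl
        mul_smul := fun g h x => by show σ (g * h) x = σ g (σ h x); rw [map_mul]; rfl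
        smul_zero := fun g => map_zero (σ g)
        smul_add := fun g x y => map_add (σ g) x y }
    refine OrbitCyclic.isSolvable_of_normal_solvable (QuotientGroup.mk' K)
      (by rw [QuotientGroup.ker_mk']; exact hprop K inferInstance hKtop) ?_
    have hlt : Nat.card (T ⧸ K) < Nat.card T := by
      rw [Subgroup.card_eq_card_quotient_mul_card_subgroup K]
      exact lt_mul_of_one_lt_right Nat.card_pos (Subgroup.one_lt_card_iff_ne_bot K |>.2 hK)
    refine ih _ hlt (W := U) rfl ?_ hq (fun x => Subtype.ext (by simpa using hW x))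
      (fun h => hcop (h.trans (Subgroup.card_quotient_dvd_card K))) hp ?_
    · intro g hg
      induction g using QuotientGroup.induction_on with
      | H g =>
        rw [QuotientGroup.eq_one_iff]
        exact AddMonoidHom.ext fun x => hg x
    · intro x
      obtain ⟨a, ha⟩ := horb (x : W)
      have hle : (MulAction.stabilizer T (x : W)).map (QuotientGroup.mk' K) ≤
          MulAction.stabilizer (T ⧸ K) x := by
        rintro _ ⟨g, hg, rfl⟩
        exact Subtype.ext (MulAction.mem_stabilizer_iff.1 hg)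
      obtain ⟨b, -, hb⟩ := (Nat.dvd_prime_pow hp).1 (((Subgroup.index_dvd_of_le hle).trans
        (Subgroup.index_map_dvd _ (QuotientGroup.mk'_surjective K))).trans (dvd_of_eq ha))
      exact ⟨b, hb⟩
  by_cases htriv : ∀ g : T, ∀ w : W, g • w = w
  · exact Group.isSolvable_of_comm fun a b => by rw [hfaith a (htriv a), hfaith b (htriv b)]
  push_neg at htriv
  obtain ⟨g₁, w₁, hw₁⟩ := htriv
  -- a minimal invariant subgroup with nontrivial action
  obtain ⟨U, ⟨hUinv, hUmove⟩, hUmin⟩ := Set.Finite.exists_minimal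
    (Set.toFinite {U : AddSubgroup W | (∀ g : T, ∀ x ∈ U, g • x ∈ U) ∧ ∃ g : T, ∃ x ∈ U, g • x ≠ x})
    ⟨⊤, fun _ _ _ => AddSubgroup.mem_top _, g₁, w₁, AddSubgroup.mem_top _, hw₁⟩
  rcases hker U hUinv hUmove with hUfaith | hsol
  swap
  · exact hsol
  letI : DistribMulAction T U :=
    { smul := fun g x => ⟨g • (x : W), hUinv g _ x.2⟩
      one_smul := fun x => Subtype.ext (one_smul T (x : W))
      mul_smul := fun g h x => Subtype.ext (mul_smul g h (x : W))
      smul_zero := fun g => Subtype.ext (smul_zero g)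
      smul_add := fun g x y => Subtype.ext (smul_add g (x : W) (y : W)) }
  have hcoe : ∀ (g : T) (x : U), ((g • x : U) : W) = g • (x : W) := fun _ _ => rfl
  have hfaithU : ∀ g : T, (∀ x : U, g • x = x) → g = 1 := fun g hg =>
    hUfaith g fun x hx => congrArg Subtype.val (hg ⟨x, hx⟩)
  have hWU : ∀ x : U, q • x = 0 := fun x => Subtype.ext (by simpa using hW x)
  have horbU : ∀ x : U, ∃ a, (MulAction.stabilizer T x).index = p ^ a := fun x => by
    rw [show MulAction.stabilizer T x = MulAction.stabilizer T (x : W) by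
      ext g; simp [MulAction.mem_stabilizer_iff, Subtype.ext_iff, hcoe]]
    exact horb x
  have hW0 : ∃ x : U, x ≠ 0 := by
    obtain ⟨g, x, hx, hgx⟩ := hUmove
    exact ⟨⟨x, hx⟩, fun e => hgx (by
      have : x = 0 := congrArg Subtype.val e
      rw [this, smul_zero])⟩
  -- irreducibility
  let avg : U →+ U :=
    { toFun := fun x => ∑ g : T, g • x
      map_zero' := by simp
      map_add' := fun x y => by simp [Finset.sum_add_distrib] }
  have havg : ∀ (h : T) (x : U), avg (h • x) = avg x := fun h x =>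
    Fintype.sum_equiv (Equiv.mulRight h) _ _ fun g => by simp [mul_smul]
  have havg' : ∀ (h : T) (x : U), h • avg x = avg x := fun h x => by
    show h • ∑ g : T, g • x = _
    rw [Finset.smul_sum]
    exact Fintype.sum_equiv (Equiv.mulLeft h) _ _ fun g => by simp [mul_smul]
  have hcancel : ∀ x : U, Nat.card T • x = 0 → x = 0 := fun x hx =>
    eq_zero_of_smul_eq_zero hq hWU hcop hx
  have hfix0 : ∀ x : U, (∀ g : T, g • x = x) → x = 0 := by
    intro x hx
    let U' : AddSubgroup W := avg.ker.map U.subtype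
    have hU'le : U' ≤ U := by rintro _ ⟨y, -, rfl⟩; exact y.2
    have hU'inv : ∀ g : T, ∀ y ∈ U', g • y ∈ U' := by
      rintro g _ ⟨y, hy, rfl⟩
      exact ⟨g • y, by rw [SetLike.mem_coe, AddMonoidHom.mem_ker, havg]; exact hy, rfl⟩
    by_cases hmv : ∃ g : T, ∃ y ∈ U', g • y ≠ y
    · obtain ⟨y, hy, hyx⟩ := hUmin ⟨hU'inv, hmv⟩ hU'le x.2
      obtain rfl : y = x := Subtype.ext hyx
      refine hcancel y ?_
      have h1 : avg y = 0 := hy
      simpa [avg, hx, Finset.sum_const, Finset.card_univ, Nat.card_eq_fintype_card] using h1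
    · exfalso
      push_neg at hmv
      obtain ⟨g, y, hy, hgy⟩ := hUmove
      apply hgy
      let y' : U := ⟨y, hy⟩
      have hd : g • y' - y' ∈ avg.ker := by rw [AddMonoidHom.mem_ker, map_sub, havg, sub_self]
      have hfix : ∀ h : T, h • (g • y' - y') = g • y' - y' := fun h =>
        Subtype.ext (hmv h _ ⟨_, hd, rfl⟩)
      have h0 : g • y' - y' = 0 := hcancel _ (by
        have h1 : avg (g • y' - y') = 0 := hd
        rw [show avg (g • y' - y') = ∑ h : T, h • (g • y' - y') from rfl,
          Finset.sum_congr rfl (fun h _ => hfix h), Finset.sum_const, Finset.card_univ,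
          ← Nat.card_eq_fintype_card] at h1
        exact h1)
      exact congrArg Subtype.val (sub_eq_zero.1 h0)
  have hirrT : ∀ V : AddSubgroup U, (∀ g : T, ∀ x ∈ V, g • x ∈ V) → V = ⊥ ∨ V = ⊤ := by
    intro V hV
    let V' : AddSubgroup W := V.map U.subtype
    have hV'le : V' ≤ U := by rintro _ ⟨y, -, rfl⟩; exact y.2
    have hV'inv : ∀ g : T, ∀ y ∈ V', g • y ∈ V' := by
      rintro g _ ⟨y, hy, rfl⟩
      exact ⟨g • y, hV g y hy, rfl⟩
    by_cases hmv : ∃ g : T, ∃ y ∈ V', g • y ≠ y
    · right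
      refine eq_top_iff.2 fun x _ => ?_
      obtain ⟨y, hy, hyx⟩ := hUmin ⟨hV'inv, hmv⟩ hV'le x.2
      obtain rfl : y = x := Subtype.ext hyx
      exact hy
    · left
      push_neg at hmv
      exact (AddSubgroup.eq_bot_iff_forall V).2 fun x hx =>
        hfix0 x fun g => Subtype.ext (hmv g _ ⟨x, hx, rfl⟩)
  obtain ⟨P⟩ : Nonempty (Sylow p T) := inferInstance
  have hsame : ∀ (g : T) (x : U), ∃ u ∈ (P : Subgroup T), g • x = u • x := by
    intro g x
    obtain ⟨a, ha⟩ := horbU x
    obtain ⟨u, hu, c, hc, rfl⟩ := H87.exists_mem_mul_mem_of_index_pow P _ ha g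
    exact ⟨u, hu, by rw [mul_smul, MulAction.mem_stabilizer_iff.1 hc]⟩
  have hirr : ∀ V : AddSubgroup U, (∀ u ∈ (P : Subgroup T), ∀ x ∈ V, u • x ∈ V) → V = ⊥ ∨ V = ⊤ :=
    fun V hV => hirrT V fun g x hx => by
      obtain ⟨u, hu, hux⟩ := hsame g x
      rw [hux]
      exact hV u hu x hx
  have hP1 : (P : Subgroup T) ≠ ⊥ := by
    intro e
    obtain ⟨x, hx⟩ := hW0
    refine hx (hfix0 x fun g => ?_)
    obtain ⟨u, hu, hux⟩ := hsame g x
    rw [e, Subgroup.mem_bot] at hu
    rw [hux, hu, one_smul]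
  have hpq : p ≠ q := by
    rintro rfl
    refine hP1 ((P : Subgroup T).eq_bot_of_card_eq ?_)
    obtain ⟨k, hk⟩ := P.isPGroup'.exists_card_eq
    rw [hk]
    by_contra hk1
    have hk0 : k ≠ 0 := fun e => hk1 (by rw [e, pow_zero])
    exact hcop ((dvd_pow_self _ hk0).trans (hk ▸ Subgroup.card_subgroup_dvd_card (P : Subgroup T)))
  -- the cyclic case
  have hcyclic : ∀ c : T, (P : Subgroup T) = Subgroup.zpowers c → p ≠ 2 → Group.IsSolvable T := by
    intro c hc hp2
    obtain ⟨E, _, _, _, e, ζ, hce, hgen⟩ := exists_field hq hWU c hW0 fun V hV =>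
      hirr V fun u hu x hx => by
        rw [hc] at hu
        obtain ⟨i, rfl⟩ := (mem_powers_iff_mem_zpowers (x := c)).2 hu
        clear hu
        induction i with
        | zero => simpa using hx
        | succ i ihi =>
          simp only [pow_succ', mul_smul] at ihi ⊢
          exact hV _ ihi
    letI : DistribMulAction T E :=
      { smul := fun g x => e (g • e.symm x)
        one_smul := fun x => by show e ((1 : T) • e.symm x) = x; simp
        mul_smul := fun g h x => by
          show e ((g * h) • e.symm x) = e (g • e.symm (e (h • e.symm x)))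
          simp [mul_smul]
        smul_zero := fun g => by show e (g • e.symm 0) = 0; simp
        smul_add := fun g x y => by
          show e (g • e.symm (x + y)) = e (g • e.symm x) + e (g • e.symm y)
          simp }
    have hcE : ∀ x : E, c • x = ζ * x := fun x => by
      show e (c • e.symm x) = _
      rw [hce, e.apply_symm_apply]
    refine OrbitCyclic.isSolvable_cyclic (E := E) (q := q) ?_ hcop hp2 P c hc ζ hcE hgen ?_ hprop
    · intro g hg
      refine hfaithU g fun x => ?_
      have h1 : e (g • e.symm (e x)) = e x := hg (e x)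
      rw [e.symm_apply_apply] at h1
      exact e.injective h1
    · intro g x
      obtain ⟨u, hu, hux⟩ := hsame g (e.symm x)
      rw [hc] at hu
      obtain ⟨i, rfl⟩ := (mem_powers_iff_mem_zpowers (x := c)).2 hu
      refine ⟨i, ?_⟩
      show e (g • e.symm x) = _
      simp only at hux
      rw [hux]
      clear hux hu
      induction i with
      | zero => simp
      | succ i ihi => rw [pow_succ', mul_smul, hce, ihi, pow_succ', mul_assoc]
  by_cases hp2 : p = 2
  · subst hp2
    rcases OrbitTwoGroup.two_group_cases P.isPGroup' with hpair | ⟨c', hcn, hc'⟩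
    · exact isSolvable_of_normalPair hq hWU hpq hfaithU P hsame hirr hprop hW0 hpair
    set c : T := (c' : T) with hcdef
    have hcP : c ∈ (P : Subgroup T) := c'.2
    by_cases hCred : ∃ V : AddSubgroup U, (∀ x ∈ V, c • x ∈ V) ∧ V ≠ ⊥ ∧ V ≠ ⊤
    · -- two pieces
      obtain ⟨V, ⟨hVc, hV0, hV1⟩, hVmin⟩ := Set.Finite.exists_minimal
        (Set.toFinite {V : AddSubgroup U | (∀ x ∈ V, c • x ∈ V) ∧ V ≠ ⊥ ∧ V ≠ ⊤}) hCred
      have hcpow : ∀ u ∈ Subgroup.zpowers c', ∀ (V : AddSubgroup U), (∀ x ∈ V, c • x ∈ V) →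
          ∀ x ∈ V, (u : T) • x ∈ V := by
        intro u hu V hV x hx
        obtain ⟨i, rfl⟩ := (mem_powers_iff_mem_zpowers (x := c')).2 hu
        clear hu
        induction i with
        | zero => simpa using hx
        | succ i ihi =>
          simp only [pow_succ', Subgroup.coe_mul, mul_smul] at ihi ⊢
          exact hV _ ihi
      obtain ⟨y, hy⟩ : ∃ y : (P : Subgroup T), y ∉ Subgroup.zpowers c' := by
        by_contra hcon
        push_neg at hcon
        rcases hirr V (fun u hu x hx => hcpow ⟨u, hu⟩ (hcon _) V hVc x hx) with h | h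
        · exact hV0 h
        · exact hV1 h
      obtain ⟨-, hyy, -⟩ := (hc' y).resolve_left hy
      let f : U →+ U := DistribMulAction.toAddMonoidHom U (y : T)
      let V' : AddSubgroup U := V.map f
      have hmemV' : ∀ x, x ∈ V → (y : T) • x ∈ V' := fun x hx => ⟨x, hx, rfl⟩
      have hV'c : ∀ x ∈ V', c • x ∈ V' := by
        rintro _ ⟨x, hx, rfl⟩
        show c • (y : T) • x ∈ V'
        have hmem : y⁻¹ * c' * y⁻¹⁻¹ ∈ Subgroup.zpowers c' :=
          hcn.conj_mem c' (Subgroup.mem_zpowers c') y⁻¹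
        have : c • (y : T) • x = (y : T) • ((y⁻¹ * c' * y⁻¹⁻¹ : (P : Subgroup T)) : T) • x := by
          rw [← mul_smul, ← mul_smul]
          congr 1
          simp [hcdef, mul_assoc]
        rw [this]
        exact hmemV' _ (hcpow _ hmem V hVc x hx)
      have hyV' : ∀ x ∈ V', (y : T) • x ∈ V := by
        rintro _ ⟨x, hx, rfl⟩
        show (y : T) • (y : T) • x ∈ V
        rw [← mul_smul]
        exact hcpow _ hyy V hVc x hx
      have hPperm : ∀ u ∈ (P : Subgroup T), ((∀ x ∈ V, u • x ∈ V) ∧ (∀ x ∈ V', u • x ∈ V')) ∨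
          ((∀ x ∈ V, u • x ∈ V') ∧ (∀ x ∈ V', u • x ∈ V)) := by
        intro u hu
        by_cases huc : (⟨u, hu⟩ : (P : Subgroup T)) ∈ Subgroup.zpowers c'
        · exact Or.inl ⟨fun x hx => hcpow _ huc V hVc x hx, fun x hx => hcpow _ huc V' hV'c x hx⟩
        · have hmem : y⁻¹ * ⟨u, hu⟩ ∈ Subgroup.zpowers c' := by
            by_contra hno
            obtain ⟨h4, -, j1, hj1, hj1c⟩ := (hc' (y⁻¹ * ⟨u, hu⟩)).resolve_left hno
            obtain ⟨-, -, j2, hj2, hj2c⟩ := (hc' ⟨u, hu⟩).resolve_left huc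
            obtain ⟨-, -, j3, hj3, hj3c⟩ := (hc' y).resolve_left hy
            have e : c' ^ j2 = c' ^ (j3 * j1) := by
              rw [pow_mul, ← hj3c, conj_pow, ← hj1c, ← hj2c]
              group
            have h5 := (pow_eq_pow_iff_modEq.1 e).of_dvd h4
            rw [Nat.ModEq, hj2, Nat.mul_mod, hj3, hj1] at h5
            norm_num at h5
          have hu' : (u : T) = (y : T) * ((y⁻¹ * ⟨u, hu⟩ : (P : Subgroup T)) : T) := by simp
          refine Or.inr ⟨fun x hx => ?_, fun x hx => ?_⟩
          · rw [hu', mul_smul]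
            exact hmemV' _ (hcpow _ hmem V hVc x hx)
          · rw [hu', mul_smul]
            exact hyV' _ (hcpow _ hmem V' hV'c x hx)
      have hVV' : V ⊓ V' = ⊥ := by
        by_contra hne
        have hle : V ≤ V ⊓ V' := hVmin ⟨fun x hx => ⟨hVc x hx.1, hV'c x hx.2⟩, hne,
          fun e => hV1 (eq_top_iff.2 (e ▸ inf_le_left))⟩ inf_le_left
        rcases hirr V (fun u hu x hx => by
          rcases hPperm u hu with ⟨h1, -⟩ | ⟨-, h2⟩
          · exact h1 x hx
          · exact h2 x (hle hx).2) with h | h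
        · exact hV0 h
        · exact hV1 h
      have hcases : ∀ i : ZMod 2, i = 0 ∨ i = 1 := fun i => by
        match i with
        | 0 => exact Or.inl rfl
        | 1 => exact Or.inr rfl
      let B : ZMod 2 → AddSubgroup U := fun i => if i = 0 then V else V'
      have hB0 : B 0 = V := if_pos rfl
      have hB1 : B 1 = V' := if_neg one_ne_zero
      refine isSolvable_of_pieces (P : Subgroup T) hsame hirr hprop B ?_ ?_ ?_
      · intro i
        rcases hcases i with rfl | rfl
        · rwa [hB0]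
        · rw [hB1]
          intro e
          obtain ⟨x, hx, hx0⟩ := (AddSubgroup.bot_or_exists_ne_zero V).resolve_left hV0
          have := hmemV' x hx
          rw [e, AddSubgroup.mem_bot, smul_eq_zero_iff_eq] at this
          exact hx0 this
      · intro f g hf hg h
        have hsum : ∀ f : ZMod 2 → U, ∑ i, f i = f 0 + f 1 := fun f => Fin.sum_univ_two f
        rw [hsum, hsum] at h
        have h1 : f 0 - g 0 ∈ V := hB0 ▸ sub_mem (hf 0) (hg 0)
        have h2 : g 1 - f 1 ∈ V' := hB1 ▸ sub_mem (hg 1) (hf 1)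
        have heq : f 0 - g 0 = g 1 - f 1 := by
          rw [sub_eq_sub_iff_add_eq_add, h, add_comm]
        have h3 : f 0 - g 0 ∈ V ⊓ V' := ⟨h1, heq ▸ h2⟩
        rw [hVV', AddSubgroup.mem_bot, sub_eq_zero] at h3
        rw [h3, add_right_inj] at h
        funext i
        rcases hcases i with rfl | rfl
        · exact h3
        · exact h
      · intro u hu
        rcases hPperm u hu with ⟨h1, h2⟩ | ⟨h1, h2⟩
        · refine ⟨0, fun i x hx => ?_⟩
          rw [add_zero]
          rcases hcases i with rfl | rfl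
          · rw [hB0] at hx ⊢; exact h1 x hx
          · rw [hB1] at hx ⊢; exact h2 x hx
        · refine ⟨1, fun i x hx => ?_⟩
          rcases hcases i with rfl | rfl
          · rw [hB0] at hx; rw [zero_add, hB1]; exact h1 x hx
          · rw [hB1] at hx; rw [show (1 : ZMod 2) + 1 = 0 from rfl, hB0]; exact h2 x hx
    -- `c` irreducible
    push_neg at hCred
    obtain ⟨E, _, _, _, e, ζ, hce, hgen⟩ := exists_field hq hWU c hW0 fun V hV => by
      by_cases h : V = ⊥
      · exact Or.inl h
      · exact Or.inr (hCred V hV h)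
    letI : Algebra (ZMod q) E := ZMod.algebra E q
    by_cases hCall : ∀ u : (P : Subgroup T), u ∈ Subgroup.zpowers c'
    · -- cyclic Sylow `2`-subgroup: normal `2`-complement
      have hPcyc : IsCyclic (P : Subgroup T) := ⟨⟨c', hCall⟩⟩
      have hmin : (Nat.card T).minFac = 2 := by
        refine (Nat.minFac_eq_two_iff _).2 ?_
        obtain ⟨k, hk⟩ := P.isPGroup'.exists_card_eq
        have hk0 : k ≠ 0 := fun e => hP1 ((P : Subgroup T).eq_bot_of_card_eq (by rw [hk, e, pow_zero]))
        exact (dvd_pow_self 2 hk0).trans (hk ▸ Subgroup.card_subgroup_dvd_card (P : Subgroup T))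
      have hNC := hPcyc.normalizer_le_centralizer hmin
      refine OrbitCyclic.isSolvable_of_normal_solvable (MonoidHom.transferSylow P hNC)
        (hprop _ inferInstance ?_) (Group.isSolvable_of_comm fun a b => hPcyc.isMulCommutative.is_comm.comm a b)
      intro htop
      have := (MonoidHom.ker_transferSylow_isComplement' P hNC).disjoint
      rw [htop, top_disjoint] at this
      exact hP1 this
    push_neg at hCall
    obtain ⟨y, hy⟩ := hCall
    obtain ⟨h4, hyy, j, hj, hjc⟩ := (hc' y).resolve_left hy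
    -- the semilinear map induced by `y`
    let τ₀ : E →+ E :=
      e.toAddMonoidHom.comp ((DistribMulAction.toAddMonoidHom U (y : T)).comp e.symm.toAddMonoidHom)
    have hτ₀ : ∀ w, τ₀ (e w) = e ((y : T) • w) := fun w => by simp [τ₀]
    have hyc : (y : T) * c = c ^ j * (y : T) := by
      have := congrArg Subtype.val hjc
      simp only [Subgroup.coe_mul, InvMemClass.coe_inv, SubmonoidClass.coe_pow] at this
      rw [hcdef, ← this, inv_mul_cancel_right]
    have hcpow : ∀ (i : ℕ) (w : U), e (c ^ i • w) = ζ ^ i * e w := by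
      intro i
      induction i with
      | zero => simp
      | succ i ihi => intro w; rw [pow_succ', mul_smul, hce, ihi, pow_succ', mul_assoc]
    have hτ₁ : ∀ x, τ₀ (ζ * x) = ζ ^ j * τ₀ x := fun x => by
      obtain ⟨w, rfl⟩ := e.surjective x
      rw [← hce, hτ₀, hτ₀, ← mul_smul, hyc, mul_smul, hcpow]
    set u₀ := τ₀ 1 with hu₀
    have hu₀0 : u₀ ≠ 0 := fun h => by
      obtain ⟨w, hw⟩ := e.surjective (1 : E)
      rw [hu₀, ← hw, hτ₀, e.map_eq_zero_iff, smul_eq_zero_iff_eq] at h
      rw [h, map_zero] at hw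
      exact zero_ne_one hw
    have hτpow : ∀ i : ℕ, τ₀ (ζ ^ i) = (ζ ^ j) ^ i * u₀ := by
      intro i
      induction i with
      | zero => simp [hu₀]
      | succ i ihi => rw [pow_succ', hτ₁, ihi, pow_succ', mul_assoc]
    have hext : ∀ f g : E →+ E, (∀ i : ℕ, f (ζ ^ i) = g (ζ ^ i)) → f = g := fun f g h => by
      refine AddMonoidHom.eq_of_eqOn_dense hgen ?_
      rintro _ ⟨i, rfl⟩
      exact h i
    let τ₂ : E →+ E := (AddMonoidHom.mulRight u₀⁻¹).comp τ₀
    have hτ₂ : ∀ i : ℕ, τ₂ (ζ ^ i) = (ζ ^ j) ^ i := fun i => by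
      show τ₀ (ζ ^ i) * u₀⁻¹ = _
      rw [hτpow, mul_assoc, mul_inv_cancel₀ hu₀0, mul_one]
    have hτ₂mul : ∀ x z : E, τ₂ (x * z) = τ₂ x * τ₂ z := by
      intro x z
      have h1 : ∀ (i : ℕ) (z : E), τ₂ (ζ ^ i * z) = (ζ ^ j) ^ i * τ₂ z := by
        intro i
        have := hext (τ₂.comp (AddMonoidHom.mulLeft (ζ ^ i)))
          ((AddMonoidHom.mulLeft ((ζ ^ j) ^ i)).comp τ₂) (fun k => by
            show τ₂ (ζ ^ i * ζ ^ k) = (ζ ^ j) ^ i * τ₂ (ζ ^ k)
            rw [← pow_add, hτ₂, hτ₂, pow_add])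
        exact fun z => DFunLike.congr_fun this z
      have h2 : τ₂.comp (AddMonoidHom.mulRight z) = (AddMonoidHom.mulRight (τ₂ z)).comp τ₂ :=
        hext _ _ fun i => by
          show τ₂ (ζ ^ i * z) = τ₂ (ζ ^ i) * τ₂ z
          rw [h1, hτ₂]
      exact DFunLike.congr_fun h2 x
    have hτ₂inj : Function.Injective τ₂ := by
      intro x z hxz
      have h1 : τ₀ x = τ₀ z := mul_right_cancel₀ (inv_ne_zero hu₀0) hxz
      obtain ⟨w, rfl⟩ := e.surjective x
      obtain ⟨w', rfl⟩ := e.surjective z
      rw [hτ₀, hτ₀] at h1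
      exact congrArg e ((smul_left_cancel_iff (y : T)).1 (e.injective h1))
    let τR : E →+* E :=
      { τ₂ with
        map_one' := by simpa using hτ₂ 0
        map_mul' := hτ₂mul }
    let τ : E ≃ₐ[ZMod q] E := AlgEquiv.ofRingEquiv
      (f := RingEquiv.ofBijective τR ⟨hτ₂inj, Finite.surjective_of_injective hτ₂inj⟩)
      (fun r => DFunLike.congr_fun (Subsingleton.elim (τR.comp (algebraMap (ZMod q) E))
        (algebraMap (ZMod q) E)) r)
    have hτζ : τ ζ = ζ ^ j := by
      have := hτ₂ 1
      rwa [pow_one, pow_one] at this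
    have hgenaut : ∀ σ σ' : E ≃ₐ[ZMod q] E, σ ζ = σ' ζ → σ = σ' := by
      intro σ σ' he
      refine AlgEquiv.ext fun x => DFunLike.congr_fun (AddMonoidHom.eq_of_eqOn_dense hgen
        (f := (σ : E →+ E)) (g := (σ' : E →+ E)) ?_) x
      rintro _ ⟨i, rfl⟩
      show σ (ζ ^ i) = σ' (ζ ^ i)
      rw [map_pow, map_pow, he]
    have hordc : orderOf ζ = orderOf c := by
      refine Nat.dvd_antisymm (orderOf_dvd_of_pow_eq_one ?_) (orderOf_dvd_of_pow_eq_one ?_)
      · have := hcpow (orderOf c) (e.symm 1)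
        rw [pow_orderOf_eq_one, one_smul, e.apply_symm_apply, mul_one] at this
        exact this.symm
      · exact hfaithU _ fun w => e.injective (by rw [hcpow, pow_orderOf_eq_one, one_mul])
    obtain ⟨k, hk⟩ := IsPGroup.iff_orderOf.1 P.isPGroup' c'
    have hck : orderOf c = 2 ^ k := by rw [hcdef, Subgroup.orderOf_coe, hk]
    have h4c : 4 ∣ orderOf ζ := by rw [hordc, hcdef, Subgroup.orderOf_coe]; exact h4
    have hζ0 : ζ ≠ 0 := fun h0 => by
      have := hordc
      rw [h0, orderOf_zero] at this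
      exact (orderOf_pos c).ne this
    have hpowiff : ∀ a b : ℕ, ζ ^ a = ζ ^ b ↔ a ≡ b [MOD orderOf ζ] := fun a b => by
      rw [← Units.val_mk0 hζ0, orderOf_units, ← pow_eq_pow_iff_modEq, ← Units.val_pow_eq_pow_val,
        ← Units.val_pow_eq_pow_val]
      exact Units.val_inj
    -- `τ ^ 2 = 1`
    have hjj : ζ ^ (j * j) = ζ := by
      obtain ⟨m, hm⟩ := (mem_powers_iff_mem_zpowers (x := c')).2 hyy
      simp only at hm
      have h1 : c' ^ (j * j) = c' := by
        rw [pow_mul, ← hjc, conj_pow, ← hjc]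
        calc y * (y * c' * y⁻¹) * y⁻¹ = (y * y) * c' * (y * y)⁻¹ := by group
          _ = c' := by rw [← hm]; group
      have h2 : c ^ (j * j) = c ^ 1 := by
        rw [pow_one, hcdef, ← SubmonoidClass.coe_pow, h1]
      rw [pow_eq_pow_iff_modEq, ← hordc, ← hpowiff] at h2
      rwa [pow_one] at h2
    have hτ2 : τ ^ 2 = 1 := hgenaut _ _ (by
      rw [pow_two, AlgEquiv.mul_apply, hτζ, map_pow, hτζ, ← pow_mul, hjj, AlgEquiv.one_apply])
    -- the Galois group is a cyclic `2`-group
    set Fr := FiniteField.frobeniusAlgEquivOfAlgebraic (ZMod q) E with hFr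
    obtain ⟨i, hi⟩ := (FiniteField.bijective_frobeniusAlgEquivOfAlgebraic_pow (ZMod q) E).2 τ
    simp only at hi
    have hFrpow : ∀ m : ℕ, (Fr ^ m) ζ = ζ ^ q ^ m := by
      intro m
      induction m with
      | zero => simp
      | succ m ihm =>
        rw [pow_succ', AlgEquiv.mul_apply, ihm, map_pow, hFr,
          FiniteField.coe_frobeniusAlgEquivOfAlgebraic]
        simp only [ZMod.card]
        rw [← pow_mul, ← pow_succ']
    have hqj : ζ ^ q ^ (i : ℕ) = ζ ^ j := by
      rw [← hFrpow, hFr, hi, hτζ]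
    have hmod : q ^ (i : ℕ) % 4 = 3 := by
      have := ((hpowiff _ _).1 hqj).of_dvd h4c
      rw [this, hj]
    have hqodd : q % 2 = 1 := by
      rcases hq.eq_two_or_odd with h | h
      · exfalso
        apply hcop
        rw [h]
        exact (dvd_trans (by norm_num) h4).trans (orderOf_dvd_natCard c' |>.trans
          (Subgroup.card_subgroup_dvd_card (P : Subgroup T)))
      · exact h
    have hiodd : Odd (i : ℕ) := by
      by_contra hev
      obtain ⟨r, hr⟩ := Nat.not_odd_iff_even.1 hev
      rw [hr, ← two_mul, pow_mul, Nat.pow_mod, Nat.pow_mod q 2 4] at hmod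
      have : q % 4 = 1 ∨ q % 4 = 3 := by omega
      rcases this with h | h <;> simp [h, Nat.one_pow] at hmod
    have hcardG : Nat.card (E ≃ₐ[ZMod q] E) = Module.finrank (ZMod q) E := by
      rw [IsGalois.card_aut_eq_finrank]
    have hFrord : orderOf Fr = Module.finrank (ZMod q) E := by
      rw [hFr, FiniteField.orderOf_frobeniusAlgEquivOfAlgebraic]
    have hd2 : Module.finrank (ZMod q) E ∣ 2 * (i : ℕ) := by
      refine (dvd_of_eq hFrord.symm).trans (orderOf_dvd_of_pow_eq_one ?_)
      rw [mul_comm, pow_mul, hFr, hi, hτ2]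
    have hpow2 : ∃ t, Module.finrank (ZMod q) E = 2 ^ t := by
      -- `Aut E` embeds into `(ZMod (2 ^ k))ˣ`
      haveI : NeZero (2 ^ k) := ⟨pow_ne_zero k two_ne_zero⟩
      have hex : ∀ σ : E ≃ₐ[ZMod q] E, ∃ m : ℕ, σ ζ = ζ ^ m := fun σ => by
        obtain ⟨m, hm⟩ := (FiniteField.bijective_frobeniusAlgEquivOfAlgebraic_pow (ZMod q) E).2 σ
        exact ⟨q ^ (m : ℕ), by rw [← hm]; exact hFrpow m⟩
      choose μ hμ using hex
      have hcopμ : ∀ σ, (μ σ).Coprime (2 ^ k) := fun σ => by
        refine Nat.Coprime.pow_right k (Nat.coprime_two_right.2 ?_)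
        by_contra hev
        obtain ⟨r, hr⟩ := Nat.not_odd_iff_even.1 hev
        have h1 : orderOf (σ ζ) = orderOf ζ := orderOf_injective σ.toMonoidHom σ.injective ζ
        rw [hμ, orderOf_pow' _ (fun e0 => ?_)] at h1
        · have hg : 2 ∣ Nat.gcd (orderOf ζ) (μ σ) :=
            Nat.dvd_gcd ((by norm_num : 2 ∣ 4).trans h4c) ⟨r, by omega⟩
          have hpos : 0 < orderOf ζ := hordc ▸ orderOf_pos c
          have := Nat.div_lt_self hpos (lt_of_lt_of_le one_lt_two
            (Nat.le_of_dvd (Nat.gcd_pos_of_pos_left _ hpos) hg))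
          omega
        · have := hμ σ
          rw [e0, pow_zero] at this
          have h2 : ζ = 1 := σ.injective (this.trans (map_one σ).symm)
          rw [h2, orderOf_one] at h4c
          norm_num at h4c
      have hζmod : ∀ a b : ℕ, ζ ^ a = ζ ^ b ↔ (a : ZMod (2 ^ k)) = b := fun a b => by
        rw [hpowiff, hordc, hck, ZMod.natCast_eq_natCast_iff]
      let Ψ : (E ≃ₐ[ZMod q] E) →* (ZMod (2 ^ k))ˣ :=
        { toFun := fun σ => ZMod.unitOfCoprime (μ σ) (hcopμ σ)
          map_one' := Units.ext (by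
            show ((μ 1 : ℕ) : ZMod (2 ^ k)) = 1
            rw [← Nat.cast_one, ← hζmod, ← hμ, AlgEquiv.one_apply, pow_one])
          map_mul' := fun σ σ' => Units.ext (by
            show ((μ (σ * σ') : ℕ) : ZMod (2 ^ k)) = (μ σ : ℕ) * (μ σ' : ℕ)
            rw [← Nat.cast_mul, ← hζmod, ← hμ, AlgEquiv.mul_apply, hμ σ', map_pow, hμ σ, ← pow_mul]) }
      have hinjΨ : Function.Injective Ψ := fun σ σ' h => hgenaut σ σ' (by
        rw [hμ, hμ, hζmod]
        exact congrArg (fun v : (ZMod (2 ^ k))ˣ => (v : ZMod (2 ^ k))) h)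
      have hdvd := Subgroup.card_dvd_of_injective Ψ hinjΨ
      rw [hcardG, Nat.card_eq_fintype_card, ZMod.card_units_eq_totient] at hdvd
      rcases Nat.eq_zero_or_pos k with hk0 | hkpos
      · subst hk0
        rw [pow_zero, Nat.totient_one] at hdvd
        exact ⟨0, Nat.dvd_one.1 hdvd⟩
      · rw [Nat.totient_prime_pow Nat.prime_two hkpos, show 2 - 1 = 1 from rfl, mul_one] at hdvd
        obtain ⟨t, -, ht⟩ := (Nat.dvd_prime_pow Nat.prime_two).1 hdvd
        exact ⟨t, ht⟩
    obtain ⟨t, ht⟩ := hpow2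
    have hdim : Module.finrank (ZMod q) E ∣ 2 := by
      have hd2' : 2 ^ t ∣ 2 * (i : ℕ) := (dvd_of_eq ht.symm).trans hd2
      rw [ht]
      exact (Nat.Coprime.pow_left t (Nat.coprime_two_left.2 hiodd)).dvd_of_dvd_mul_right hd2'
    have hEcard : Nat.card U ∣ q ^ 2 := by
      rw [Nat.card_congr e.toEquiv, Module.natCard_eq_pow_finrank (K := ZMod q), Nat.card_zmod]
      exact Nat.pow_dvd_pow q (Nat.le_of_dvd (by norm_num) hdim)
    exact isSolvable_dim_two hWU hEcard hfaithU hcop hW0 horbU
  · by_cases hPc : IsCyclic (P : Subgroup T)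
    · obtain ⟨g, hg⟩ := hPc.exists_generator
      refine hcyclic g (le_antisymm (fun x hx => ?_) (Subgroup.zpowers_le.2 g.2)) hp2
      obtain ⟨i, hi⟩ := Subgroup.mem_zpowers_iff.1 (hg ⟨x, hx⟩)
      exact ⟨i, by simpa using congrArg Subtype.val hi⟩
    · obtain ⟨A, hAn, hAc, hAe, hAcard⟩ :=
        H24.exists_normal_elementary_two (P : Subgroup T) p hp2 P.isPGroup' hPc
      haveI := hAn
      exact isSolvable_of_normalPair hq hWU hpq hfaithU P hsame hirr hprop hW0
        (OrbitTwoGroup.hasNormalPair_of_elementary P.isPGroup' A hAc hAe hAcard)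

end Cfsg.Agent.H32.OrbitSolvable
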