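import Mathlib
import Cfsg.Prelude.Def_Solvable
import Cfsg.Agent.H25.KazarinFinal
import Cfsg.Agent.H19.Cores
import Cfsg.Agent.H19.Fitting
import Cfsg.Agent.H19.SchurZassenhaus
import Cfsg.Agent.H53.PConstrained
import Cfsg.Agent.H84.PGroupFix
import Cfsg.Agent.H24.PGroupBasic
import Cfsg.Agent.H87.PPowerClasses
import Cfsg.Agent.H32.OrbitSolvable

/-!
`q`-Baer groups: every element of `q`-power order has a class of prime power size.
-/

set_option autoImplicit false

open scoped Pointwise commutatorElement IsMulCommutative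

namespace Cfsg.Agent.H32.QBaer

universe u

variable {G : Type u} [Group G] [Finite G]

/-- The index of the centraliser is invariant under conjugation. -/
theorem index_conj (g x : G) :
    (Subgroup.centralizer ({g * x * g⁻¹} : Set G)).index =
      (Subgroup.centralizer ({x} : Set G)).index := by
  rw [← Subgroup.index_map_equiv (H := Subgroup.centralizer ({x} : Set G)) (MulAut.conj g)]
  congr 1
  ext y
  constructor
  · intro h
    refine ⟨g⁻¹ * y * g, ?_, by simp [mul_assoc]⟩
    rw [SetLike.mem_coe, Subgroup.mem_centralizer_singleton_iff]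
    have h := Subgroup.mem_centralizer_singleton_iff.1 h
    calc g⁻¹ * y * g * x = g⁻¹ * (y * (g * x * g⁻¹)) * g := by group
      _ = g⁻¹ * ((g * x * g⁻¹) * y) * g := by rw [h]
      _ = x * (g⁻¹ * y * g) := by group
  · rintro ⟨c, hc, rfl⟩
    have h := Subgroup.mem_centralizer_singleton_iff.1 hc
    rw [Subgroup.mem_centralizer_singleton_iff]
    show g * c * g⁻¹ * (g * x * g⁻¹) = g * x * g⁻¹ * (g * c * g⁻¹)
    calc g * c * g⁻¹ * (g * x * g⁻¹) = g * (c * x) * g⁻¹ := by group
      _ = g * (x * c) * g⁻¹ := by rw [h]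
      _ = _ := by group

/-- `C(x) ∩ C(y) ≤ C(x y)`. -/
theorem centralizer_inf_le (x y : G) :
    Subgroup.centralizer ({x} : Set G) ⊓ Subgroup.centralizer ({y} : Set G) ≤
      Subgroup.centralizer ({x * y} : Set G) := by
  intro z hz
  rw [Subgroup.mem_centralizer_singleton_iff, ← mul_assoc,
    Subgroup.mem_centralizer_singleton_iff.1 hz.1, mul_assoc,
    Subgroup.mem_centralizer_singleton_iff.1 hz.2, mul_assoc]

/-- The class of `x` has as many elements as the index of its centraliser. -/
theorem card_conjugates (x : G) :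
    (Set.range fun g : G => g * x * g⁻¹).ncard =
      (Subgroup.centralizer ({x} : Set G)).index := by
  rw [Cfsg.Agent.H25.index_centralizer_eq_card_class, ← Nat.card_coe_set_eq]
  refine Nat.card_congr (Equiv.subtypeEquivRight fun y => ?_)
  rw [Set.mem_range, isConj_iff]

/-- A subgroup of index prime to `q` contains a Sylow `q`-subgroup. -/
theorem exists_sylow_le {q : ℕ} [Fact q.Prime] (C : Subgroup G) (h : ¬ q ∣ C.index) :
    ∃ P : Sylow q G, (P : Subgroup G) ≤ C := by
  obtain ⟨S⟩ : Nonempty (Sylow q C) := inferInstance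
  have hp : IsPGroup q ((S : Subgroup C).map C.subtype) := S.2.map _
  have hi : ¬ q ∣ ((S : Subgroup C).map C.subtype).index := by
    rw [Subgroup.index_map_subtype]
    exact fun hd => ((Fact.out : q.Prime).dvd_mul.1 hd).elim S.not_dvd_index h
  exact ⟨hp.toSylow hi, by rw [IsPGroup.toSylow_coe]; exact Subgroup.map_subtype_le _⟩

theorem isPGroup_zpowers {q : ℕ} {x : G} (hx : ∃ k, orderOf x = q ^ k) :
    IsPGroup q (Subgroup.zpowers x) :=
  hx.elim fun k hk => IsPGroup.of_card (n := k) (by rw [Nat.card_zpowers, hk])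

theorem exists_orderOf_of_mem {q : ℕ} [Fact q.Prime] {H : Subgroup G} (hH : IsPGroup q H) {x : G}
    (hx : x ∈ H) : ∃ k, orderOf x = q ^ k := by
  obtain ⟨k, hk⟩ := IsPGroup.iff_orderOf.1 hH ⟨x, hx⟩
  exact ⟨k, by rwa [Subgroup.orderOf_mk] at hk⟩

/-- Elements with prime power class lie in one solvable normal subgroup. -/
theorem exists_solvable_normal (S : Set G)
    (hS : ∀ x ∈ S, ∃ r a : ℕ, r.Prime ∧ (Subgroup.centralizer ({x} : Set G)).index = r ^ a) :
    ∃ R : Subgroup G, R.Normal ∧ Group.IsSolvable R ∧ ∀ x ∈ S, x ∈ R := by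
  obtain ⟨R, ⟨hRn, hRs⟩, hmax⟩ := Set.Finite.exists_maximal
    (Set.toFinite {R : Subgroup G | R.Normal ∧ Group.IsSolvable R}) ⟨⊥, inferInstance, inferInstance⟩
  refine ⟨R, hRn, hRs, fun x hx => ?_⟩
  obtain ⟨r, a, hr, hx'⟩ := hS x hx
  set M := Subgroup.normalClosure ({x} : Set G) with hM
  have hMs : Group.IsSolvable M := Cfsg.Agent.H25.isSolvable_normalClosure hr x ⟨a, hx'⟩
  haveI := hRn
  have hsup : Group.IsSolvable ↥(M ⊔ R) := by
    let f : ↥(M ⊔ R) →* G ⧸ R := (QuotientGroup.mk' R).comp (M ⊔ R).subtype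
    refine Cfsg.Agent.H32.OrbitCyclic.isSolvable_of_normal_solvable f.rangeRestrict ?_ ?_
    · rw [MonoidHom.ker_rangeRestrict]
      refine Group.isSolvable_of_isSolvable_injective (f := ({
        toFun := fun y => ⟨((y : ↥(M ⊔ R)) : G), by
          have := MonoidHom.mem_ker.1 y.2
          exact (QuotientGroup.eq_one_iff _).1 this⟩
        map_one' := rfl
        map_mul' := fun _ _ => rfl } : f.ker →* R)) ?_
      intro y z h
      exact Subtype.ext (Subtype.ext (congrArg Subtype.val h :))
    · have hle : f.range ≤ ((QuotientGroup.mk' R).comp M.subtype).range := by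
        rw [MonoidHom.range_comp, MonoidHom.range_comp, Subgroup.range_subtype,
          Subgroup.range_subtype, Subgroup.map_sup, QuotientGroup.map_mk'_self, sup_bot_eq]
      haveI : Group.IsSolvable ((QuotientGroup.mk' R).comp M.subtype).range :=
        Group.isSolvable_of_surjective (MonoidHom.rangeRestrict_surjective _)
      exact Group.isSolvable_of_isSolvable_injective (Subgroup.inclusion_injective hle)
  exact (hmax ⟨Subgroup.sup_normal M R, hsup⟩ le_sup_right)
    (le_sup_left (a := M) (b := R) (Subgroup.subset_normalClosure rfl))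

/-- Commuting elements `x`, `y` with classes of coprime prime power sizes `r ^ a`, `s ^ b`, whose
product has class of size a power of `r`: then `y` is central, provided its order is prime to `r`. -/
theorem central_of_product {r s a b c : ℕ} [Fact r.Prime] [Fact s.Prime] (hrs : r ≠ s) {x y : G}
    (hxy : Commute x y)
    (hx : (Subgroup.centralizer ({x} : Set G)).index = r ^ a)
    (hy : (Subgroup.centralizer ({y} : Set G)).index = s ^ b)
    (hord : (orderOf y).Coprime r)
    (hz : (Subgroup.centralizer ({x * y} : Set G)).index = r ^ c) :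
    (Subgroup.centralizer ({y} : Set G)).index = 1 := by
  set Cx := Subgroup.centralizer ({x} : Set G) with hCx
  set Cy := Subgroup.centralizer ({y} : Set G) with hCy
  have hcop : Cx.index.Coprime Cy.index := by
    rw [hx, hy]
    exact ((Nat.coprime_primes Fact.out Fact.out).2 hrs).pow a b
  -- `G = C(x) C(y)`
  have hinf : (Cx ⊓ Cy).index = Cx.index * Cy.index := by
    refine le_antisymm (Subgroup.index_inf_le) (Nat.le_of_dvd
      (Nat.pos_of_ne_zero Subgroup.index_ne_zero_of_finite) (hcop.mul_dvd_of_dvd_of_dvd ?_ ?_))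
    · exact Subgroup.index_dvd_of_le inf_le_left
    · exact Subgroup.index_dvd_of_le inf_le_right
  have hfact : ∀ g : G, ∃ u ∈ Cx, ∃ v ∈ Cy, g = u * v := by
    intro g
    let f : Cx ⧸ Cy.subgroupOf Cx → G ⧸ Cy :=
      Quotient.map' (fun u => (u : G)) fun u v huv => by
        rw [QuotientGroup.leftRel_apply] at huv ⊢
        exact huv
    have hf : Function.Injective f := by
      intro u v
      induction u using Quotient.inductionOn' with | h u =>
      induction v using Quotient.inductionOn' with | h v =>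
      intro huv
      have huv : (QuotientGroup.mk (u : G) : G ⧸ Cy) = QuotientGroup.mk (v : G) := huv
      exact QuotientGroup.eq.2 (Subgroup.mem_subgroupOf.2 (by simpa using QuotientGroup.eq.1 huv))
    have hcard : Nat.card (Cx ⧸ Cy.subgroupOf Cx) = Nat.card (G ⧸ Cy) := by
      show Cy.relIndex Cx = Cy.index
      refine Nat.eq_of_mul_eq_mul_right (Nat.pos_of_ne_zero (Subgroup.index_ne_zero_of_finite (H := Cx))) ?_
      rw [← Subgroup.inf_relIndex_left Cx Cy, Subgroup.relIndex_mul_index inf_le_left, hinf, mul_comm]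
    obtain ⟨w, hw⟩ := ((Nat.bijective_iff_injective_and_card f).2 ⟨hf, hcard⟩).2 (g : G ⧸ Cy)
    induction w using Quotient.inductionOn' with | h u =>
    have hw : (QuotientGroup.mk (u : G) : G ⧸ Cy) = QuotientGroup.mk g := hw
    exact ⟨u, u.2, (u : G)⁻¹ * g, QuotientGroup.eq.1 hw, (mul_inv_cancel_left _ _).symm⟩
  let X : Set G := Set.range fun g : G => g * x * g⁻¹
  let Z : Set G := Set.range fun g : G => g * (x * y) * g⁻¹
  -- `X y^h` lies in the class of `x y`
  have hXY : ∀ g h : G, (g * x * g⁻¹) * (h * y * h⁻¹) ∈ Z := by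
    intro g h
    obtain ⟨u, hu, v, hv, huv⟩ := hfact (g⁻¹ * h)
    refine ⟨g * u, ?_⟩
    have hu' : u * x * u⁻¹ = x := mul_inv_eq_iff_eq_mul.2 (Subgroup.mem_centralizer_singleton_iff.1 hu)
    have hv' : v * y * v⁻¹ = y := mul_inv_eq_iff_eq_mul.2 (Subgroup.mem_centralizer_singleton_iff.1 hv)
    have hh : h = g * (u * v) := by rw [← huv, mul_inv_cancel_left]
    show g * u * (x * y) * (g * u)⁻¹ = _
    calc g * u * (x * y) * (g * u)⁻¹
        = g * ((u * x * u⁻¹) * (u * y * u⁻¹)) * g⁻¹ := by group
      _ = g * (x * (u * (v * y * v⁻¹) * u⁻¹)) * g⁻¹ := by rw [hu', hv']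
      _ = _ := by rw [hh]; group
  have hZcard : Z.ncard ≤ r ^ a := by
    show (Set.range _).ncard ≤ _
    rw [card_conjugates, hz]
    have hle : Cx ⊓ Cy ≤ Subgroup.centralizer ({x * y} : Set G) := centralizer_inf_le x y
    have hd : r ^ c ∣ r ^ a * s ^ b := by
      rw [← hz, ← hx, ← hy, ← hinf]
      exact Subgroup.index_dvd_of_le hle
    exact Nat.le_of_dvd (pow_pos (Fact.out : r.Prime).pos a)
      ((((Nat.coprime_primes Fact.out Fact.out).2 hrs).pow c b).dvd_of_dvd_mul_right hd)
  have hXy : ∀ h : G, ((fun z => z * (h * y * h⁻¹)) '' X) = Z := by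
    intro h
    refine Set.eq_of_subset_of_ncard_le ?_ ?_ (Set.toFinite _)
    · rintro _ ⟨_, ⟨g, rfl⟩, rfl⟩
      exact hXY g h
    · rw [Set.ncard_image_of_injective _ (mul_left_injective _)]
      show _ ≤ (Set.range fun g : G => g * x * g⁻¹).ncard
      rw [card_conjugates x, hx]
      exact hZcard
  -- the right stabiliser of `X`
  let S : Subgroup G :=
    { carrier := {m | ∀ z, z ∈ X ↔ z * m ∈ X}
      one_mem' := fun z => by simp
      mul_mem' := fun {m n} hm hn z => by rw [hm z, hn (z * m), mul_assoc]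
      inv_mem' := fun {m} hm z => by rw [hm (z * m⁻¹), inv_mul_cancel_right] }
  have hScomm : ∀ h : G, (h * y * h⁻¹) * y⁻¹ ∈ S := by
    intro h z
    have h1 : ∀ w, w ∈ X ↔ w * (h * y * h⁻¹) ∈ Z := fun w => by
      rw [← hXy h]
      exact ⟨fun hw => ⟨w, hw, rfl⟩, fun ⟨w', hw', e⟩ => mul_right_cancel e ▸ hw'⟩
    have h2 : ∀ w, w ∈ X ↔ w * y ∈ Z := fun w => by
      have e : Z = (fun z => z * (1 * y * 1⁻¹)) '' X := (hXy 1).symm
      simp only [one_mul, inv_one, mul_one] at e
      rw [e]
      exact ⟨fun hw => ⟨w, hw, rfl⟩, fun ⟨w', hw', e'⟩ => mul_right_cancel e' ▸ hw'⟩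
    rw [h1 z, h2 (z * ((h * y * h⁻¹) * y⁻¹)), show z * (h * y * h⁻¹ * y⁻¹) * y = z * (h * y * h⁻¹) by group]
  let M : Subgroup G := Subgroup.normalClosure (Set.range fun h : G => (h * y * h⁻¹) * y⁻¹)
  have hMS : M ≤ S := by
    have hcl : Subgroup.closure (Set.range fun h : G => (h * y * h⁻¹) * y⁻¹) ≤ S :=
      (Subgroup.closure_le _).2 (by rintro _ ⟨h, rfl⟩; exact hScomm h)
    refine le_trans ?_ hcl
    show Subgroup.closure (Group.conjugatesOfSet _) ≤ _
    rw [Subgroup.closure_le]
    intro w hw
    rw [Group.mem_conjugatesOfSet_iff] at hw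
    obtain ⟨_, ⟨h, rfl⟩, hw⟩ := hw
    obtain ⟨k, rfl⟩ := isConj_iff.1 hw
    rw [show k * (h * y * h⁻¹ * y⁻¹) * k⁻¹ =
      ((k * h) * y * (k * h)⁻¹ * y⁻¹) * ((k * y * k⁻¹) * y⁻¹)⁻¹ by group]
    exact mul_mem (Subgroup.subset_closure ⟨k * h, rfl⟩) (inv_mem (Subgroup.subset_closure ⟨k, rfl⟩))
  -- `M` is an `r`-group
  have hMr : IsPGroup r M := by
    have hdvd : Nat.card M ∣ r ^ a := by
      have hXc : (QuotientGroup.mk : G → G ⧸ M) ⁻¹' ((QuotientGroup.mk : G → G ⧸ M) '' X) = X := by
        refine Set.Subset.antisymm ?_ (Set.subset_preimage_image _ _)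
        intro z hz
        obtain ⟨w, hw, hwz⟩ := hz
        have hm : w⁻¹ * z ∈ M := QuotientGroup.eq.1 hwz
        have := (hMS hm w).1 hw
        rwa [mul_inv_cancel_left] at this
      refine ⟨((QuotientGroup.mk : G → G ⧸ M) '' X).ncard, ?_⟩
      rw [← hx, hCx, ← card_conjugates, ← Nat.card_coe_set_eq, ← Nat.card_coe_set_eq, ← Nat.card_prod]
      show Nat.card X = _
      conv_lhs => rw [← hXc]
      exact Nat.card_congr (QuotientGroup.preimageMkEquivSubgroupProdSet M _)
    obtain ⟨k, -, hk⟩ := (Nat.dvd_prime_pow (Fact.out : r.Prime)).1 hdvd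
    exact IsPGroup.of_card hk
  -- `y` centralises `M`
  haveI hMn : M.Normal := Subgroup.normalClosure_normal
  have hMy : M ≤ Cy := by
    obtain ⟨P, hP⟩ := exists_sylow_le (q := r) Cy (by
      rw [hy]
      exact fun hd => hrs ((Nat.prime_dvd_prime_iff_eq Fact.out Fact.out).1
        ((Fact.out : r.Prime).dvd_of_dvd_pow hd)))
    exact ((H19.le_pCore hMn hMr).trans (H19.pCore_le_sylow P)).trans hP
  have hcentral : ∀ h : G, h * y * h⁻¹ = y := by
    intro h
    have hm : (h * y * h⁻¹) * y⁻¹ ∈ M := Subgroup.subset_normalClosure ⟨h, rfl⟩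
    set m := (h * y * h⁻¹) * y⁻¹ with hmdef
    have hmy : Commute m y := Subgroup.mem_centralizer_singleton_iff.1 (hMy hm)
    have e : h * y * h⁻¹ = m * y := by rw [hmdef, inv_mul_cancel_right]
    have hmo : m ^ orderOf y = 1 := by
      have h1 : (m * y) ^ orderOf y = 1 := by
        rw [← e, conj_pow, pow_orderOf_eq_one, mul_one, mul_inv_cancel]
      rwa [hmy.mul_pow, pow_orderOf_eq_one, mul_one] at h1
    obtain ⟨k, hk⟩ := exists_orderOf_of_mem hMr hm
    have hm1 : orderOf m = 1 := Nat.eq_one_of_dvd_coprimes (hord.pow_right k)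
      (orderOf_dvd_of_pow_eq_one hmo) (dvd_of_eq hk)
    rw [e, orderOf_eq_one_iff.1 hm1, one_mul]
  rw [Subgroup.index_eq_one, eq_top_iff]
  intro h _
  exact Subgroup.mem_centralizer_singleton_iff.2 (mul_inv_eq_iff_eq_mul.1 (hcentral h))

/-- A nilpotent normal subgroup is centralised by an element centralising all normal
`r`-subgroups. -/
theorem commute_fitting {R : Type u} [Group R] [Finite R] (x : R)
    (h : ∀ r : ℕ, r.Prime → ∀ m ∈ Cfsg.pCore r R, m * x = x * m) :
    x ∈ Subgroup.centralizer (Cfsg.fittingSubgroup R : Set R) := by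
  have hle : Cfsg.fittingSubgroup R ≤ Subgroup.centralizer ({x} : Set R) := by
    rw [H19.fitting_eq_iSup_pCore]
    exact iSup_le fun r => fun m hm => Subgroup.mem_centralizer_singleton_iff.2 (h r r.2 m hm)
  rw [Subgroup.mem_centralizer_iff]
  intro m hm
  exact Subgroup.mem_centralizer_singleton_iff.1 (hle hm)

/-- The main theorem. -/
theorem main (q : ℕ) [Fact q.Prime]
    (hBaer : ∀ x : G, (∃ k : ℕ, orderOf x = q ^ k) →
      ∃ (r : ℕ) (a : ℕ), r.Prime ∧ (Subgroup.centralizer ({x} : Set G)).index = r ^ a)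
    (Q : Sylow q G) :
    (∃ K L : Subgroup G, K.Normal ∧ L.Normal ∧ K ≤ L ∧ (Nat.card K).Coprime q ∧
      (∃ m : ℕ, K.relIndex L = q ^ m) ∧ L.index.Coprime q) ∧
    ∃ p : ℕ, p.Prime ∧
      (∀ x : G, (∃ k : ℕ, orderOf x = q ^ k) →
        ∃ a : ℕ, (Subgroup.centralizer ({x} : Set G)).index = p ^ a) ∧
      (p = q → (Q : Subgroup G).Normal ∧
        ∃ N : Subgroup G, N.Normal ∧ N.IsComplement' (Q : Subgroup G)) ∧
      (p ≠ q → IsMulCommutative (Q : Subgroup G) ∧ (Cfsg.pCore p G ⊔ (Q : Subgroup G)).Normal ∧
        ∀ _h : (Cfsg.pPrimeCore q G).Normal, Group.IsSolvable (G ⧸ Cfsg.pPrimeCore q G)) := by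
  classical
  have hq : q.Prime := Fact.out
  have hQidx : (Q : Subgroup G).index.Coprime q :=
    (hq.coprime_iff_not_dvd.2 Q.not_dvd_index).symm
  have hmemconj : ∀ x : G, (∃ k, orderOf x = q ^ k) → ∃ g : G, g * x * g⁻¹ ∈ (Q : Subgroup G) := by
    intro x hx
    obtain ⟨P, hP⟩ := (isPGroup_zpowers hx).exists_le_sylow
    obtain ⟨g, hg⟩ := MulAction.exists_smul_eq G P Q
    refine ⟨g, ?_⟩
    rw [← hg]
    exact ⟨x, hP (Subgroup.mem_zpowers x), rfl⟩
  by_cases hA : ∃ x : G, (∃ k, orderOf x = q ^ k) ∧
      (∃ a, (Subgroup.centralizer ({x} : Set G)).index = q ^ a) ∧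
      (Subgroup.centralizer ({x} : Set G)).index ≠ 1
  · -- some element of type `q`
    obtain ⟨x, hxq, ⟨a, hxa⟩, hx1⟩ := hA
    have hxO := H87.mem_pCore_of_index_pow hxq hxa
    have hxQ : x ∈ (Q : Subgroup G) := H19.pCore_le_sylow Q hxO
    obtain ⟨v, hvQ, hvx⟩ : ∃ v ∈ (Q : Subgroup G), ¬ Commute v x := by
      by_contra hcon
      push_neg at hcon
      refine hx1 (Subgroup.index_eq_one.2 (eq_top_iff.2 fun g _ => ?_))
      obtain ⟨v, hv, c, hc, rfl⟩ := H87.exists_mem_mul_mem_of_index_pow Q _ hxa g
      exact mul_mem (Subgroup.mem_centralizer_singleton_iff.2 (hcon v hv).eq) hc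
    have hout : ∀ u ∈ (Q : Subgroup G), ¬ Commute u x → u ∈ Cfsg.pCore q G := by
      intro u hu hux
      obtain ⟨r, b, hr, hb⟩ := hBaer u (exists_orderOf_of_mem Q.2 hu)
      by_cases hrq : r = q
      · exact H87.mem_pCore_of_index_pow (exists_orderOf_of_mem Q.2 hu) (hrq ▸ hb)
      exfalso
      obtain ⟨P, hP⟩ := exists_sylow_le (q := q) (Subgroup.centralizer ({u} : Set G)) (by
        rw [hb]
        exact fun hd => hrq ((Nat.prime_dvd_prime_iff_eq hq hr).1 (hq.dvd_of_dvd_pow hd)).symm)
      exact hux (Subgroup.mem_centralizer_singleton_iff.1 (hP (H19.pCore_le_sylow P hxO))).symm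
    have hQO : (Q : Subgroup G) = Cfsg.pCore q G := by
      refine le_antisymm (fun u hu => ?_) (H19.pCore_le_sylow Q)
      by_cases hux : Commute u x
      · have h1 : ¬ Commute (u * v) x := fun h => hvx (by
          have := hux.inv_left.mul_left h
          rwa [inv_mul_cancel_left] at this)
        have h2 := mul_mem (hout _ (mul_mem hu hvQ) h1) (inv_mem (hout v hvQ hvx))
        rwa [mul_inv_cancel_right] at h2
      · exact hout u hu hux
    have hQn : (Q : Subgroup G).Normal := hQO ▸ H19.pCore_normal q G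
    haveI := hQn
    have hQcop : (Nat.card (Q : Subgroup G)).Coprime (Q : Subgroup G).index := Q.card_coprime_index
    obtain ⟨N, hN⟩ := Subgroup.exists_right_complement'_of_coprime hQcop
    haveI : Group.IsNilpotent (Q : Subgroup G) := Q.2.isNilpotent
    have hsolQ : Group.IsSolvable (Q : Subgroup G) := inferInstance
    have hNcard : Nat.card N = (Q : Subgroup G).index := H19.card_eq_index_of_isComplement' hN
    -- elements of `Q` moved in `Q` are conjugate to fixed points of `N`
    have hfix : ∀ u ∈ (Q : Subgroup G), (∃ w ∈ (Q : Subgroup G), ¬ Commute w u) →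
        ∃ g : G, g * u * g⁻¹ ∈ (Q : Subgroup G) ∧ N ≤ Subgroup.centralizer ({g * u * g⁻¹} : Set G) := by
      rintro u hu ⟨w, hw, hwu⟩
      obtain ⟨r, b, hr, hb⟩ := hBaer u (exists_orderOf_of_mem Q.2 hu)
      have hrq : r = q := by
        by_contra hrq
        obtain ⟨P, hP⟩ := exists_sylow_le (q := q) (Subgroup.centralizer ({u} : Set G)) (by
          rw [hb]
          exact fun hd => hrq ((Nat.prime_dvd_prime_iff_eq hq hr).1 (hq.dvd_of_dvd_pow hd)).symm)
        have hPQ : (P : Subgroup G) = Q := by
          obtain ⟨g, hg⟩ := MulAction.exists_smul_eq G Q P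
          rw [← hg, Sylow.coe_subgroup_smul, Subgroup.Normal.conj_smul_eq_self g (Q : Subgroup G)]
        exact hwu (Subgroup.mem_centralizer_singleton_iff.1 (hP (hPQ ▸ hw)))
      subst hrq
      set C := Subgroup.centralizer ({u} : Set G) with hC
      set QC := (Q : Subgroup G).subgroupOf C with hQC
      haveI : QC.Normal := hQn.subgroupOf C
      have hfact := fun g => H87.exists_mem_mul_mem_of_index_pow Q C hb g
      have hQCidx : QC.index = (Q : Subgroup G).index := by
        show (Q : Subgroup G).relIndex C = _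
        rw [← Subgroup.relIndex_sup_right C (Q : Subgroup G)]
        have htop : C ⊔ (Q : Subgroup G) = ⊤ := eq_top_iff.2 fun g _ => by
          obtain ⟨v, hv, c, hc, rfl⟩ := hfact g
          exact mul_mem ((le_sup_right : (Q : Subgroup G) ≤ C ⊔ Q) hv) ((le_sup_left : C ≤ C ⊔ _) hc)
        rw [htop, Subgroup.relIndex_top_right]
      have hQCcop : (Nat.card QC).Coprime QC.index := by
        rw [hQCidx]
        refine Nat.Coprime.coprime_dvd_left ?_ hQcop
        exact Subgroup.card_dvd_of_injective
          ((C.subtype.comp QC.subtype).codRestrict (Q : Subgroup G) fun y => y.2)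
          (fun y z h => Subtype.ext (Subtype.ext (congrArg Subtype.val h :)))
      obtain ⟨K', hK'⟩ := Subgroup.exists_right_complement'_of_coprime hQCcop
      have hK : Nat.card (K'.map C.subtype) = (Q : Subgroup G).index := by
        rw [Nat.card_congr (Subgroup.equivMapOfInjective K' C.subtype C.subtype_injective).toEquiv.symm,
          H19.card_eq_index_of_isComplement' hK', hQCidx]
      obtain ⟨g, hg⟩ := H19.sz_conj_of_solvable (Q : Subgroup G) hsolQ hQcop hK hNcard
      refine ⟨g, hQn.conj_mem u hu g, fun m hm => ?_⟩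
      rw [← hg] at hm
      obtain ⟨c, hc, rfl⟩ := hm
      obtain ⟨c', -, rfl⟩ := hc
      have hcu : (c' : G) * u = u * c' := Subgroup.mem_centralizer_singleton_iff.1 c'.2
      rw [Subgroup.mem_centralizer_singleton_iff]
      show g * (c' : G) * g⁻¹ * (g * u * g⁻¹) = g * u * g⁻¹ * (g * (c' : G) * g⁻¹)
      calc g * (c' : G) * g⁻¹ * (g * u * g⁻¹) = g * ((c' : G) * u) * g⁻¹ := by group
        _ = g * (u * (c' : G)) * g⁻¹ := by rw [hcu]
        _ = _ := by group
    -- `N` centralises `Q`
    let D : Subgroup (Q : Subgroup G) :=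
      (Subgroup.centralizer (N : Set G)).subgroupOf (Q : Subgroup G)
    have hD : D = ⊤ := by
      refine frattini_nongenerating (eq_top_iff.2 ?_)
      have hcomm : commutator (Q : Subgroup G) ≤ frattini (Q : Subgroup G) :=
        H24.commutator_le_frattini (p := q) Q.2
      have hnc : ∀ u : (Q : Subgroup G), (∃ w ∈ (Q : Subgroup G), ¬ Commute w (u : G)) →
          u ∈ D ⊔ frattini (Q : Subgroup G) := by
        intro u hu
        obtain ⟨g, hgQ, hgN⟩ := hfix u u.2 hu
        obtain ⟨w, hw, c, hc, hg⟩ : ∃ w ∈ (Q : Subgroup G), ∃ c ∈ Subgroup.centralizer ({(u : G)} : Set G),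
            g = w * c := by
          obtain ⟨r, b, hr, hb⟩ := hBaer (u : G) (exists_orderOf_of_mem Q.2 u.2)
          by_cases hrq : r = q
          · subst hrq
            exact H87.exists_mem_mul_mem_of_index_pow Q _ hb g
          · exfalso
            obtain ⟨w, hw, hwu⟩ := hu
            obtain ⟨P, hP⟩ := exists_sylow_le (q := q) (Subgroup.centralizer ({(u : G)} : Set G)) (by
              rw [hb]
              exact fun hd => hrq ((Nat.prime_dvd_prime_iff_eq hq hr).1 (hq.dvd_of_dvd_pow hd)).symm)
            exact hwu (Subgroup.mem_centralizer_singleton_iff.1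
              (hP (H19.pCore_le_sylow P (hQO ▸ hw))))
        have hcu : c * (u : G) * c⁻¹ = u :=
          mul_inv_eq_iff_eq_mul.2 (Subgroup.mem_centralizer_singleton_iff.1 hc)
        let w' : (Q : Subgroup G) := ⟨w, hw⟩
        have e : g * (u : G) * g⁻¹ = ((w' * u * w'⁻¹ : (Q : Subgroup G)) : G) := by
          rw [hg]
          calc w * c * (u : G) * (w * c)⁻¹ = w * (c * (u : G) * c⁻¹) * w⁻¹ := by group
            _ = w * (u : G) * w⁻¹ := by rw [hcu]
            _ = _ := rfl
        have h1 : w' * u * w'⁻¹ ∈ D := by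
          rw [Subgroup.mem_subgroupOf, ← e, Subgroup.mem_centralizer_iff]
          intro n hn
          exact Subgroup.mem_centralizer_singleton_iff.1 (hgN hn)
        have h2 : ⁅w', u⁆ ∈ frattini (Q : Subgroup G) :=
          hcomm (Subgroup.commutator_mem_commutator (Subgroup.mem_top _) (Subgroup.mem_top _))
        have : u = ⁅w', u⁆⁻¹ * (w' * u * w'⁻¹) := by rw [commutatorElement_def]; group
        rw [this]
        exact mul_mem (inv_mem ((le_sup_right : frattini _ ≤ D ⊔ _) h2))
          ((le_sup_left : D ≤ D ⊔ _) h1)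
      intro u _
      by_cases hu : ∃ w ∈ (Q : Subgroup G), ¬ Commute w (u : G)
      · exact hnc u hu
      · push_neg at hu
        let x' : (Q : Subgroup G) := ⟨x, hxQ⟩
        have hx' : ∃ w ∈ (Q : Subgroup G), ¬ Commute w (x' : G) := ⟨v, hvQ, hvx⟩
        have h1 : ∃ w ∈ (Q : Subgroup G), ¬ Commute w ((u * x' : (Q : Subgroup G)) : G) := by
          refine ⟨v, hvQ, fun h => hvx ?_⟩
          have h' : Commute v ((u : G)⁻¹ * ((u : G) * x)) := (hu v hvQ).inv_right.mul_right h
          rwa [inv_mul_cancel_left] at h'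
        have h2 := mul_mem (hnc _ h1) (inv_mem (hnc x' hx'))
        rwa [mul_inv_cancel_right] at h2
    have hQcN : ∀ u ∈ (Q : Subgroup G), ∀ n ∈ N, n * u = u * n := fun u hu n hn => by
      have : (⟨u, hu⟩ : (Q : Subgroup G)) ∈ D := hD ▸ Subgroup.mem_top _
      exact Subgroup.mem_centralizer_iff.1 (Subgroup.mem_subgroupOf.1 this) n hn
    have hNn : N.Normal := by
      refine ⟨fun n hn g => ?_⟩
      obtain ⟨⟨w, m⟩, hwm, -⟩ := Subgroup.isComplement_iff_existsUnique.1 hN g
      simp only at hwm
      rw [← hwm, show (w : G) * m * n * ((w : G) * m)⁻¹ = (w : G) * ((m : G) * n * (m : G)⁻¹) * (w : G)⁻¹ by group]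
      have hmem : (m : G) * n * (m : G)⁻¹ ∈ N := mul_mem (mul_mem m.2 hn) (inv_mem m.2)
      rw [← hQcN w w.2 _ hmem, mul_inv_cancel_right]
      exact hmem
    refine ⟨⟨⊥, Q, inferInstance, hQn, bot_le, by simp, ?_, hQidx⟩, q, hq, ?_,
      fun _ => ⟨hQn, N, hNn, hN.symm⟩, fun h => absurd rfl h⟩
    · obtain ⟨m, hm⟩ := Q.2.exists_card_eq
      exact ⟨m, by rw [Subgroup.relIndex_bot_left, hm]⟩
    · intro u hu
      obtain ⟨g, hg⟩ := hmemconj u hu
      have hle : N ≤ Subgroup.centralizer ({g * u * g⁻¹} : Set G) := fun n hn =>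
        Subgroup.mem_centralizer_singleton_iff.2 (hQcN _ hg n hn)
      have h1 := Subgroup.index_dvd_of_le hle
      rw [index_conj, hN.index_eq_card] at h1
      obtain ⟨m, hm⟩ := Q.2.exists_card_eq
      rw [hm] at h1
      obtain ⟨b, -, hb⟩ := (Nat.dvd_prime_pow hq).1 h1
      exact ⟨b, hb⟩
  · -- no element of type `q`
    push_neg at hA
    have hcoprime : ∀ x : G, (∃ k, orderOf x = q ^ k) →
        ¬ q ∣ (Subgroup.centralizer ({x} : Set G)).index := by
      intro x hx hd
      obtain ⟨r, a, hr, ha⟩ := hBaer x hx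
      rw [ha] at hd
      obtain rfl : q = r := (Nat.prime_dvd_prime_iff_eq hq hr).1 (hq.dvd_of_dvd_pow hd)
      have h1 := hA x hx ⟨a, ha⟩
      rw [ha] at h1
      exact hq.one_lt.ne' (Nat.dvd_one.1 (h1 ▸ hd))
    obtain ⟨R, hRn, hRs, hRmem⟩ := exists_solvable_normal {x : G | ∃ k, orderOf x = q ^ k} hBaer
    haveI := hRn
    haveI := H19.pPrimeCore_normal q G
    set K := Cfsg.pPrimeCore q G with hK
    set π := QuotientGroup.mk' K with hπ
    have hπs : Function.Surjective π := QuotientGroup.mk'_surjective K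
    set V := (Q : Subgroup G).map π with hV
    set R' := R.map π with hR'
    haveI hR'n : R'.Normal := hRn.map π hπs
    haveI hR's : Group.IsSolvable R' := Group.isSolvable_of_surjective (MonoidHom.subgroupMap_surjective π R)
    have hVq : IsPGroup q V := Q.2.map π
    have hKq : Cfsg.pPrimeCore q (G ⧸ K) = ⊥ := H19.pPrimeCore_quotient_pPrimeCore q
    have hR'q : Cfsg.pPrimeCore q R' = ⊥ := by
      have := H19.map_pPrimeCore_le (p := q) R'
      rw [hKq, le_bot_iff, Subgroup.map_eq_bot_iff_of_injective _ R'.subtype_injective] at this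
      exact this
    have hVR : V ≤ R' := Subgroup.map_mono fun u hu => hRmem u (exists_orderOf_of_mem Q.2 hu)
    set O := (Cfsg.pCore q R').map R'.subtype with hO
    haveI hOn : O.Normal := by
      haveI := H19.pCore_characteristic q R'
      exact ConjAct.normal_of_characteristic_of_normal
    have hOq : IsPGroup q O := (H19.pCore_isPGroup q).map _
    have hsylV : ∃ P : Sylow q (G ⧸ K), (P : Subgroup (G ⧸ K)) = V := by
      refine ⟨hVq.toSylow ?_, IsPGroup.toSylow_coe _ _⟩
      intro hd
      exact Q.not_dvd_index (hd.trans (Subgroup.index_map_dvd _ hπs))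
    obtain ⟨PV, hPV⟩ := hsylV
    have hOV : O ≤ V := hPV ▸ (H19.le_pCore hOn hOq).trans (H19.pCore_le_sylow PV)
    have hVO : V ≤ O := by
      rintro _ ⟨u, hu, rfl⟩
      have huR : π u ∈ R' := hVR ⟨u, hu, rfl⟩
      have hcent : (⟨π u, huR⟩ : R') ∈ Subgroup.centralizer (Cfsg.pCore q R' : Set R') := by
        obtain ⟨P, hP⟩ := exists_sylow_le (q := q) ((Subgroup.centralizer ({u} : Set G)).map π) (by
          intro hd
          exact hcoprime u (exists_orderOf_of_mem Q.2 hu) (hd.trans (Subgroup.index_map_dvd _ hπs)))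
        rw [Subgroup.mem_centralizer_iff]
        intro m hm
        obtain ⟨c, hc, hcm⟩ := hP (H19.pCore_le_sylow P (H19.le_pCore hOn hOq ⟨m, hm, rfl⟩))
        refine Subtype.ext ?_
        show (m : G ⧸ K) * π u = π u * m
        change π c = (m : G ⧸ K) at hcm
        rw [← hcm, ← map_mul, ← map_mul, Subgroup.mem_centralizer_singleton_iff.1 hc]
      exact ⟨⟨π u, huR⟩, H53.centralizer_pCore_le hR'q hcent, rfl⟩
    have hVeq : V = O := le_antisymm hVO hOV
    haveI hVn : V.Normal := hVeq ▸ hOn
    have hVab : ∀ u ∈ (Q : Subgroup G), ∀ w ∈ (Q : Subgroup G), π u * π w = π w * π u := by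
      intro u hu w hw
      obtain ⟨P, hP⟩ := exists_sylow_le (q := q) ((Subgroup.centralizer ({u} : Set G)).map π) (by
        intro hd
        exact hcoprime u (exists_orderOf_of_mem Q.2 hu) (hd.trans (Subgroup.index_map_dvd _ hπs)))
      obtain ⟨c, hc, hcm⟩ := hP (H19.pCore_le_sylow P (H19.le_pCore hVn hVq ⟨w, hw, rfl⟩))
      rw [← hcm, ← map_mul, ← map_mul, Subgroup.mem_centralizer_singleton_iff.1 hc]
    have hinjQ : ∀ u ∈ (Q : Subgroup G), π u = 1 → u = 1 := by
      intro u hu h
      obtain ⟨k, hk⟩ := exists_orderOf_of_mem Q.2 hu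
      have hmem : u ∈ K := (QuotientGroup.eq_one_iff u).1 h
      have h1 : (orderOf u).Coprime q :=
        (H19.pPrimeCore_coprime q).coprime_dvd_left (Subgroup.orderOf_mk u hmem ▸ orderOf_dvd_natCard _)
      exact orderOf_eq_one_iff.1 (Nat.eq_one_of_dvd_coprimes (h1.pow_right k) dvd_rfl (dvd_of_eq hk))
    have hQab : IsMulCommutative (Q : Subgroup G) := by
      refine ⟨⟨fun u w => Subtype.ext ?_⟩⟩
      show (u : G) * w = w * u
      have := hinjQ ((u : G) * w * ((w : G) * u)⁻¹)
        (mul_mem (mul_mem u.2 w.2) (inv_mem (mul_mem w.2 u.2)))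
        (by rw [map_mul, map_inv, map_mul, map_mul, hVab u u.2 w w.2, mul_inv_cancel])
      exact mul_inv_eq_one.1 this
    -- the prime
    obtain ⟨p, hp, hpq, hpall⟩ : ∃ p : ℕ, p.Prime ∧ p ≠ q ∧ ∀ x : G, (∃ k : ℕ, orderOf x = q ^ k) →
        ∃ a : ℕ, (Subgroup.centralizer ({x} : Set G)).index = p ^ a := by
      by_cases hnc : ∃ x : G, (∃ k, orderOf x = q ^ k) ∧
          (Subgroup.centralizer ({x} : Set G)).index ≠ 1
      · obtain ⟨x₀, hx₀, hx₀1⟩ := hnc
        obtain ⟨r, a, hr, ha⟩ := hBaer x₀ hx₀
        have hrq : r ≠ q := by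
          rintro rfl
          refine hx₀1 ?_
          exact hA x₀ hx₀ ⟨a, ha⟩
        refine ⟨r, hr, hrq, fun x hx => ?_⟩
        obtain ⟨s, b, hs, hb⟩ := hBaer x hx
        by_cases hsr : s = r
        · exact ⟨b, hsr ▸ hb⟩
        refine ⟨0, ?_⟩
        rw [pow_zero]
        by_contra hx1
        have hsq : s ≠ q := by
          rintro rfl
          exact hx1 (hA x hx ⟨b, hb⟩)
        obtain ⟨g₀, hg₀⟩ := hmemconj x₀ hx₀
        obtain ⟨g, hg⟩ := hmemconj x hx
        set x' := g₀ * x₀ * g₀⁻¹ with hx'
        set y' := g * x * g⁻¹ with hy'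
        have hxi : (Subgroup.centralizer ({x'} : Set G)).index = r ^ a := by rw [hx', index_conj, ha]
        have hyi : (Subgroup.centralizer ({y'} : Set G)).index = s ^ b := by rw [hy', index_conj, hb]
        haveI : Fact r.Prime := ⟨hr⟩
        haveI : Fact s.Prime := ⟨hs⟩
        have hxy : Commute x' y' := congrArg Subtype.val
          (hQab.is_comm.comm (⟨x', hg₀⟩ : (Q : Subgroup G)) ⟨y', hg⟩)
        have hordy : ∀ z ∈ (Q : Subgroup G), ∀ l : ℕ, l.Prime → l ≠ q → (orderOf z).Coprime l := by
          intro z hz l hl hlq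
          obtain ⟨k, hk⟩ := exists_orderOf_of_mem Q.2 hz
          rw [hk]
          exact ((Nat.coprime_primes hq hl).2 (Ne.symm hlq)).pow_left k
        obtain ⟨t, c, ht, hc⟩ := hBaer (x' * y') (exists_orderOf_of_mem Q.2 (mul_mem hg₀ hg))
        have hd : t ^ c ∣ r ^ a * s ^ b := by
          rw [← hc, ← hxi, ← hyi]
          refine (Subgroup.index_dvd_of_le (H := Subgroup.centralizer ({x'} : Set G) ⊓
            Subgroup.centralizer ({y'} : Set G)) ?_).trans ?_
          · exact centralizer_inf_le x' y'
          · have hco : (Subgroup.centralizer ({x'} : Set G)).index.Coprime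
                (Subgroup.centralizer ({y'} : Set G)).index := by
              rw [hxi, hyi]
              exact ((Nat.coprime_primes hr hs).2 (Ne.symm hsr)).pow a b
            refine dvd_of_eq (le_antisymm Subgroup.index_inf_le (Nat.le_of_dvd
              (Nat.pos_of_ne_zero Subgroup.index_ne_zero_of_finite)
              (hco.mul_dvd_of_dvd_of_dvd ?_ ?_)))
            · exact Subgroup.index_dvd_of_le inf_le_left
            · exact Subgroup.index_dvd_of_le inf_le_right
        have hcase : (∃ c', t ^ c = r ^ c') ∨ ∃ c', t ^ c = s ^ c' := by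
          by_cases htr : t = r
          · exact Or.inl ⟨c, by rw [htr]⟩
          · refine Or.inr ?_
            by_cases hts : t = s
            · exact ⟨c, by rw [hts]⟩
            · refine ⟨0, ?_⟩
              rw [pow_zero]
              exact Nat.eq_one_of_dvd_coprimes (Nat.Coprime.mul_right
                (((Nat.coprime_primes ht hr).2 htr).pow c a)
                (((Nat.coprime_primes ht hs).2 hts).pow c b)) dvd_rfl hd
        rcases hcase with ⟨c', hc'⟩ | ⟨c', hc'⟩
        · apply hx1
          have := central_of_product (Ne.symm hsr) hxy hxi hyi (hordy y' hg r hr hrq) (hc.trans hc')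
          rwa [hy', index_conj] at this
        · apply hx₀1
          have := central_of_product hsr hxy.symm hyi hxi (hordy x' hg₀ s hs hsq)
            (by rw [← hxy.eq]; exact hc.trans hc')
          rwa [hx', index_conj] at this
      · push_neg at hnc
        obtain ⟨l, hl, hlp⟩ := Nat.exists_infinite_primes (q + 1)
        exact ⟨l, hlp, by omega, fun x hx => ⟨0, by rw [hnc x hx, pow_zero]⟩⟩
    haveI : Fact p.Prime := ⟨hp⟩
    refine ⟨⟨K, V.comap π, inferInstance, hVn.comap π,
      (le_of_eq (QuotientGroup.ker_mk' K).symm).trans (Subgroup.ker_le_comap π V),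
      H19.pPrimeCore_coprime q, ?_, ?_⟩,
      p, hp, hpall, fun h => absurd h hpq, fun _ => ⟨hQab, ?_, fun hh => ?_⟩⟩
    · obtain ⟨m, hm⟩ := hVq.exists_card_eq
      refine ⟨m, ?_⟩
      have e : π.ker.relIndex (V.comap π) = Nat.card V := by
        rw [Subgroup.relIndex_ker, Subgroup.map_comap_eq_self_of_surjective hπs]
      rw [hπ, QuotientGroup.ker_mk'] at e
      rw [hπ, e, hm]
    · refine Nat.Coprime.coprime_dvd_left ?_ hQidx
      exact Subgroup.index_dvd_of_le (Subgroup.le_comap_map π (Q : Subgroup G))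
    · -- `O_p(G) Q` is normal
      haveI := H19.pCore_normal p G
      set A := Cfsg.pCore p G with hA'
      set σ := QuotientGroup.mk' A with hσ
      have hσs : Function.Surjective σ := QuotientGroup.mk'_surjective A
      set W := (Q : Subgroup G).map σ with hW
      set R'' := R.map σ with hR''
      haveI hR''n : R''.Normal := hRn.map σ hσs
      haveI hR''s : Group.IsSolvable R'' :=
        Group.isSolvable_of_surjective (MonoidHom.subgroupMap_surjective σ R)
      have hWq : IsPGroup q W := Q.2.map σ
      have hWR : W ≤ R'' := Subgroup.map_mono fun u hu => hRmem u (exists_orderOf_of_mem Q.2 hu)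
      haveI := H19.fitting_characteristic R''
      set F := (Cfsg.fittingSubgroup R'').map R''.subtype with hF
      haveI hFn : F.Normal := ConjAct.normal_of_characteristic_of_normal
      haveI hFnil : Group.IsNilpotent F := by
        haveI := H19.fitting_isNilpotent (G := R'')
        exact Group.nilpotent_of_surjective _ (MonoidHom.subgroupMap_surjective R''.subtype _)
      have hpc : Cfsg.pCore p (G ⧸ A) = ⊥ := H19.pCore_quotient_pCore p
      have hWF : W ≤ F := by
        rintro _ ⟨u, hu, rfl⟩
        have huR : σ u ∈ R'' := hWR ⟨u, hu, rfl⟩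
        refine ⟨⟨σ u, huR⟩, H19.centralizer_fitting_le (commute_fitting _ fun r hr m hm => ?_), rfl⟩
        haveI : Fact r.Prime := ⟨hr⟩
        haveI := H19.pCore_characteristic r R''
        have hn : ((Cfsg.pCore r R'').map R''.subtype).Normal :=
          ConjAct.normal_of_characteristic_of_normal
        have hmr : (m : G ⧸ A) ∈ Cfsg.pCore r (G ⧸ A) :=
          H19.le_pCore hn ((H19.pCore_isPGroup r).map _) ⟨m, hm, rfl⟩
        by_cases hrp : r = p
        · subst hrp
          rw [hpc, Subgroup.mem_bot] at hmr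
          obtain rfl : m = 1 := Subtype.ext hmr
          simp
        obtain ⟨b, hb⟩ := hpall u (exists_orderOf_of_mem Q.2 hu)
        obtain ⟨P, hP⟩ := exists_sylow_le (q := r) ((Subgroup.centralizer ({u} : Set G)).map σ) (by
          intro hd
          have := hd.trans (Subgroup.index_map_dvd _ hσs)
          rw [hb] at this
          exact hrp ((Nat.prime_dvd_prime_iff_eq hr hp).1 (hr.dvd_of_dvd_pow this)))
        obtain ⟨c, hc, hcm⟩ := hP (H19.pCore_le_sylow P hmr)
        refine Subtype.ext ?_
        show (m : G ⧸ A) * σ u = σ u * m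
        rw [← hcm, ← map_mul, ← map_mul, Subgroup.mem_centralizer_singleton_iff.1 hc]
      have hWn : W.Normal := by
        obtain ⟨PW, hPW⟩ : ∃ P : Sylow q (G ⧸ A), (P : Subgroup (G ⧸ A)) = W :=
          ⟨hWq.toSylow (fun hd => Q.not_dvd_index (hd.trans (Subgroup.index_map_dvd _ hσs))),
            IsPGroup.toSylow_coe _ _⟩
        obtain ⟨S⟩ : Nonempty (Sylow q F) := inferInstance
        haveI : (S : Subgroup F).Characteristic := S.characteristic_of_normal inferInstance
        have hSn : ((S : Subgroup F).map F.subtype).Normal :=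
          ConjAct.normal_of_characteristic_of_normal
        have hWS : W.subgroupOf F = (S : Subgroup F) := by
          obtain ⟨S', hS'⟩ := (hWq.comap_of_injective F.subtype F.subtype_injective).exists_le_sylow
          have hSS : (S' : Subgroup F) = (S : Subgroup F) := by
            obtain ⟨g, hg⟩ := MulAction.exists_smul_eq F S S'
            haveI : (S : Subgroup F).Normal := inferInstance
            rw [← hg, Sylow.coe_subgroup_smul, Subgroup.Normal.conj_smul_eq_self g (S : Subgroup F)]
          refine le_antisymm (hSS ▸ hS') fun z hz => ?_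
          show (z : G ⧸ A) ∈ W
          rw [← hPW]
          exact H19.pCore_le_sylow PW (H19.le_pCore hSn (S.2.map _) ⟨z, hz, rfl⟩)
        have : W = (S : Subgroup F).map F.subtype := by
          rw [← hWS, Subgroup.subgroupOf_map_subtype, inf_eq_left.2 hWF]
        rw [this]
        exact hSn
      have hcm : A ⊔ (Q : Subgroup G) = W.comap σ := by
        rw [hW, Subgroup.comap_map_eq, hσ, QuotientGroup.ker_mk', sup_comm]
      rw [hcm]
      exact hWn.comap σ
    · -- `G / O_{q'}(G)` is solvable
      haveI : IsMulCommutative V := ⟨⟨fun u w => Subtype.ext (by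
        obtain ⟨_, a, ha, rfl⟩ := u
        obtain ⟨_, b, hb, rfl⟩ := w
        exact hVab a ha b hb)⟩⟩
      have hVcop : (Nat.card V).Coprime V.index := by
        rw [← hPV]
        exact PV.card_coprime_index
      let C := Subgroup.centralizer (V : Set (G ⧸ K))
      have hVC : V ≤ C := Subgroup.le_centralizer V
      let Ω : Subgroup (G ⧸ K) :=
        { carrier := {z | z ∈ V ∧ z ^ q = 1}
          one_mem' := ⟨one_mem V, one_pow q⟩
          mul_mem' := fun {s t} hs ht => ⟨mul_mem hs.1 ht.1, by
            rw [(show Commute s t from Subgroup.mem_centralizer_iff.1 (hVC ht.1) s hs.1).mul_pow,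
              hs.2, ht.2, one_mul]⟩
          inv_mem' := fun {s} hs => ⟨inv_mem hs.1, by rw [inv_pow, hs.2, inv_one]⟩ }
      haveI : IsMulCommutative Ω := ⟨⟨fun s t => Subtype.ext
        (Subgroup.mem_centralizer_iff.1 (hVC t.2.1) s s.2.1)⟩⟩
      have hΩconj : ∀ (g : G ⧸ K), ∀ s ∈ Ω, g * s * g⁻¹ ∈ Ω := fun g s hs =>
        ⟨hVn.conj_mem s hs.1 g, by rw [conj_pow, hs.2, mul_one, mul_inv_cancel]⟩
      haveI hΩn : Ω.Normal := ⟨fun s hs g => hΩconj g s hs⟩
      set C₂ := Subgroup.centralizer (Ω : Set (G ⧸ K)) with hC₂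
      -- `C(V) = V`
      have hCV : C ≤ V := by
        intro g hg
        haveI : (V.subgroupOf C).Normal := hVn.subgroupOf C
        have hcop' : (Nat.card (V.subgroupOf C)).Coprime (V.subgroupOf C).index := by
          rw [Nat.card_congr (Subgroup.subgroupOfEquivOfLe hVC).toEquiv]
          exact hVcop.coprime_dvd_right (Subgroup.relIndex_dvd_index_of_le hVC)
        obtain ⟨N', hN'⟩ := Subgroup.exists_right_complement'_of_coprime hcop'
        have hNcard' : Nat.card N' = (V.subgroupOf C).index := H19.card_eq_index_of_isComplement' hN'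
        have hcentral : ∀ z ∈ V, ∀ c ∈ C, c * z = z * c := fun z hz c hc =>
          (Subgroup.mem_centralizer_iff.1 hc z hz).symm
        haveI hN'n : N'.Normal := by
          refine ⟨fun m hm c => ?_⟩
          obtain ⟨⟨w, l⟩, hwl, -⟩ := Subgroup.isComplement_iff_existsUnique.1 hN' c
          simp only at hwl
          rw [← hwl, show (w : C) * l * m * ((w : C) * l)⁻¹ = (w : C) * ((l : C) * m * (l : C)⁻¹) * (w : C)⁻¹ by group]
          have hmem : (l : C) * m * (l : C)⁻¹ ∈ N' := mul_mem (mul_mem l.2 hm) (inv_mem l.2)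
          have hw : ((l : C) * m * (l : C)⁻¹) * (w : C) = (w : C) * ((l : C) * m * (l : C)⁻¹) :=
            Subtype.ext (hcentral _ w.2 _ ((l : C) * m * (l : C)⁻¹).2)
          rw [← hw, mul_inv_cancel_right]
          exact hmem
        -- `N'` is the set of elements of order prime to `q`, hence normal in `G ⧸ K`
        have hNq : ∀ m : C, m ∈ N' ↔ (orderOf m).Coprime (Nat.card V) := by
          intro m
          constructor
          · intro hm
            refine Nat.Coprime.coprime_dvd_left (Subgroup.orderOf_mk m hm ▸ orderOf_dvd_natCard _) ?_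
            rw [hNcard']
            exact (hVcop.coprime_dvd_right (Subgroup.relIndex_dvd_index_of_le hVC)).symm
          · intro hm
            refine H53.mem_of_coprime_orderOf_index N' ?_
            rw [hN'.index_eq_card, Nat.card_congr (Subgroup.subgroupOfEquivOfLe hVC).toEquiv]
            exact hm
        have hn : (N'.map C.subtype).Normal := by
          refine ⟨?_⟩
          rintro _ ⟨m, hm, rfl⟩ k
          refine ⟨⟨k * (m : G ⧸ K) * k⁻¹, (inferInstance : C.Normal).conj_mem _ m.2 k⟩, ?_, rfl⟩
          rw [SetLike.mem_coe, hNq, Subgroup.orderOf_mk]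
          have e : orderOf (k * (m : G ⧸ K) * k⁻¹) = orderOf (m : G ⧸ K) :=
            orderOf_injective (MulAut.conj k).toMonoidHom (MulAut.conj k).injective _
          rw [e, Subgroup.orderOf_coe]
          exact (hNq m).1 hm
        have hcopq : (Nat.card (N'.map C.subtype)).Coprime q := by
          rw [Nat.card_congr (Subgroup.equivMapOfInjective N' C.subtype C.subtype_injective).toEquiv.symm,
            hNcard']
          refine Nat.Coprime.coprime_dvd_left (Subgroup.relIndex_dvd_index_of_le hVC) ?_
          rw [← hPV]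
          exact (hq.coprime_iff_not_dvd.2 PV.not_dvd_index).symm
        have hbot := H19.le_pPrimeCore hn hcopq
        rw [hKq, le_bot_iff, Subgroup.map_eq_bot_iff_of_injective _ C.subtype_injective] at hbot
        subst hbot
        rw [Subgroup.isComplement'_bot_right] at hN'
        have : (⟨g, hg⟩ : C) ∈ V.subgroupOf C := hN' ▸ Subgroup.mem_top _
        exact this
      -- `C(Ω) = V`
      have hVC₂ : V ≤ C₂ := fun z hz => Subgroup.mem_centralizer_iff.2 fun s hs =>
        Subgroup.mem_centralizer_iff.1 (hVC hz) s hs.1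
      have hC₂V : C₂ ≤ V := by
        intro g hg
        obtain ⟨i, hi⟩ : ∃ i, Nat.card V = q ^ i := hVq.exists_card_eq
        -- the `q'`-part of `g` centralises `V`
        have hcent : ∀ m : G ⧸ K, m ∈ C₂ → (orderOf m).Coprime q → m ∈ C := by
          intro m hm hco
          refine Subgroup.mem_centralizer_iff.2 fun z hz => ?_
          have hfix : ∀ v : G ⧸ K, v ∈ V → ∀ j : ℕ, v ^ q ^ j = 1 → m * v = v * m := by
            intro v hv j
            induction j generalizing v with
            | zero => intro h; rw [pow_zero, pow_one] at h; rw [h]; simp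
            | succ j ihj =>
              intro h
              have h1 : m * v ^ q = v ^ q * m :=
                ihj (v ^ q) (pow_mem hv q) (by rw [← pow_mul, ← pow_succ']; exact h)
              set w := m * v * m⁻¹ * v⁻¹ with hwdef
              have hcv : Commute (m * v * m⁻¹) v⁻¹ :=
                (show Commute (m * v * m⁻¹) v from
                  Subgroup.mem_centralizer_iff.1 (hVC hv) _ (hVn.conj_mem v hv m)).inv_right
              have hwΩ : w ∈ Ω := ⟨mul_mem (hVn.conj_mem v hv m) (inv_mem hv), by
                rw [hwdef, hcv.mul_pow, conj_pow, inv_pow, h1, mul_inv_cancel_right, mul_inv_cancel]⟩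
              have hmw : m * w * m⁻¹ = w :=
                mul_inv_eq_iff_eq_mul.2 (Subgroup.mem_centralizer_iff.1 hm w hwΩ).symm
              have hit : ∀ l : ℕ, m ^ l * v * (m ^ l)⁻¹ = w ^ l * v := by
                intro l
                induction l with
                | zero => simp
                | succ l ihl =>
                  calc m ^ (l + 1) * v * (m ^ (l + 1))⁻¹ = m * (m ^ l * v * (m ^ l)⁻¹) * m⁻¹ := by
                        rw [pow_succ', mul_inv_rev]; simp only [mul_assoc]
                    _ = (m * w * m⁻¹) ^ l * (m * v * m⁻¹) := by rw [ihl, conj_pow]; group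
                    _ = w ^ (l + 1) * v := by
                      have e : m * v * m⁻¹ = w * v := (inv_mul_cancel_right _ v).symm
                      rw [hmw, pow_succ, mul_assoc (w ^ l), ← e]
              have h2 := hit (orderOf m)
              rw [pow_orderOf_eq_one, one_mul, inv_one, mul_one] at h2
              have hwo : w ^ orderOf m = 1 := mul_eq_right.1 h2.symm
              have hw1 : w = 1 := by
                rw [← orderOf_eq_one_iff]
                exact Nat.eq_one_of_dvd_coprimes hco (orderOf_dvd_of_pow_eq_one hwo)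
                  (orderOf_dvd_of_pow_eq_one hwΩ.2)
              exact mul_inv_eq_iff_eq_mul.1 (mul_inv_eq_one.1 hw1)
          exact (hfix z hz i (by
            rw [← hi]
            exact orderOf_dvd_iff_pow_eq_one.1 (Subgroup.orderOf_mk z hz ▸ orderOf_dvd_natCard _))).symm
        have h1 : g ^ q ^ i ∈ V := by
          refine hCV (hcent _ (pow_mem hg _) ?_)
          refine Nat.Coprime.coprime_dvd_left (orderOf_dvd_of_pow_eq_one (n := V.index) ?_) ?_
          · rw [← pow_mul, ← hi, Subgroup.card_mul_index, pow_card_eq_one']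
          · rw [← hPV]
            exact (hq.coprime_iff_not_dvd.2 PV.not_dvd_index).symm
        rw [← QuotientGroup.eq_one_iff (N := V), ← orderOf_eq_one_iff]
        refine Nat.eq_one_of_dvd_coprimes (hi ▸ hVcop) ?_ (orderOf_dvd_natCard _)
        refine orderOf_dvd_of_pow_eq_one ?_
        rw [← QuotientGroup.mk_pow, QuotientGroup.eq_one_iff]
        exact h1
      -- the action on `Ω`
      letI : DistribMulAction ((G ⧸ K) ⧸ V) (Additive Ω) :=
        { smul := fun t s => Additive.ofMul
            ((QuotientGroup.lift V (MulAut.conjNormal (H := Ω)) (fun z hz => by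
              refine MonoidHom.mem_ker.2 (MulEquiv.ext fun s => Subtype.ext ?_)
              show z * (s : G ⧸ K) * z⁻¹ = s
              exact mul_inv_eq_iff_eq_mul.2
                (Subgroup.mem_centralizer_iff.1 (hVC₂ hz) s s.2).symm) t) (Additive.toMul s))
          one_smul := fun s => by
            show Additive.ofMul (_ : Ω) = s
            rw [map_one]
            rfl
          mul_smul := fun t t' s => by
            show Additive.ofMul (_ : Ω) = Additive.ofMul (_ : Ω)
            rw [map_mul]
            rfl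
          smul_zero := fun t => by
            show Additive.ofMul (_ : Ω) = 0
            rw [toMul_zero, map_one]
            rfl
          smul_add := fun t s s' => by
            show Additive.ofMul (_ : Ω) = Additive.ofMul (_ : Ω) + Additive.ofMul (_ : Ω)
            rw [toMul_add, map_mul]
            rfl }
      have hsolT : Group.IsSolvable ((G ⧸ K) ⧸ V) := by
        refine Cfsg.Agent.H32.OrbitSolvable.main (Nat.card ((G ⧸ K) ⧸ V)) (W := Additive Ω) rfl ?_ hq
          (fun s => ?_) ?_ hp (fun s => ?_)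
        · intro t ht
          induction t using QuotientGroup.induction_on with
          | H z =>
            rw [QuotientGroup.eq_one_iff]
            refine hC₂V (Subgroup.mem_centralizer_iff.2 fun s hs => ?_)
            have h1 := congrArg (fun w : Additive Ω => ((Additive.toMul w : Ω) : G ⧸ K))
              (ht (Additive.ofMul ⟨s, hs⟩))
            have h2 : z * s * z⁻¹ = s := h1
            exact (mul_inv_eq_iff_eq_mul.1 h2).symm
        · show Additive.ofMul ((Additive.toMul s) ^ q) = 0
          have h1 : (Additive.toMul s : Ω) ^ q = 1 := Subtype.ext (Additive.toMul s : Ω).2.2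
          rw [h1]
          rfl
        · rw [← Subgroup.index_eq_card, ← hPV]
          exact PV.not_dvd_index
        · obtain ⟨u, hu, hus⟩ := (Additive.toMul s : Ω).2.1
          obtain ⟨b, hb⟩ := hpall u (exists_orderOf_of_mem Q.2 hu)
          have hle : ((Subgroup.centralizer ({u} : Set G)).map π).map (QuotientGroup.mk' V) ≤
              MulAction.stabilizer ((G ⧸ K) ⧸ V) s := by
            rintro _ ⟨_, ⟨c, hc, rfl⟩, rfl⟩
            rw [MulAction.mem_stabilizer_iff]
            refine (congrArg Additive.ofMul (Subtype.ext ?_) : _ = Additive.ofMul (Additive.toMul s))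
            show π c * ((Additive.toMul s : Ω) : G ⧸ K) * (π c)⁻¹ = _
            rw [← hus, ← map_inv, ← map_mul, ← map_mul,
              mul_inv_eq_iff_eq_mul.2 (Subgroup.mem_centralizer_singleton_iff.1 hc)]
          obtain ⟨b', -, hb'⟩ := (Nat.dvd_prime_pow hp).1 (((Subgroup.index_dvd_of_le hle).trans
            ((Subgroup.index_map_dvd _ (QuotientGroup.mk'_surjective V)).trans
              (Subgroup.index_map_dvd _ hπs))).trans (dvd_of_eq hb))
          exact ⟨b', hb'⟩
      refine Cfsg.Agent.H32.OrbitCyclic.isSolvable_of_normal_solvable (QuotientGroup.mk' V) ?_ hsolT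
      rw [QuotientGroup.ker_mk']
      exact Group.isSolvable_of_comm fun s t => mul_comm' s t

end Cfsg.Agent.H32.QBaer
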