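import Mathlib

/-!
# Signs of permutations that respect a splitting into halves or into blocks
-/

set_option autoImplicit false

namespace Cfsg.Agent.H32.SplitSign

open Equiv

variable {X : Type*} [Finite X]

/-- The sign, without decidability assumptions. -/
noncomputable def sgn {Y : Type*} [Finite Y] : Perm Y →* ℤˣ := by
  classical
  haveI := Fintype.ofFinite Y
  exact Perm.sign

theorem sgn_eq {Y : Type*} [Finite Y] [DecidableEq Y] [Fintype Y] (σ : Perm Y) :
    sgn σ = Perm.sign σ := by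
  unfold sgn
  congr! <;> exact Subsingleton.elim _ _

theorem sgn_congr {Y Z : Type*} [Finite Y] [Finite Z] (σ : Perm Y) (τ : Perm Z) (e : Y ≃ Z)
    (h : ∀ y, e (σ y) = τ (e y)) : sgn σ = sgn τ := by
  classical
  haveI := Fintype.ofFinite Y
  haveI := Fintype.ofFinite Z
  rw [sgn_eq, sgn_eq]
  exact Perm.sign_eq_sign_of_equiv σ τ e h

/-- `σ` stabilises `A`. -/
def Stab (A : Set X) (σ : Perm X) : Prop := ∀ x, σ x ∈ A ↔ x ∈ A

theorem stab_of_mapsTo {A : Set X} {σ : Perm X} (h : ∀ x ∈ A, σ x ∈ A) : Stab A σ := by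
  intro x
  refine ⟨fun hx => ?_, h x⟩
  have hs : (σ ^ (orderOf σ - 1)) (σ x) ∈ A := by
    have hall : ∀ n : ℕ, ∀ z ∈ A, (σ ^ n) z ∈ A := by
      intro n
      induction n with
      | zero => exact fun z hz => hz
      | succ n ih =>
        intro z hz
        rw [pow_succ', Perm.mul_apply]
        exact h _ (ih z hz)
    exact hall _ _ hx
  rwa [← Perm.mul_apply, ← pow_succ, Nat.sub_add_cancel (orderOf_pos σ), pow_orderOf_eq_one,
    Perm.one_apply] at hs

theorem Stab.mul {A : Set X} {σ τ : Perm X} (h1 : Stab A σ) (h2 : Stab A τ) : Stab A (σ * τ) :=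
  fun x => (h1 (τ x)).trans (h2 x)

theorem Stab.inv {A : Set X} {σ : Perm X} (h : Stab A σ) : Stab A σ⁻¹ := fun x => by
  simpa using (h (σ⁻¹ x)).symm

open scoped Classical in
/-- The sign of `σ` on the set `A`. -/
noncomputable def onSet (A : Set X) (σ : Perm X) : ℤˣ :=
  if h : Stab A σ then sgn (σ.subtypePerm h : Perm {x // x ∈ A}) else 1

theorem onSet_of {A : Set X} {σ : Perm X} (h : Stab A σ) :
    onSet A σ = sgn (σ.subtypePerm h : Perm {x // x ∈ A}) := dif_pos h

theorem onSet_mul {A : Set X} {σ τ : Perm X} (h1 : Stab A σ) (h2 : Stab A τ) :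
    onSet A (σ * τ) = onSet A σ * onSet A τ := by
  rw [onSet_of h1, onSet_of h2, onSet_of (h1.mul h2), ← map_mul]
  rfl

theorem onSet_of_fix {A : Set X} {σ : Perm X} (h : ∀ x ∈ A, σ x = x) : onSet A σ = 1 := by
  have hs : Stab A σ := stab_of_mapsTo fun x hx => (h x hx).symm ▸ hx
  rw [onSet_of hs, show (σ.subtypePerm hs : Perm {x // x ∈ A}) = 1 from Equiv.ext fun x => Subtype.ext (h x x.2), map_one]

theorem onSet_univ (σ : Perm X) : onSet Set.univ σ = sgn σ := by
  rw [onSet_of (fun x => by simp)]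
  exact sgn_congr _ _ (Equiv.subtypeUnivEquiv fun x => Set.mem_univ x) fun y => rfl

theorem onSet_union {A B : Set X} (hd : Disjoint A B) {σ : Perm X} (hA : Stab A σ) (hB : Stab B σ) :
    onSet (A ∪ B) σ = onSet A σ * onSet B σ := by
  classical
  have hs : Stab (A ∪ B) σ := fun x => or_congr (hA x) (hB x)
  rw [onSet_of hA, onSet_of hB, onSet_of hs]
  have h1 := sgn_congr (σ.subtypePerm hs : Perm ↥(A ∪ B))
    (Equiv.Perm.sumCongr (σ.subtypePerm hA : Perm ↥A) (σ.subtypePerm hB : Perm ↥B))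
    (Equiv.Set.union hd) (by
      rintro ⟨y, hy⟩
      rcases hy with h | h
      · rw [Equiv.Set.union_apply_left hd (a := ⟨y, Or.inl h⟩) h]
        exact Equiv.Set.union_apply_left hd (a := ⟨σ y, Or.inl ((hA y).2 h)⟩) ((hA y).2 h)
      · rw [Equiv.Set.union_apply_right hd (a := ⟨y, Or.inr h⟩) h]
        exact Equiv.Set.union_apply_right hd (a := ⟨σ y, Or.inr ((hB y).2 h)⟩) ((hB y).2 h))
  refine h1.trans ?_
  haveI := Fintype.ofFinite X
  rw [sgn_eq, sgn_eq, sgn_eq]
  convert Perm.sign_sumCongr (σ.subtypePerm hA : Perm ↥A) (σ.subtypePerm hB : Perm ↥B)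

/-- Transport of the sign along a bijection. -/
theorem onSet_conj {A B : Set X} (a : Perm X) (hab : ∀ x, a x ∈ B ↔ x ∈ A) {σ : Perm X}
    (hB : Stab B σ) : onSet B σ = onSet A (a⁻¹ * σ * a) := by
  have hA : Stab A (a⁻¹ * σ * a) := fun x => by
    rw [← hab, ← hab x]
    simpa using hB (a x)
  rw [onSet_of hB, onSet_of hA]
  exact (sgn_congr _ _ (a.subtypeEquiv fun x => (hab x).symm) fun y => Subtype.ext (by
    show a ((a⁻¹ * σ * a) y) = σ (a y)
    simp)).symm

/-- The sign of a permutation swapping two halves. -/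
theorem onSet_swap {A B : Set X} (hd : Disjoint A B) {a : Perm X} (hA : ∀ x ∈ A, a x ∈ B)
    (hB : ∀ x ∈ B, a x ∈ A) : onSet (A ∪ B) a = onSet A (a * a) * (-1) ^ Nat.card A := by
  classical
  haveI := Fintype.ofFinite X
  have hs : Stab (A ∪ B) a := stab_of_mapsTo fun x hx => hx.elim (fun h => Or.inr (hA x h)) fun h => Or.inl (hB x h)
  have hs2 : Stab A (a * a) := stab_of_mapsTo fun x hx => hB _ (hA x hx)
  have hBA : ∀ x ∈ B, ∃ y ∈ A, a y = x := by
    intro x hx
    refine ⟨a.symm x, ?_, a.apply_symm_apply x⟩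
    rcases (hs (a.symm x)).1 (by simpa using Or.inr hx) with h | h
    · exact h
    · exact absurd (by simpa using hB _ h) (Set.disjoint_right.1 hd hx)
  let g : ↥A × Bool → ↥(A ∪ B) := fun p => bif p.2 then ⟨a p.1, Or.inr (hA _ p.1.2)⟩ else ⟨p.1, Or.inl p.1.2⟩
  have hg : Function.Bijective g := by
    constructor
    · rintro ⟨x, i⟩ ⟨y, j⟩ h
      have h' := congrArg Subtype.val h
      cases i <;> cases j <;> simp only [g, cond_true, cond_false] at h'
      · exact Prod.ext (Subtype.ext h') rfl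
      · exact absurd (h'.symm ▸ hA _ y.2) (Set.disjoint_left.1 hd x.2)
      · exact absurd (h' ▸ hA _ x.2) (Set.disjoint_left.1 hd y.2)
      · exact Prod.ext (Subtype.ext (a.injective h')) rfl
    · rintro ⟨x, hx | hx⟩
      · exact ⟨(⟨x, hx⟩, false), rfl⟩
      · obtain ⟨y, hy, rfl⟩ := hBA x hx
        exact ⟨(⟨y, hy⟩, true), rfl⟩
  let c : Bool → Perm ↥A := fun i => bif i then 1 else (a * a).subtypePerm hs2
  let w : ↥A → Perm Bool := fun _ => Equiv.swap false true
  rw [onSet_of hs]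
  rw [← sgn_congr (Equiv.prodCongrLeft c * Equiv.prodCongrRight w)
    (a.subtypePerm hs : Perm ↥(A ∪ B)) (Equiv.ofBijective g hg) (by rintro ⟨x, (_|_)⟩ <;> rfl)]
  rw [map_mul, sgn_eq, sgn_eq]
  rw [Perm.sign_prodCongrLeft, Perm.sign_prodCongrRight, Fintype.prod_bool, onSet_of hs2]
  simp [c, w, sgn_eq, Nat.card_eq_fintype_card]

/-- A permutation respecting a splitting into halves is even on the union. -/
theorem onSet_half {A B : Set X} (hd : Disjoint A B) (hev : Even (Nat.card A)) {a σ : Perm X}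
    (hA : ∀ x ∈ A, a x ∈ B) (hB : ∀ x ∈ B, a x ∈ A) (hsq : onSet A (a * a) = 1)
    (hσ : (Stab A σ ∧ Stab B σ) ∨ ((∀ x ∈ A, σ x ∈ B) ∧ (∀ x ∈ B, σ x ∈ A)))
    (hc1 : Stab A σ → onSet A (a⁻¹ * σ * a * σ⁻¹) = 1)
    (hc2 : Stab A (a⁻¹ * σ) → onSet A (a⁻¹ * (a⁻¹ * σ) * a * (a⁻¹ * σ)⁻¹) = 1) :
    onSet (A ∪ B) σ = 1 := by
  have hs : Stab (A ∪ B) a := stab_of_mapsTo fun x hx => hx.elim (fun h => Or.inr (hA x h)) fun h => Or.inl (hB x h)
  have hab : ∀ x, a x ∈ B ↔ x ∈ A := fun x => by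
    refine ⟨fun h => ?_, hA x⟩
    rcases (hs x).1 (Or.inr h) with h' | h'
    · exact h'
    · exact absurd h (Set.disjoint_left.1 hd (hB x h'))
  have key : ∀ τ : Perm X, Stab A τ → Stab B τ → onSet A (a⁻¹ * τ * a * τ⁻¹) = 1 → onSet (A ∪ B) τ = 1 := by
    intro τ h1 h2 h3
    rw [onSet_union hd h1 h2, onSet_conj a hab h2]
    have h4 : Stab A (a⁻¹ * τ * a) := fun x => by rw [← hab, ← hab x]; simpa using h2 (a x)
    have h5 : onSet A (a⁻¹ * τ * a) = onSet A (a⁻¹ * τ * a * τ⁻¹) * onSet A τ := by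
      rw [← onSet_mul (h4.mul h1.inv) h1, inv_mul_cancel_right]
    rw [h5, h3, one_mul, Int.units_mul_self]
  rcases hσ with ⟨h1, h2⟩ | ⟨h1, h2⟩
  · exact key σ h1 h2 (hc1 h1)
  · have hba : ∀ x, a x ∈ A ↔ x ∈ B := fun x => by
      refine ⟨fun h => ?_, hB x⟩
      rcases (hs x).1 (Or.inl h) with h' | h'
      · exact absurd h (Set.disjoint_right.1 hd (hA x h'))
      · exact h'
    have t1 : Stab A (a⁻¹ * σ) := stab_of_mapsTo fun x hx => by
      rw [← hab]; simpa using h1 x hx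
    have t2 : Stab B (a⁻¹ * σ) := stab_of_mapsTo fun x hx => by
      rw [← hba]; simpa using h2 x hx
    have := onSet_mul (A := A ∪ B) hs (σ := a) (τ := a⁻¹ * σ) (fun x => or_congr (t1 x) (t2 x))
    rw [mul_inv_cancel_left] at this
    rw [this, key _ t1 t2 (hc2 t1), mul_one, onSet_swap hd hA hB, hsq, hev.neg_one_pow, one_mul]

/-- A permutation respecting blocks of even size is even if all return maps are even. -/
theorem onSet_blocks {Y : Type*} (f : X → Y) (σ : Perm X) (U : Set X) (hU : Stab U σ)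
    (hsat : ∀ x ∈ U, ∀ y, f y = f x → y ∈ U)
    (hf : ∀ x ∈ U, ∀ y ∈ U, (f (σ x) = f (σ y) ↔ f x = f y))
    (hev : ∀ x ∈ U, Even (Nat.card {y | f y = f x}))
    (hret : ∀ x ∈ U, ∀ n : ℕ, 0 < n → f ((σ ^ n) x) = f x → onSet {y | f y = f x} (σ ^ n) = 1) :
    onSet U σ = 1 := by
  classical
  haveI := Fintype.ofFinite X
  induction h : U.ncard using Nat.strong_induction_on generalizing U with
  | _ N ih =>
    rcases U.eq_empty_or_nonempty with rfl | ⟨x, hx⟩
    · exact onSet_of_fix fun y hy => absurd hy (Set.notMem_empty y)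
    have hpU : ∀ n : ℕ, ∀ y, (σ ^ n) y ∈ U ↔ y ∈ U := by
      intro n
      induction n with
      | zero => exact fun y => Iff.rfl
      | succ n ihn => exact fun y => by rw [pow_succ', Perm.mul_apply, hU, ihn]
    have hfn : ∀ n : ℕ, ∀ a ∈ U, ∀ b ∈ U, (f ((σ ^ n) a) = f ((σ ^ n) b) ↔ f a = f b) := by
      intro n
      induction n with
      | zero => exact fun a _ b _ => Iff.rfl
      | succ n ihn =>
        intro a ha b hb
        rw [pow_succ', Perm.mul_apply, Perm.mul_apply, hf _ ((hpU n a).2 ha) _ ((hpU n b).2 hb), ihn a ha b hb]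
    let A : Set X := {y | f y = f x}
    have hAU : ∀ y ∈ A, y ∈ U := fun y hy => hsat x hx y hy
    have hex : ∃ n, 0 < n ∧ f ((σ ^ n) x) = f x :=
      ⟨orderOf σ, orderOf_pos σ, by rw [pow_orderOf_eq_one, Perm.one_apply]⟩
    obtain ⟨m, hm⟩ : ∃ m, Nat.find hex = m + 1 := ⟨Nat.find hex - 1, by have := (Nat.find_spec hex).1; omega⟩
    have hl := Nat.find_spec hex
    have hmin : ∀ n, 0 < n → n < m + 1 → f ((σ ^ n) x) ≠ f x := fun n h0 hn e =>
      Nat.find_min hex (hm ▸ hn) ⟨h0, e⟩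
    rw [hm] at hl
    let O : Set X := {y | ∃ i : Fin (m + 1), ∃ a ∈ A, (σ ^ (i : ℕ)) a = y}
    have hR : Stab A (σ ^ (m + 1)) := stab_of_mapsTo fun y hy => by
      show f _ = f x
      rw [(hfn (m + 1) y (hAU y hy) x hx).2 hy]
      exact hl.2
    have hOU : ∀ y ∈ O, y ∈ U := by
      rintro _ ⟨i, a, ha, rfl⟩
      exact (hpU _ a).2 (hAU a ha)
    let g : Fin (m + 1) × ↥A → ↥O := fun p => ⟨(σ ^ (p.1 : ℕ)) p.2, p.1, p.2, p.2.2, rfl⟩
    have hinj : ∀ i j : ℕ, i < j → j < m + 1 → ∀ a ∈ A, ∀ b ∈ A, (σ ^ i) a ≠ (σ ^ j) b := by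
      intro i j hij hj a ha b hb e
      rw [← Nat.add_sub_cancel' hij.le, pow_add, Perm.mul_apply] at e
      have e1 := (σ ^ i).injective e
      refine hmin (j - i) (by omega) (by omega) ?_
      rw [← (hfn (j - i) b (hAU b hb) x hx).2 hb, ← e1]
      exact ha
    have hg : Function.Bijective g := by
      constructor
      · rintro ⟨i, a⟩ ⟨j, b⟩ e
        have e' := congrArg Subtype.val e
        rcases lt_trichotomy (i : ℕ) j with hlt | heq | hlt
        · exact absurd e' (hinj _ _ hlt j.2 a a.2 b b.2)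
        · rw [show i = j from Fin.ext heq] at e' ⊢
          exact Prod.ext rfl (Subtype.ext ((σ ^ (j : ℕ)).injective e'))
        · exact absurd e'.symm (hinj _ _ hlt i.2 b b.2 a a.2)
      · rintro ⟨_, i, a, ha, rfl⟩
        exact ⟨(i, ⟨a, ha⟩), rfl⟩
    let F : Fin (m + 1) → Perm ↥A := fun i => if i = 0 then (σ ^ (m + 1)).subtypePerm hR else 1
    let rot : Perm (Fin (m + 1)) := finRotate (m + 1)
    have hstep : ∀ p : Fin (m + 1) × ↥A,
        σ (g p : X) = (g ((Equiv.prodCongrRight F * (Equiv.prodCongrLeft fun _ => rot) : Perm (Fin (m + 1) × ↥A)) p) : X) := by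
      rintro ⟨i, a⟩
      show σ ((σ ^ (i : ℕ)) (a : X)) = (σ ^ ((rot i : Fin (m + 1)) : ℕ)) ((F (rot i) a : ↥A) : X)
      rw [← Perm.mul_apply, ← pow_succ']
      simp only [rot, finRotate_succ_apply]
      by_cases hi : i = Fin.last m
      · subst hi
        simp [F]
        rfl
      · have hv : ((i + 1 : Fin (m + 1)) : ℕ) = i + 1 :=
          Fin.val_add_one_of_lt (Fin.lt_last_iff_ne_last.2 hi)
        have h0 : i + 1 ≠ 0 := fun h0 => by rw [h0] at hv; simp at hv
        simp [F, h0, hv]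
    have hO : Stab O σ := stab_of_mapsTo fun y hy => by
      obtain ⟨p, hp⟩ := hg.2 ⟨y, hy⟩
      have e := hstep p
      rw [hp] at e
      exact e ▸ (g _).2
    have hOsat : ∀ y ∈ O, ∀ y', f y' = f y → y' ∈ O := by
      rintro _ ⟨i, a, ha, rfl⟩ y' hy'
      refine ⟨i, (σ ^ (i : ℕ)).symm y', ?_, (σ ^ (i : ℕ)).apply_symm_apply y'⟩
      have hy'U : y' ∈ U := hsat _ ((hpU _ a).2 (hAU a ha)) y' hy'
      have hsU : (σ ^ (i : ℕ)).symm y' ∈ U := (hpU i _).1 (by rwa [Equiv.apply_symm_apply])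
      show f _ = f x
      rw [← ha, ← hfn i _ hsU a (hAU a ha), Equiv.apply_symm_apply]
      exact hy'
    have hone : onSet O σ = 1 := by
      rw [onSet_of hO, ← sgn_congr (Equiv.prodCongrRight F * (Equiv.prodCongrLeft fun _ => rot) : Perm (Fin (m + 1) × ↥A))
        (σ.subtypePerm hO : Perm ↥O) (Equiv.ofBijective g hg) (fun p => Subtype.ext (hstep p).symm),
        map_mul, sgn_eq, sgn_eq, Perm.sign_prodCongrLeft, Perm.sign_prodCongrRight, Finset.prod_const]
      have e1 : ∀ i, Perm.sign (F i) = 1 := by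
        intro i
        simp only [F]
        split_ifs with h0
        · rw [← sgn_eq, ← onSet_of hR]
          exact hret x hx _ (Nat.succ_pos m) hl.2
        · exact map_one _
      have e2 : Even (Finset.univ : Finset ↥A).card := by
        rw [Finset.card_univ, ← Nat.card_eq_fintype_card]; exact hev x hx
      rw [Finset.prod_eq_one fun i _ => e1 i, one_mul]
      obtain ⟨k, hk⟩ := e2
      rw [hk, pow_add, Int.units_mul_self]
    have hxO : x ∈ O := ⟨0, x, rfl, rfl⟩
    have hR' : Stab (U \ O) σ := fun y => and_congr (hU y) (not_congr (hO y))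
    have hrest : onSet (U \ O) σ = 1 := by
      refine ih _ ?_ _ hR' ?_ ?_ ?_ ?_ rfl
      · rw [← h]
        exact Set.ncard_lt_ncard ⟨Set.sdiff_subset, fun hsub => (hsub hx).2 hxO⟩
      · intro y hy y' hy'
        exact ⟨hsat y hy.1 y' hy', fun h' => hy.2 (hOsat y' h' y hy'.symm)⟩
      · exact fun a ha b hb => hf a ha.1 b hb.1
      · exact fun a ha => hev a ha.1
      · exact fun a ha => hret a ha.1
    have hun : U = O ∪ (U \ O) := (Set.union_sdiff_cancel fun y hy => hOU y hy).symm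
    rw [hun, onSet_union Set.disjoint_sdiff_right hO hR', hone, hrest, one_mul]

end Cfsg.Agent.H32.SplitSign
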